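/-
helper50: the few model facts on `SM = 3³:S₄` used by the pieces VXW and INVOLXW of CALL S3702
(helper16), proved by `decide` (own names, so that the pieces do not wait for another module).
-/
import Cfsg.Agent.Helper16.S4Defs2

set_option autoImplicit false

namespace Cfsg.Agent.Helper50

open Cfsg DihedralGroup Cfsg.Agent.Helper16

set_option maxRecDepth 1000000 in
theorem s4m_x : sx ^ 3 = 1 ∧ sx ≠ 1 ∧ ¬ sJ sx ∧ kap sx = 1 ∧ sP sx ∧ sx⁻¹ ≠ sx := by
  decide +kernel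

set_option maxRecDepth 1000000 in
theorem s4m_z : sJ sz ∧ sz ≠ 1 ∧ sz ^ 3 = 1 ∧ sP sz ∧ kap sz = 0 ∧ sE sz ∧ sJ sz⁻¹ := by
  decide +kernel

set_option maxRecDepth 1000000 in
theorem s4m_b : sb ^ 2 = 1 ∧ sb * sx * sb⁻¹ = sx⁻¹ ∧ sb * sz * sb⁻¹ = sz⁻¹ := by
  decide +kernel

set_option maxRecDepth 1000000 in
theorem s4m_a : sa ^ 2 = 1 ∧ sa ≠ 1 := by decide +kernel

set_option maxRecDepth 1000000 in
theorem s4m_R_pow9 : ∀ m : SM, sR m → m ^ 9 = 1 := by decide +kernel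

set_option maxRecDepth 1000000 in
theorem s4m_P : ∀ p : SM, sP p → p ^ 3 = 1 ∧ sP p⁻¹ ∧ dRefl p.d = false ∧ p * sz = sz * p := by
  decide +kernel

set_option maxRecDepth 1000000 in
theorem s4m_kap1 : kap (1 : SM) = 0 ∧ kap sx⁻¹ ≠ 0 := by decide +kernel

set_option maxRecDepth 1000000 in
theorem s4m_a_conj : ∀ s : SM, (s * sa * s⁻¹).d = 1 := by decide +kernel

set_option maxRecDepth 1000000 in
theorem s4m_d1_x : ∀ m : SM, m.d = 1 → m * sx * m⁻¹ ≠ sx⁻¹ := by decide +kernel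

end Cfsg.Agent.Helper50
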