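/-
helper50: PIECE VXW of CALL S3702 (helper16): the counting sets at `g = x w`, `w ∈ W ∖ 1`.
-/
import Cfsg.Agent.Helper50.S4MFacts

set_option autoImplicit false

namespace Cfsg.Agent.Helper50

open Cfsg DihedralGroup Cfsg.Agent.Helper16

/-- An element killed by two coprime exponents is trivial. -/
theorem s4h_eq_one_of_pow {G : Type*} [Group G] (w : G) (a n : ℕ) (h1 : w ^ a = 1)
    (h2 : w ^ n = 1) (hc : n.Coprime a) : w = 1 := by
  have h3 := orderOf_dvd_of_pow_eq_one h1
  have h4 := orderOf_dvd_of_pow_eq_one h2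
  have h5 : orderOf w ∣ Nat.gcd n a := Nat.dvd_gcd h4 h3
  have h6 : Nat.gcd n a = 1 := hc
  rw [h6] at h5
  exact orderOf_eq_one_iff.mp (Nat.dvd_one.mp h5)

/-- `x` is a power of `x w` when `x`, `w` commute and have coprime orders `3`, `n`. -/
theorem s4h_pow_sq {G : Type*} [Group G] (x w : G) (n : ℕ) (hc : x * w = w * x)
    (hx : x ^ 3 = 1) (hw : w ^ n = 1) (hn : n.Coprime 3) : (x * w) ^ (n ^ 2) = x := by
  have hcomm : Commute x w := hc
  rw [hcomm.mul_pow]
  have h1 : w ^ (n ^ 2) = 1 := by rw [pow_two, pow_mul, hw, one_pow]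
  have h2 : n ^ 2 % 3 = 1 := by
    have h3 : ¬ 3 ∣ n := (Nat.Prime.coprime_iff_not_dvd Nat.prime_three).mp hn.symm
    have h4 : n % 3 = 1 ∨ n % 3 = 2 := by omega
    rw [Nat.pow_mod]
    rcases h4 with h4 | h4 <;> rw [h4]
  rw [h1, mul_one, pow_eq_pow_mod (n ^ 2) hx, h2, pow_one]

/-- Elements of a finite subgroup are killed by its order. -/
theorem s4h_pow_card {G : Type*} [Group G] (W : Subgroup G) (w : G) (hw : w ∈ W) :
    w ^ Nat.card W = 1 := by
  have h1 : (⟨w, hw⟩ : ↥W) ^ Nat.card W = 1 := pow_card_eq_one'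
  have h2 : ((⟨w, hw⟩ : ↥W) : G) ^ Nat.card W = 1 := by
    rw [← SubmonoidClass.coe_pow, h1]; rfl
  exact h2

section

variable {G : Type*} [Group G] {φ : SM →* G} {W : Subgroup G}

/-- PIECE VXW. -/
theorem s4_vxw [Finite G] (h : S4Cfg φ) (hW : XData φ W) (hX : XFacts φ W) (w : G) (hw : w ∈ W)
    (hw1 : w ≠ 1) :
    s4N1 φ (φ sx * w) = ∅ ∧ s4NP φ (φ sx * w) = ∅ ∧
      Nat.card (s4NC φ W (φ sx * w)) = 18 * Nat.card W := by
  obtain ⟨hx3, hx1, hxJ, hxk, hxP, hxinv⟩ := s4m_x
  obtain ⟨hb2, hbx, hbz⟩ := s4m_b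
  have hxw : φ sx * w = w * φ sx := (hW.le w hw).symm
  have hX3 : (φ sx) ^ 3 = 1 := by rw [← map_pow, hx3, map_one]
  have hwn : w ^ Nat.card W = 1 := s4h_pow_card W w hw
  have hcop : (Nat.card W).Coprime 3 := hW.cop
  have hcop9 : (Nat.card W).Coprime 9 := by
    have : (Nat.card W).Coprime (3 ^ 2) := Nat.Coprime.pow_right 2 hcop
    simpa using this
  have hcommX : Commute (φ sx) w := hxw
  -- powers of `x w`
  have hpow : ∀ k : ℕ, 3 ∣ k → (φ sx * w) ^ k = w ^ k := by
    intro k hk
    obtain ⟨j, rfl⟩ := hk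
    rw [hcommX.mul_pow, pow_mul, hX3, one_pow, one_mul]
  have hconjpow : ∀ (t y : G) (k : ℕ), t⁻¹ * (φ sx * w) * t = y → y ^ k = 1 →
      (φ sx * w) ^ k = 1 := by
    intro t y k hty hyk
    have h1 : (t⁻¹ * (φ sx * w) * t) ^ k = t⁻¹ * (φ sx * w) ^ k * t := by
      have := conj_pow (a := t⁻¹) (b := φ sx * w) (i := k)
      simpa using this
    rw [hty, hyk] at h1
    have h2 : (φ sx * w) ^ k = t * (t⁻¹ * (φ sx * w) ^ k * t) * t⁻¹ := by group
    rw [h2, ← h1]; group
  refine ⟨?_, ?_, ?_⟩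
  · -- N1 = ∅
    rw [Set.eq_empty_iff_forall_notMem]
    rintro t ⟨m, hm, htm⟩
    have h9 : (φ m) ^ 9 = 1 := by rw [← map_pow, s4m_R_pow9 m hm, map_one]
    have h1 := hconjpow t (φ m) 9 htm h9
    rw [hpow 9 (by norm_num)] at h1
    exact hw1 (s4h_eq_one_of_pow w 9 _ h1 hwn hcop9)
  · -- NP = ∅
    rw [Set.eq_empty_iff_forall_notMem]
    rintro t ⟨m, hm, -, htm⟩
    have h3 : (φ m) ^ 3 = 1 := by rw [← map_pow, (s4m_P m hm).1, map_one]
    have h1 := hconjpow t (φ m) 3 htm h3
    rw [hpow 3 (dvd_refl 3)] at h1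
    exact hw1 (s4h_eq_one_of_pow w 3 _ h1 hwn hcop)
  · -- NC
    have hbinv : sb⁻¹ = sb := by
      rw [inv_eq_iff_mul_eq_one, ← pow_two, hb2]
    have hXb : (φ sb)⁻¹ * φ sx * φ sb = (φ sx)⁻¹ := by
      have h1 : sb * sx * sb = sx⁻¹ := by
        have := hbx
        rw [hbinv] at this
        exact this
      rw [← map_inv, ← map_mul, ← map_mul, ← map_inv, hbinv, h1]
    have hXne : (φ sx)⁻¹ ≠ φ sx := by
      rw [← map_inv]
      intro h1
      exact hxinv (h.inj h1)
    have hPinv : sP sx⁻¹ := (s4m_P sx hxP).2.1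
    have hkinv : kap sx⁻¹ ≠ 0 := s4m_kap1.2
    have hk1 : kap (1 : SM) = 0 := s4m_kap1.1
    -- the set
    have hset : s4NC φ W (φ sx * w) =
        {t : G | t⁻¹ * φ sx * t = φ sx} ∪ {t : G | t⁻¹ * φ sx * t = (φ sx)⁻¹} := by
      ext t
      constructor
      · rintro ⟨w', hw', m, hmP, hmk, htm⟩
        -- y = t⁻¹ x w t = w' φ m
        have hmC : φ m * φ sx = φ sx * φ m := by
          rw [← map_mul, ← map_mul]; congr 1
        have hyC : (w' * φ m) * φ sx = φ sx * (w' * φ m) := by
          rw [mul_assoc, hmC, ← mul_assoc, hW.le w' hw', mul_assoc]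
        -- x' = t⁻¹ x t is a power of y
        have hx' : t⁻¹ * φ sx * t = (w' * φ m) ^ (Nat.card W ^ 2) := by
          rw [← htm]
          have h1 : (t⁻¹ * (φ sx * w) * t) ^ (Nat.card W ^ 2) =
              t⁻¹ * (φ sx * w) ^ (Nat.card W ^ 2) * t := by
            have := conj_pow (a := t⁻¹) (b := φ sx * w) (i := Nat.card W ^ 2)
            simpa using this
          rw [h1, s4h_pow_sq (φ sx) w (Nat.card W) hxw hX3 hwn hcop]
        have hx'C : (t⁻¹ * φ sx * t) * φ sx = φ sx * (t⁻¹ * φ sx * t) := by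
          rw [hx']
          have : Commute ((w' * φ m) ^ (Nat.card W ^ 2)) (φ sx) := (Commute.pow_left hyC _)
          exact this
        have hw''y : t⁻¹ * w * t = (t⁻¹ * φ sx * t)⁻¹ * (w' * φ m) := by
          rw [← htm]; group
        have hw''C : (t⁻¹ * w * t) * φ sx = φ sx * (t⁻¹ * w * t) := by
          rw [hw''y]
          have h1 : Commute (t⁻¹ * φ sx * t)⁻¹ (φ sx) := Commute.inv_left hx'C
          have h2 : Commute (w' * φ m) (φ sx) := hyC
          exact h1.mul_left h2
        have hw''n : (t⁻¹ * w * t) ^ Nat.card W = 1 := by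
          have := conj_pow (a := t⁻¹) (b := w) (i := Nat.card W)
          rw [inv_inv] at this
          rw [this, hwn]; group
        have hw''W : t⁻¹ * w * t ∈ W := hX.mem _ hw''C _ hcop hw''n
        have hw''1 : t⁻¹ * w * t ≠ 1 := by
          intro h1
          apply hw1
          have : w = t * (t⁻¹ * w * t) * t⁻¹ := by group
          rw [this, h1]; group
        -- x' = w₃ φ m
        have hx'' : t⁻¹ * φ sx * t =
            (w' * (φ m * (t⁻¹ * w * t)⁻¹ * (φ m)⁻¹)) * φ m := by
          have : t⁻¹ * φ sx * t = (t⁻¹ * (φ sx * w) * t) * (t⁻¹ * w * t)⁻¹ := by group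
          rw [this, htm]; group
        have hw3 : w' * (φ m * (t⁻¹ * w * t)⁻¹ * (φ m)⁻¹) ∈ W :=
          W.mul_mem hw' (hW.norm _ hmC _ (W.inv_mem hw''W))
        set w3 := w' * (φ m * (t⁻¹ * w * t)⁻¹ * (φ m)⁻¹) with hw3def
        have hx'3 : (t⁻¹ * φ sx * t) ^ 3 = 1 := by
          have := conj_pow (a := t⁻¹) (b := φ sx) (i := 3)
          rw [inv_inv] at this
          rw [this, hX3]; group
        have hw3n : w3 ^ Nat.card W = 1 := s4h_pow_card W w3 hw3
        by_cases hm1 : m = sx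
        · left
          rw [hm1] at hx''
          have hc3 : Commute w3 (φ sx) := hW.le w3 hw3
          have h1 : w3 ^ 3 = 1 := by
            have h2 := hx'3
            rw [hx'', hc3.mul_pow, hX3, mul_one] at h2
            exact h2
          have h2 : w3 = 1 := s4h_eq_one_of_pow w3 3 _ h1 hw3n hcop
          show t⁻¹ * φ sx * t = φ sx
          rw [hx'', h2, one_mul]
        · by_cases hm2 : m = sx⁻¹
          · right
            rw [hm2] at hx''
            have hc3 : Commute w3 (φ sx⁻¹) := by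
              rw [map_inv]
              exact Commute.inv_right (hW.le w3 hw3)
            have h1 : w3 ^ 3 = 1 := by
              have h2 := hx'3
              rw [hx'', hc3.mul_pow, ← map_pow, inv_pow, hx3, inv_one, map_one, mul_one] at h2
              exact h2
            have h2 : w3 = 1 := s4h_eq_one_of_pow w3 3 _ h1 hw3n hcop
            show t⁻¹ * φ sx * t = (φ sx)⁻¹
            rw [hx'', h2, one_mul, map_inv]
          · exfalso
            have hmne1 : m ≠ 1 := by
              rintro rfl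
              exact hmk hk1
            obtain ⟨c, hcW, hc⟩ := hX.frob m hmP hmne1 hm1 hm2 w3 hw3
            -- c⁻¹ w'' c commutes with φ m
            have h1 : c⁻¹ * (t⁻¹ * w * t) * c ∈ W :=
              W.mul_mem (W.mul_mem (W.inv_mem hcW) hw''W) hcW
            have hcomm' : (t⁻¹ * w * t) * (t⁻¹ * φ sx * t) =
                (t⁻¹ * φ sx * t) * (t⁻¹ * w * t) := by
              have : t⁻¹ * w * t * (t⁻¹ * φ sx * t) = t⁻¹ * (w * φ sx) * t := by group
              rw [this, ← hxw]; group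
            have h2 : (c⁻¹ * (t⁻¹ * w * t) * c) * φ m = φ m * (c⁻¹ * (t⁻¹ * w * t) * c) := by
              have h3 : φ m = c⁻¹ * (t⁻¹ * φ sx * t) * c := by
                rw [hx'', ← hc]; group
              rw [h3]
              have : c⁻¹ * (t⁻¹ * w * t) * c * (c⁻¹ * (t⁻¹ * φ sx * t) * c) =
                  c⁻¹ * ((t⁻¹ * w * t) * (t⁻¹ * φ sx * t)) * c := by group
              rw [this, hcomm']; group
            have h3 := hX.cent m hmP hmne1 hm1 hm2 _ h1 h2
            apply hw''1
            have : t⁻¹ * w * t = c * (c⁻¹ * (t⁻¹ * w * t) * c) * c⁻¹ := by group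
            rw [this, h3]; group
      · intro ht
        have key : ∀ e : SM, sP e → kap e ≠ 0 → (∀ u : G, Commute u (φ e) → Commute u (φ sx)) →
            t⁻¹ * φ sx * t = φ e → t ∈ s4NC φ W (φ sx * w) := by
          intro e heP hek hecomm hte
          have h2 : (t⁻¹ * w * t) * (t⁻¹ * φ sx * t) = (t⁻¹ * φ sx * t) * (t⁻¹ * w * t) := by
            have : t⁻¹ * w * t * (t⁻¹ * φ sx * t) = t⁻¹ * (w * φ sx) * t := by group
            rw [this, ← hxw]; group
          rw [hte] at h2
          have hw''C : (t⁻¹ * w * t) * φ sx = φ sx * (t⁻¹ * w * t) := (hecomm _ h2).eq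
          have hw''n : (t⁻¹ * w * t) ^ Nat.card W = 1 := by
            have := conj_pow (a := t⁻¹) (b := w) (i := Nat.card W)
            rw [inv_inv] at this
            rw [this, hwn]; group
          have hw''W : t⁻¹ * w * t ∈ W := hX.mem _ hw''C _ hcop hw''n
          refine ⟨t⁻¹ * w * t, hw''W, e, heP, hek, ?_⟩
          have h1 : t⁻¹ * (φ sx * w) * t = (t⁻¹ * φ sx * t) * (t⁻¹ * w * t) := by group
          rw [h1, hte]
          exact h2.symm
        rcases ht with ht | ht
        · exact key sx hxP (by rw [hxk]; exact one_ne_zero) (fun u hu => hu) ht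
        · refine key sx⁻¹ hPinv hkinv (fun u hu => ?_) ?_
          · rw [map_inv] at hu
            exact (Commute.inv_right_iff.mp hu)
          · rw [map_inv]; exact ht
    rw [hset]
    -- counting
    have hC : {t : G | t⁻¹ * φ sx * t = φ sx} =
        ((Subgroup.centralizer ({φ sx} : Set G) : Subgroup G) : Set G) := by
      ext t
      simp only [Set.mem_ofPred_eq, SetLike.mem_coe, Subgroup.mem_centralizer_iff,
        Set.mem_singleton_iff, forall_eq]
      constructor
      · intro h1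
        have : φ sx * t = t * (t⁻¹ * φ sx * t) := by group
        rw [this, h1]
      · intro h1
        rw [mul_assoc, h1]; group
    have hD : {t : G | t⁻¹ * φ sx * t = (φ sx)⁻¹} =
        (fun t => t * φ sb) '' {t : G | t⁻¹ * φ sx * t = φ sx} := by
      ext t
      simp only [Set.mem_ofPred_eq, Set.mem_image]
      constructor
      · intro h1
        refine ⟨t * (φ sb)⁻¹, ?_, by group⟩
        have h2 : (t * (φ sb)⁻¹)⁻¹ * φ sx * (t * (φ sb)⁻¹) =
            φ sb * (t⁻¹ * φ sx * t) * (φ sb)⁻¹ := by group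
        rw [h2, h1]
        have h3 : φ sb * (φ sx)⁻¹ * (φ sb)⁻¹ = (φ sb * φ sx * (φ sb)⁻¹)⁻¹ := by group
        rw [h3]
        have h4 : φ sb * φ sx * (φ sb)⁻¹ = (φ sx)⁻¹ := by
          rw [← map_inv, ← map_mul, ← map_mul, hbx, map_inv]
        rw [h4, inv_inv]
      · rintro ⟨s, hs, rfl⟩
        have h2 : (s * φ sb)⁻¹ * φ sx * (s * φ sb) = (φ sb)⁻¹ * (s⁻¹ * φ sx * s) * φ sb := by
          group
        rw [h2, hs, hXb]
    have hdisj : Disjoint {t : G | t⁻¹ * φ sx * t = φ sx}
        {t : G | t⁻¹ * φ sx * t = (φ sx)⁻¹} := by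
      rw [Set.disjoint_left]
      intro t h1 h2
      rw [Set.mem_ofPred_eq] at h1 h2
      rw [h1] at h2
      exact hXne h2.symm
    rw [Nat.card_coe_set_eq, Set.ncard_union_eq hdisj (Set.toFinite _) (Set.toFinite _),
      hD, Set.ncard_image_of_injective _ (mul_left_injective (φ sb)), hC]
    have h1 : ((Subgroup.centralizer ({φ sx} : Set G) : Subgroup G) : Set G).ncard =
        Nat.card (Subgroup.centralizer ({φ sx} : Set G)) := by
      rw [← Nat.card_coe_set_eq]; rfl
    rw [h1, hX.card]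
    ring

end

end Cfsg.Agent.Helper50
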