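/-
helper50: PIECE INVOLXW of CALL S3702 (helper16): a product of two conjugates of the involution
`a` is not conjugate to an element `x w`, `w ∈ W`.
-/
import Cfsg.Agent.Helper50.S4VXW

set_option autoImplicit false

namespace Cfsg.Agent.Helper50

open Cfsg DihedralGroup Cfsg.Agent.Helper16

section

variable {G : Type*} [Group G] {φ : SM →* G} {W : Subgroup G}

/-- PIECE INVOLXW. -/
theorem s4_involxw [Finite G] (h : S4Cfg φ) (hTI : TICfg φ sE) (hF : FusFact φ)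
    (hW : XData φ W) (hX : XFacts φ W) (s₁ s₂ : G) :
    ¬ IsXW φ W (s₁ * φ sa * s₁⁻¹ * (s₂ * φ sa * s₂⁻¹)) := by
  rintro ⟨t, w, hw, ht⟩
  obtain ⟨hx3, hx1, hxJ, hxk, hxP, hxinv⟩ := s4m_x
  obtain ⟨hb2, hbx, hbz⟩ := s4m_b
  obtain ⟨hzJ, hz1, hz3, hzP, hzk, hzE, hzJinv⟩ := s4m_z
  obtain ⟨ha2, ha1⟩ := s4m_a
  have hxw : φ sx * w = w * φ sx := (hW.le w hw).symm
  have hX3 : (φ sx) ^ 3 = 1 := by rw [← map_pow, hx3, map_one]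
  have hZ3 : (φ sz) ^ 3 = 1 := by rw [← map_pow, hz3, map_one]
  have hwn : w ^ Nat.card W = 1 := s4h_pow_card W w hw
  have hcop : (Nat.card W).Coprime 3 := hW.cop
  have hA2 : φ sa * φ sa = 1 := by rw [← map_mul, ← pow_two, ha2, map_one]
  obtain ⟨u₁, hu₁⟩ : ∃ u, u = t⁻¹ * (s₁ * φ sa * s₁⁻¹) * t := ⟨_, rfl⟩
  obtain ⟨u₂, hu₂⟩ : ∃ u, u = t⁻¹ * (s₂ * φ sa * s₂⁻¹) * t := ⟨_, rfl⟩
  have hu1sq : u₁ * u₁ = 1 := by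
    have : u₁ * u₁ = t⁻¹ * (s₁ * (φ sa * φ sa) * s₁⁻¹) * t := by rw [hu₁]; group
    rw [this, hA2]; group
  have hu2sq : u₂ * u₂ = 1 := by
    have : u₂ * u₂ = t⁻¹ * (s₂ * (φ sa * φ sa) * s₂⁻¹) * t := by rw [hu₂]; group
    rw [this, hA2]; group
  have hu1inv : u₁⁻¹ = u₁ := inv_eq_of_mul_eq_one_left hu1sq
  have hu2inv : u₂⁻¹ = u₂ := inv_eq_of_mul_eq_one_left hu2sq
  have hprod : u₁ * u₂ = φ sx * w := by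
    rw [← ht, hu₁, hu₂]; group
  -- `u₁` inverts `x w`
  have hinv : u₁ * (φ sx * w) * u₁⁻¹ = (φ sx * w)⁻¹ := by
    rw [← hprod, mul_inv_rev, hu2inv]
    have : u₁ * (u₁ * u₂) * u₁⁻¹ = (u₁ * u₁) * u₂ * u₁⁻¹ := by group
    rw [this, hu1sq, one_mul]
  -- `u₁` inverts `x`
  have hk := s4h_pow_sq (φ sx) w (Nat.card W) hxw hX3 hwn hcop
  have hinvx : u₁ * φ sx * u₁⁻¹ = (φ sx)⁻¹ := by
    have h1 : u₁ * (φ sx * w) ^ (Nat.card W ^ 2) * u₁⁻¹ =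
        (u₁ * (φ sx * w) * u₁⁻¹) ^ (Nat.card W ^ 2) := (conj_pow).symm
    rw [hinv, inv_pow, hk] at h1
    exact h1
  -- `b` inverts `x` and `z`
  have hbinv : sb⁻¹ = sb := by
    rw [inv_eq_iff_mul_eq_one, ← pow_two, hb2]
  have hBinv : (φ sb)⁻¹ = φ sb := by rw [← map_inv, hbinv]
  have hBx : φ sb * φ sx * φ sb = (φ sx)⁻¹ := by
    have h1 : φ (sb * sx * sb⁻¹) = φ sx⁻¹ := by rw [hbx]
    rw [hbinv, map_mul, map_mul, map_inv] at h1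
    exact h1
  have hBz : φ sb * φ sz * φ sb = (φ sz)⁻¹ := by
    have h1 : φ (sb * sz * sb⁻¹) = φ sz⁻¹ := by rw [hbz]
    rw [hbinv, map_mul, map_mul, map_inv] at h1
    exact h1
  -- `c₀ = u₁ b ∈ C`
  have hc0 : (u₁ * φ sb) * φ sx = φ sx * (u₁ * φ sb) := by
    have h1 : u₁ * φ sb * φ sx = u₁ * (φ sb * φ sx * φ sb) * (φ sb)⁻¹ := by group
    rw [h1, hBx, hBinv]
    have h2 : u₁ * (φ sx)⁻¹ * φ sb = (u₁ * φ sx * u₁⁻¹)⁻¹ * (u₁ * φ sb) := by group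
    rw [h2, hinvx, inv_inv]
  obtain ⟨w₀, hw₀, p₀, hp₀, hc₀⟩ := hW.dec _ hc0
  have hu1 : u₁ = w₀ * φ p₀ * φ sb := by
    have : u₁ = (u₁ * φ sb) * (φ sb)⁻¹ := by group
    rw [this, hc₀, hBinv]
  -- `u₁ z u₁⁻¹ = w₀ z⁻¹ w₀⁻¹`
  have hpz : φ p₀ * (φ sz)⁻¹ * (φ p₀)⁻¹ = (φ sz)⁻¹ := by
    have h1 : p₀ * sz = sz * p₀ := (s4m_P p₀ hp₀).2.2.2
    have h2 : φ p₀ * φ sz = φ sz * φ p₀ := by rw [← map_mul, ← map_mul, h1]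
    have h3 : φ p₀ * (φ sz)⁻¹ * (φ p₀)⁻¹ = (φ p₀ * φ sz * (φ p₀)⁻¹)⁻¹ := by group
    rw [h3, h2]; group
  have h1 : u₁ * φ sz * u₁⁻¹ = w₀ * (φ sz)⁻¹ * w₀⁻¹ := by
    have h2 : u₁ * φ sz * u₁⁻¹ =
        w₀ * (φ p₀ * (φ sb * φ sz * (φ sb)⁻¹) * (φ p₀)⁻¹) * w₀⁻¹ := by
      rw [hu1]; group
    rw [h2, hBinv, hBz, hpz]
  -- `r = u₁ z u₁ z⁻¹ = w₁ z`
  have hzinvC : (φ sz)⁻¹ * φ sx = φ sx * (φ sz)⁻¹ := by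
    have h2 : sz * sx = sx * sz := hzP
    have h3 : φ sz * φ sx = φ sx * φ sz := by rw [← map_mul, ← map_mul, h2]
    have h4 : Commute (φ sz) (φ sx) := h3
    exact (Commute.inv_left h4).eq
  have hw₁ : w₀ * ((φ sz)⁻¹ * w₀⁻¹ * ((φ sz)⁻¹)⁻¹) ∈ W :=
    W.mul_mem hw₀ (hW.norm _ hzinvC _ (W.inv_mem hw₀))
  obtain ⟨w₁, hw₁def⟩ : ∃ w₁, w₁ = w₀ * ((φ sz)⁻¹ * w₀⁻¹ * ((φ sz)⁻¹)⁻¹) := ⟨_, rfl⟩
  rw [← hw₁def] at hw₁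
  have hzz : (φ sz)⁻¹ * (φ sz)⁻¹ = φ sz := by
    have h2 : φ sz * φ sz * φ sz = 1 := by rw [← pow_three', hZ3]
    have h3 : (φ sz)⁻¹ * (φ sz)⁻¹ = (φ sz)⁻¹ * (φ sz)⁻¹ * (φ sz * φ sz * φ sz) := by
      rw [h2, mul_one]
    rw [h3]; group
  have hr : u₁ * (φ sz * u₁ * (φ sz)⁻¹) = w₁ * φ sz := by
    have h2 : u₁ * (φ sz * u₁ * (φ sz)⁻¹) = (u₁ * φ sz * u₁⁻¹) * (φ sz)⁻¹ := by
      rw [hu1inv]; group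
    rw [h2, h1, hw₁def]
    have h3 : w₀ * ((φ sz)⁻¹ * w₀⁻¹ * ((φ sz)⁻¹)⁻¹) * φ sz =
        w₀ * (φ sz)⁻¹ * w₀⁻¹ * (φ sz * φ sz) := by group
    rw [h3]
    have h4 : φ sz * φ sz = (φ sz)⁻¹ :=
      eq_inv_of_mul_eq_one_left (by rw [← pow_three', hZ3])
    rw [h4]
  have hzx : sz ≠ sx := by
    rintro h2
    exact hxJ (h2 ▸ hzJ)
  have hzx' : sz ≠ sx⁻¹ := by
    intro h2
    apply hxJ
    have h3 : sx = sz⁻¹ := by rw [h2, inv_inv]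
    rw [h3]
    exact hzJinv
  obtain ⟨c, hc, hcz⟩ := hX.frob sz hzP hz1 hzx hzx' w₁ hw₁
  -- `u₁` inverts `r`
  have hvsq : (φ sz * u₁ * (φ sz)⁻¹) * (φ sz * u₁ * (φ sz)⁻¹) = 1 := by
    have : (φ sz * u₁ * (φ sz)⁻¹) * (φ sz * u₁ * (φ sz)⁻¹) = φ sz * (u₁ * u₁) * (φ sz)⁻¹ := by
      group
    rw [this, hu1sq]; group
  have hvinv : (φ sz * u₁ * (φ sz)⁻¹)⁻¹ = φ sz * u₁ * (φ sz)⁻¹ :=
    inv_eq_of_mul_eq_one_left hvsq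
  have hrinv : u₁ * (w₁ * φ sz) * u₁⁻¹ = (w₁ * φ sz)⁻¹ := by
    rw [← hr, mul_inv_rev, hvinv]
    have : u₁ * (u₁ * (φ sz * u₁ * (φ sz)⁻¹)) * u₁⁻¹ =
        (u₁ * u₁) * (φ sz * u₁ * (φ sz)⁻¹) * u₁⁻¹ := by group
    rw [this, hu1sq, one_mul]
  -- `v' = c⁻¹ u₁ c` inverts `z`
  have hv'z : (c⁻¹ * u₁ * c) * φ sz * (c⁻¹ * u₁ * c)⁻¹ = (φ sz)⁻¹ := by
    have h2 : (c⁻¹ * u₁ * c) * φ sz * (c⁻¹ * u₁ * c)⁻¹ =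
        c⁻¹ * (u₁ * (c * φ sz * c⁻¹) * u₁⁻¹) * c := by group
    rw [h2, hcz, hrinv, ← hcz]; group
  have hv'H : c⁻¹ * u₁ * c ∈ φ.range := by
    refine hTI.ti sz hzE _ ?_
    rw [hv'z, ← map_inv]
    exact ⟨sz⁻¹, rfl⟩
  obtain ⟨m, hm⟩ := hv'H
  -- `v'` inverts `x`
  have hcx : c * φ sx * c⁻¹ = φ sx := by
    have := hW.le c hc
    rw [this]; group
  have hv'x : (c⁻¹ * u₁ * c) * φ sx * (c⁻¹ * u₁ * c)⁻¹ = (φ sx)⁻¹ := by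
    have h2 : (c⁻¹ * u₁ * c) * φ sx * (c⁻¹ * u₁ * c)⁻¹ =
        c⁻¹ * (u₁ * (c * φ sx * c⁻¹) * u₁⁻¹) * c := by group
    rw [h2, hcx, hinvx]
    have h3 : c⁻¹ * (φ sx)⁻¹ * c = (c⁻¹ * (φ sx * c))⁻¹ := by group
    rw [h3, ← hW.le c hc]; group
  have hm1 : m * sx * m⁻¹ = sx⁻¹ := by
    apply h.inj
    rw [map_mul, map_mul, map_inv, map_inv, hm]
    exact hv'x
  -- `v'` is a conjugate of `φ sa`
  have hconj : (c⁻¹ * t⁻¹ * s₁) * φ sa * (c⁻¹ * t⁻¹ * s₁)⁻¹ = φ m := by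
    rw [hm, hu₁]; group
  obtain ⟨s, hs⟩ := hF sa m ha2 _ hconj
  have hd : m.d = 1 := by rw [← hs]; exact s4m_a_conj s
  exact s4m_d1_x m hd hm1

end

end Cfsg.Agent.Helper50
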