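import Mathlib
import Cfsg.Agent.Helper5.SL2Sylow

/-!
Definitions for CALL S3050 (Higman's theorem on `SL(2, 2ⁿ)`-extensions with a fixed-point-free element of order 3).
Everything here is notation: the standard elements of `SL₂(K)`, the 2×2 block forms of the unipotent elements,
the list of relations of the core algebra theorem, and the abelian section module `A/B` of a group.
-/

set_option autoImplicit false

namespace Cfsg.Agent.Helper50.Hig

open Cfsg.Agent.Helper5

/-- `SL₂(K)` -/
abbrev SL2 (K : Type*) [Field K] := Matrix.SpecialLinearGroup (Fin 2) K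

/-- `c = u(1) l(1)`: in characteristic 2 an element of order 3 -/
def cSL (K : Type*) [Field K] : SL2 K := uSL 1 * lSL 1

/-- `n(t) = u(t) l(1/t) u(t)` (in characteristic 2 the matrix `[[0, t], [1/t, 0]]`) -/
def nSL {K : Type*} [Field K] (t : K) : SL2 K := uSL t * lSL t⁻¹ * uSL t

/-- `h(t) = n(t) n(1)` (in characteristic 2 the matrix `diag(t, 1/t)`) -/
def hSL {K : Type*} [Field K] (t : K) : SL2 K := nSL t * nSL 1

/-- the block form `[[1 + N s, Q s], [0, 1 + N s]]` -/
def Umat {K E : Type*} [Ring E] (N Q : K → E) (s : K) : Matrix (Fin 2) (Fin 2) E :=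
  !![1 + N s, Q s; 0, 1 + N s]

/-- the block form `[[1 + N s, 0], [Q s, 1 + N s]]` -/
def Lmat {K E : Type*} [Ring E] (N Q : K → E) (s : K) : Matrix (Fin 2) (Fin 2) E :=
  !![1 + N s, 0; Q s, 1 + N s]

/-- The relations between the block entries `N s`, `Q s` (hypotheses of the core algebra theorem). -/
structure CatHyp {K E : Type*} [Field K] [Ring E] (N Q : K → E) : Prop where
  N0 : N 0 = 0
  N1 : N 1 = 0
  Q0 : Q 0 = 0
  Q1 : Q 1 = 1
  NN : ∀ s t : K, N s * N t = N t * N s
  Nsq : ∀ s : K, N s * N s = 0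
  Nadd : ∀ s t : K, N (s + t) = N s + N t + N s * N t
  Qadd : ∀ s t : K, Q (s + t) = Q s + Q t + N s * Q t + Q s * N t
  Qinv : ∀ t : K, t ≠ 0 → Q t * Q t⁻¹ = 1
  NQinv : ∀ t : K, t ≠ 0 → N t * Q t⁻¹ = Q t⁻¹ * N t
  QQ : ∀ t s : K, t ≠ 0 → Q t * Q s = Q (t ^ 2 * s) * Q t⁻¹
  QN : ∀ t s : K, t ≠ 0 → Q t * N s = N (t ^ 2 * s) * Q t + Q (t ^ 2 * s) * (N t + N t⁻¹)
  HH : ∀ t s : K, t ≠ 0 → s ≠ 0 → (N t + N t⁻¹) * (N s + N s⁻¹) + Q t * Q s = Q (t * s)

section Sec

variable {G : Type*} [Group G]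

/-- the abelian section `A/B` (made abelian), written additively -/
abbrev SecMod (A B : Subgroup G) [B.Normal] : Type _ :=
  Additive (Abelianization (↥A ⧸ B.subgroupOf A))

/-- the class of an element of `A` in the section module -/
def secCl (A B : Subgroup G) [B.Normal] (a : ↥A) : SecMod A B :=
  Additive.ofMul (Abelianization.of (QuotientGroup.mk a))

theorem secCl_surjective (A B : Subgroup G) [B.Normal] : Function.Surjective (secCl A B) := by
  intro v
  obtain ⟨w, hw⟩ := QuotientGroup.mk_surjective (Additive.toMul v)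
  obtain ⟨a, ha⟩ := QuotientGroup.mk_surjective w
  refine ⟨a, ?_⟩
  unfold secCl
  rw [ha]
  change Additive.ofMul (QuotientGroup.mk w) = v
  rw [hw]
  rfl

theorem secCl_mul (A B : Subgroup G) [B.Normal] (a b : ↥A) :
    secCl A B (a * b) = secCl A B a + secCl A B b := by
  unfold secCl
  rw [QuotientGroup.mk_mul, map_mul]
  rfl

theorem secCl_one (A B : Subgroup G) [B.Normal] : secCl A B 1 = 0 := by
  unfold secCl
  rw [QuotientGroup.mk_one, map_one]
  rfl

end Sec

end Cfsg.Agent.Helper50.Hig
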