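import Mathlib
import Cfsg.Agent.Helper50.HigDefs
import Cfsg.Agent.Helper91.HigR0

set_option autoImplicit false

namespace Cfsg.Agent.Helper50.HigAB

open Cfsg.Agent.Helper5 Cfsg.Agent.Helper50.Hig Cfsg.Agent.Helper91.HigR0

/-- PIECE AB (uses R0) -/
theorem ab_rel {K : Type*} [Field K] [Fintype K] [CharP K 2] {R : Type*} [Ring R]
    (h2 : ∀ r : R, r + r = 0) (ρ : SL2 K →* R)
    (hρ : ρ (cSL K) * ρ (cSL K) + ρ (cSL K) + 1 = 0) :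
    (ρ (uSL 1) + 1) * (ρ (uSL 1) + 1) = 0 ∧ (ρ (lSL 1) + 1) * (ρ (lSL 1) + 1) = 0 ∧
    (ρ (uSL 1) + 1) * (ρ (lSL 1) + 1) + (ρ (lSL 1) + 1) * (ρ (uSL 1) + 1) = 1 := by
  obtain ⟨hll, huu, hl2, hn1, hln, hhu, hhl, hhh, hh1⟩ := sl2_rel (K := K)
  have hneg : ∀ r : R, -r = r := fun r => neg_eq_of_add_eq_zero_left (h2 r)
  have hu : ρ (uSL 1) * ρ (uSL 1) = 1 := by rw [← map_mul, huu, map_one]
  have hl : ρ (lSL 1) * ρ (lSL 1) = 1 := by rw [← map_mul, hl2, map_one]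
  -- the relation with t = 1
  have hyinv : (uSL (1:K) * lSL 1) * (lSL 1 * uSL 1) = 1 := by
    rw [mul_assoc, ← mul_assoc (lSL 1), hl2, one_mul, huu]
  have hrel : ρ (uSL 1) * ρ (lSL 1) + ρ (lSL 1) * ρ (uSL 1) + 1 = 0 := by
    have h3 := congrArg (fun z => z * ρ (lSL 1 * uSL 1)) hρ
    simp only [add_mul, zero_mul, one_mul] at h3
    unfold cSL at h3
    rw [mul_assoc, ← map_mul ρ (uSL 1 * lSL 1) (lSL 1 * uSL 1), hyinv, map_one, mul_one] at h3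
    rw [map_mul, map_mul] at h3
    rw [← h3]
    abel
  refine ⟨?_, ?_, ?_⟩
  · have : (ρ (uSL 1) + 1) * (ρ (uSL 1) + 1) = ρ (uSL 1) * ρ (uSL 1) + 1 + (ρ (uSL 1) + ρ (uSL 1)) := by
      noncomm_ring
    rw [this, hu, h2, h2, add_zero]
  · have : (ρ (lSL 1) + 1) * (ρ (lSL 1) + 1) = ρ (lSL 1) * ρ (lSL 1) + 1 + (ρ (lSL 1) + ρ (lSL 1)) := by
      noncomm_ring
    rw [this, hl, h2, h2, add_zero]
  · have : (ρ (uSL 1) + 1) * (ρ (lSL 1) + 1) + (ρ (lSL 1) + 1) * (ρ (uSL 1) + 1) =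
        (ρ (uSL 1) * ρ (lSL 1) + ρ (lSL 1) * ρ (uSL 1) + 1) + 1 + (ρ (uSL 1) + ρ (uSL 1)) +
          (ρ (lSL 1) + ρ (lSL 1)) := by
      noncomm_ring
    rw [this, hrel, h2, h2, add_zero, add_zero, zero_add]

end Cfsg.Agent.Helper50.HigAB
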