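import Mathlib
import Cfsg.Agent.Helper50.HigDefs
import Cfsg.Agent.Helper91.HigR0

set_option autoImplicit false

namespace Cfsg.Agent.Helper50.HigR1

open Cfsg.Agent.Helper5 Cfsg.Agent.Helper50.Hig Cfsg.Agent.Helper91.HigR0

/-- PIECE R1 (uses R0) -/
theorem fpf_family {K : Type*} [Field K] [Fintype K] [CharP K 2] {R : Type*} [Ring R]
    (ρ : SL2 K →* R) (hρ : ρ (cSL K) * ρ (cSL K) + ρ (cSL K) + 1 = 0) (t : K) (ht : t ≠ 0) :
    ρ (uSL t) * ρ (lSL t⁻¹) + ρ (lSL t⁻¹) * ρ (uSL t) + 1 = 0 := by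
  obtain ⟨hll, huu, hl2, hn1, hln, hhu, hhl, hhh, hh1⟩ := sl2_rel (K := K)
  -- square root of t
  obtain ⟨d, hd⟩ : ∃ d : K, d ^ 2 = t := by
    have hbij := (frobenius K 2).injective
    have hsurj : Function.Surjective (frobenius K 2) :=
      Finite.surjective_of_injective hbij
    obtain ⟨d, hd⟩ := hsurj t
    exact ⟨d, by simpa [frobenius_def] using hd⟩
  have hd0 : d ≠ 0 := by
    rintro rfl
    apply ht
    rw [← hd]; simp
  -- y = h c h⁻¹
  have hy : hSL d * cSL K * (hSL d)⁻¹ = uSL t * lSL t⁻¹ := by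
    have h1 := hhu d 1 hd0
    have h2 := hhl d 1 hd0
    rw [mul_one, hd] at h1
    rw [mul_one, hd] at h2
    unfold cSL
    rw [← mul_assoc, h1, mul_assoc (uSL t), h2, mul_assoc, mul_assoc, mul_inv_cancel, mul_one]
  have hyinv : (uSL t * lSL t⁻¹) * (lSL t⁻¹ * uSL t) = 1 := by
    rw [mul_assoc, ← mul_assoc (lSL t⁻¹), hl2, one_mul, huu]
  have hrel : ρ (uSL t * lSL t⁻¹) * ρ (uSL t * lSL t⁻¹) + ρ (uSL t * lSL t⁻¹) + 1 = 0 := by
    rw [← hy]
    have e1 : ρ (hSL d * cSL K * (hSL d)⁻¹) * ρ (hSL d * cSL K * (hSL d)⁻¹) +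
        ρ (hSL d * cSL K * (hSL d)⁻¹) + 1 =
        ρ (hSL d) * (ρ (cSL K) * ρ (cSL K) + ρ (cSL K) + 1) * ρ ((hSL d)⁻¹) := by
      have hone : ρ (hSL d) * ρ ((hSL d)⁻¹) = 1 := by
        rw [← map_mul, mul_inv_cancel, map_one]
      have hone' : ρ ((hSL d)⁻¹) * ρ (hSL d) = 1 := by
        rw [← map_mul, inv_mul_cancel, map_one]
      simp only [map_mul, mul_add, add_mul, mul_one]
      rw [hone]
      congr 2
      simp only [mul_assoc]
      rw [← mul_assoc (ρ ((hSL d)⁻¹)) (ρ (hSL d)), hone', one_mul]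
    rw [e1, hρ, mul_zero, zero_mul]
  -- multiply by ρ(y⁻¹) on the right
  have h3 := congrArg (fun z => z * ρ (lSL t⁻¹ * uSL t)) hrel
  simp only [add_mul, zero_mul, one_mul] at h3
  rw [mul_assoc, ← map_mul ρ (uSL t * lSL t⁻¹) (lSL t⁻¹ * uSL t), hyinv, map_one, mul_one] at h3
  rw [map_mul, map_mul] at h3
  rw [← h3]
  abel

end Cfsg.Agent.Helper50.HigR1
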