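import Mathlib
import Cfsg.Agent.Helper50.HigDefs
import Cfsg.Agent.Helper91.HigR0
import Cfsg.Agent.Helper84.HigMU
import Cfsg.Agent.Helper50.HigAB

set_option autoImplicit false

namespace Cfsg.Agent.Helper50.HigREL1

open Cfsg.Agent.Helper5 Cfsg.Agent.Helper50.Hig Cfsg.Agent.Helper91.HigR0
open Cfsg.Agent.Helper84.HigMU Cfsg.Agent.Helper50.HigAB

theorem exists_NQ_aux {K : Type*} [Field K] [Fintype K] [CharP K 2] {R : Type*} [Ring R]
    (h2 : ∀ r : R, r + r = 0) (ρ : SL2 K →* R) (e f : R) (he : e = ρ (uSL 1) + 1)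
    (hf : f = ρ (lSL 1) + 1) (hee : e * e = 0) (hff : f * f = 0) (hef : e * f + f * e = 1) :
    ∃ (Φ : R →+* Matrix (Fin 2) (Fin 2) (Subring.centralizer ({e, f} : Set R)))
      (N Q : K → Subring.centralizer ({e, f} : Set R)),
      Function.Injective Φ ∧ Φ e = !![0, 1; 0, 0] ∧
      Φ f = !![0, 0; 1, 0] ∧
      (∀ z : Subring.centralizer ({e, f} : Set R),
        Φ (z : R) = !![z, 0; 0, z]) ∧
      N 1 = 0 ∧ Q 1 = 1 ∧ (∀ s, Φ (ρ (uSL s)) = Umat N Q s) ∧ (∀ s, Φ (ρ (lSL s)) = Lmat N Q s) := by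
  obtain ⟨hll, huu, hl2, hn1, hln, hhu, hhl, hhh, hh1⟩ := sl2_rel (K := K)
  obtain ⟨Φ, hinj, hΦe, hΦf, hΦz⟩ := exists_matrix_hom e f hee hff hef
  have hE2 : ∀ z : Subring.centralizer ({e, f} : Set R), z + z = 0 :=
    fun z => Subtype.ext (h2 z.1)
  have hE1 : (1 : Subring.centralizer ({e, f} : Set R)) + 1 = 0 := hE2 1
  -- images of ρ(u 1), ρ(l 1)
  have hu1 : ρ (uSL 1) = e + 1 := by
    rw [he, add_assoc, h2, add_zero]
  have hl1 : ρ (lSL 1) = f + 1 := by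
    rw [hf, add_assoc, h2, add_zero]
  have hΦu1 : Φ (ρ (uSL 1)) = !![1, 1; 0, 1] := by
    rw [hu1, map_add, hΦe, map_one, Matrix.one_fin_two]
    ext i j; fin_cases i <;> fin_cases j <;> simp
  have hΦl1 : Φ (ρ (lSL 1)) = !![1, 0; 1, 1] := by
    rw [hl1, map_add, hΦf, map_one, Matrix.one_fin_two]
    ext i j; fin_cases i <;> fin_cases j <;> simp
  have hΦn : Φ (ρ (nSL 1)) = !![0, 1; 1, 0] := by
    unfold nSL
    rw [inv_one, map_mul, map_mul, map_mul, map_mul, hΦu1, hΦl1]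
    rw [Matrix.mul_fin_two, Matrix.mul_fin_two]
    ext i j; fin_cases i <;> fin_cases j <;> simp [hE1]
  -- commutation with Φ e
  have hcomm : ∀ s : K, Φ (ρ (uSL s)) * !![0, 1; 0, 0] = !![0, 1; 0, 0] * Φ (ρ (uSL s)) := by
    intro s
    have h1 : ρ (uSL s) * ρ (uSL 1) = ρ (uSL 1) * ρ (uSL s) := by
      rw [← map_mul, ← map_mul, uSL_mul, uSL_mul, add_comm]
    have h3 : ρ (uSL s) * e = e * ρ (uSL s) := by
      rw [he, mul_add, add_mul, h1, mul_one, one_mul]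
    rw [← hΦe, ← map_mul, ← map_mul, h3]
  have h10 : ∀ s : K, Φ (ρ (uSL s)) 1 0 = 0 := by
    intro s
    have h := congrFun (congrFun (hcomm s) 0) 0
    simp [Matrix.mul_apply, Fin.sum_univ_two] at h
    exact h.symm
  have h11 : ∀ s : K, Φ (ρ (uSL s)) 1 1 = Φ (ρ (uSL s)) 0 0 := by
    intro s
    have h := congrFun (congrFun (hcomm s) 0) 1
    simp [Matrix.mul_apply, Fin.sum_univ_two] at h
    exact h.symm
  obtain ⟨N, hN⟩ : ∃ N : K → Subring.centralizer ({e, f} : Set R),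
      ∀ s, N s = Φ (ρ (uSL s)) 0 0 + 1 := ⟨_, fun _ => rfl⟩
  obtain ⟨Q, hQ⟩ : ∃ Q : K → Subring.centralizer ({e, f} : Set R),
      ∀ s, Q s = Φ (ρ (uSL s)) 0 1 := ⟨_, fun _ => rfl⟩
  have hU : ∀ s, Φ (ρ (uSL s)) = Umat N Q s := by
    intro s
    unfold Umat
    have hx : (1 : Subring.centralizer ({e, f} : Set R)) +
        (Φ (ρ (uSL s)) 0 0 + 1) = Φ (ρ (uSL s)) 0 0 := by
      rw [add_comm, add_assoc, hE1, add_zero]
    rw [hN, hQ, hx]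
    ext i j; fin_cases i <;> fin_cases j <;> simp [h10, h11]
  refine ⟨Φ, N, Q, hinj, hΦe, hΦf, hΦz, ?_, ?_, hU, ?_⟩
  · rw [hN, hΦu1]
    simpa using hE1
  · rw [hQ, hΦu1]
    simp
  · intro s
    rw [hln s]
    simp only [map_mul]
    rw [hΦn, hU s]
    unfold Umat Lmat
    rw [Matrix.mul_fin_two, Matrix.mul_fin_two]
    ext i j; fin_cases i <;> fin_cases j <;> simp

/-- PIECE REL1 (uses AB, MU, R0) -/
theorem exists_NQ {K : Type*} [Field K] [Fintype K] [CharP K 2] {R : Type*} [Ring R]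
    (h2 : ∀ r : R, r + r = 0) (ρ : SL2 K →* R)
    (hρ : ρ (cSL K) * ρ (cSL K) + ρ (cSL K) + 1 = 0) :
    ∃ (Φ : R →+* Matrix (Fin 2) (Fin 2)
          (Subring.centralizer ({ρ (uSL 1) + 1, ρ (lSL 1) + 1} : Set R)))
      (N Q : K → Subring.centralizer ({ρ (uSL 1) + 1, ρ (lSL 1) + 1} : Set R)),
      Function.Injective Φ ∧ Φ (ρ (uSL 1) + 1) = !![0, 1; 0, 0] ∧
      Φ (ρ (lSL 1) + 1) = !![0, 0; 1, 0] ∧
      (∀ z : Subring.centralizer ({ρ (uSL 1) + 1, ρ (lSL 1) + 1} : Set R),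
        Φ (z : R) = !![z, 0; 0, z]) ∧
      N 1 = 0 ∧ Q 1 = 1 ∧ (∀ s, Φ (ρ (uSL s)) = Umat N Q s) ∧ (∀ s, Φ (ρ (lSL s)) = Lmat N Q s) := by
  obtain ⟨hee, hff, hef⟩ := ab_rel h2 ρ hρ
  exact exists_NQ_aux h2 ρ _ _ rfl rfl hee hff hef

end Cfsg.Agent.Helper50.HigREL1
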