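import Cfsg.Agent.Helper50.MCL

set_option autoImplicit false

/-!
Centrally large subgroups and abelian subgroups of largest order (`Cfsg.maxAbelianSubgroups`,
`Cfsg.thompsonSubgroupA`).
-/

namespace Cfsg.Agent.Helper50

open scoped Pointwise

variable {S : Type*} [Group S] [Finite S]

theorem cl_sup_maxAbelian_aux {Q A : Subgroup S} (hQ : Cfsg.IsCentrallyLarge Q)
    (hA : A ∈ Cfsg.maxAbelianSubgroups S) :
    Nat.card Q * Nat.card A = Nat.card ↥(Q ⊔ A) * Nat.card ↥(Q ⊓ A) ∧
    cdm (Q ⊔ A) = Cfsg.maxCentralizerProduct S ∧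
    Nat.card ↥(Subgroup.centralizer (Q : Set S)) * Nat.card ↥(Q ⊓ A)
      = Nat.card ↥(Subgroup.centralizer (Q : Set S) ⊔ (Q ⊓ A))
        * Nat.card ↥(Subgroup.centralizer (Q : Set S) ⊓ (Q ⊓ A)) ∧
    Nat.card ↥(Subgroup.centralizer (Q : Set S) ⊔ (Q ⊓ A)) = Nat.card A ∧
    IsMulCommutative ↥(Subgroup.centralizer (Q : Set S) ⊔ (Q ⊓ A)) := by
  obtain ⟨hQ1, hQ2⟩ := isCentrallyLarge_large_and_le hQ
  have hCA := centralizer_eq_of_mem_maxAbelianSubgroups hA
  have hAc : A ≤ Subgroup.centralizer (A : Set S) := hCA.ge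
  -- B = Z ⊔ D is abelian
  have hB : IsMulCommutative ↥(Subgroup.centralizer (Q : Set S) ⊔ (Q ⊓ A)) := by
    rw [isMulCommutative_iff_le_centralizer, centralizer_sup]
    have hQcc := le_centralizer_centralizer Q
    refine sup_le (le_inf (le_trans hQ2 hQcc) (centralizer_anti inf_le_left))
      (le_inf (le_trans inf_le_left hQcc) ?_)
    exact le_trans inf_le_right (le_trans hAc (centralizer_anti inf_le_right))
  have h4 := hA.2 _ hB
  have h1 := card_mul_card_le Q A
  have h2 : cdm (Q ⊔ A) ≤ cdm Q := by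
    have := cdm_le_max (Q ⊔ A)
    rw [← (isCentralizerLarge_iff Q).mp hQ1] at this
    exact this
  have hCT : Subgroup.centralizer ((Q ⊔ A : Subgroup S) : Set S)
      = Subgroup.centralizer (Q : Set S) ⊓ A := by rw [centralizer_sup, hCA]
  have h3 := card_mul_card_le (Subgroup.centralizer (Q : Set S)) (Q ⊓ A)
  have hZD : Subgroup.centralizer (Q : Set S) ⊓ (Q ⊓ A) = Subgroup.centralizer (Q : Set S) ⊓ A := by
    rw [← inf_assoc, inf_eq_left.mpr hQ2]
  rw [hZD] at h3 ⊢
  unfold cdm at h2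
  rw [hCT] at h2
  have hm : cdm (Q ⊔ A) = Nat.card ↥(Q ⊔ A) * Nat.card ↥(Subgroup.centralizer (Q : Set S) ⊓ A) := by
    unfold cdm; rw [hCT]
  rw [← (isCentralizerLarge_iff Q).mp hQ1, hm]
  unfold cdm
  set q := Nat.card Q with hq
  set a := Nat.card A with ha
  set t := Nat.card ↥(Q ⊔ A) with ht
  set d := Nat.card ↥(Q ⊓ A) with hd
  set z := Nat.card ↥(Subgroup.centralizer (Q : Set S)) with hz
  set w := Nat.card ↥(Subgroup.centralizer (Q : Set S) ⊓ A) with hw
  set b := Nat.card ↥(Subgroup.centralizer (Q : Set S) ⊔ (Q ⊓ A)) with hb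
  have hq0 : 0 < q := Nat.card_pos
  have hw0 : 0 < w := Nat.card_pos
  have hd0 : 0 < d := Nat.card_pos
  -- chain
  have c12 : q * a * w ≤ t * d * w := Nat.mul_le_mul_right _ h1
  have c23 : t * d * w ≤ q * z * d := by
    calc t * d * w = (t * w) * d := by ring
      _ ≤ q * z * d := Nat.mul_le_mul_right _ h2
  have c34 : q * z * d ≤ q * b * w := by
    calc q * z * d = q * (z * d) := by ring
      _ ≤ q * (b * w) := Nat.mul_le_mul_left _ h3
      _ = q * b * w := by ring
  have c41 : q * b * w ≤ q * a * w :=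
    Nat.mul_le_mul_right _ (Nat.mul_le_mul_left _ h4)
  have e12 : q * a * w = t * d * w := le_antisymm c12 (c23.trans (c34.trans c41))
  have e23 : t * d * w = q * z * d := le_antisymm c23 (c34.trans (c41.trans c12))
  have e34 : q * z * d = q * b * w := le_antisymm c34 (c41.trans (c12.trans c23))
  have e41 : q * b * w = q * a * w := le_antisymm c41 (c12.trans (c23.trans c34))
  refine ⟨Nat.eq_of_mul_eq_mul_right hw0 e12, ?_, ?_, ?_, hB⟩
  · have : t * w * d = q * z * d := by rw [← e23]; ring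
    exact Nat.eq_of_mul_eq_mul_right hd0 this
  · have : q * (z * d) = q * (b * w) := by rw [← mul_assoc, e34]; ring
    exact Nat.eq_of_mul_eq_mul_left hq0 this
  · have h5 : q * b = q * a := Nat.eq_of_mul_eq_mul_right hw0 e41
    exact Nat.eq_of_mul_eq_mul_left hq0 h5

/-- `Q` centrally large, `A` abelian of largest order: `QA` is a centrally large subgroup -/
theorem cl_sup_maxAbelian {Q A : Subgroup S} (hQ : Cfsg.IsCentrallyLarge Q)
    (hA : A ∈ Cfsg.maxAbelianSubgroups S) :
    ((Q ⊔ A : Subgroup S) : Set S) = (Q : Set S) * (A : Set S) ∧ Cfsg.IsCentrallyLarge (Q ⊔ A) := by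
  obtain ⟨h1, h2, -, -, -⟩ := cl_sup_maxAbelian_aux hQ hA
  refine ⟨coe_sup_eq_mulSet_of_card_le Q A h1.ge, ?_⟩
  apply isCentrallyLarge_of_large_of_le h2
  rw [centralizer_sup, centralizer_eq_of_mem_maxAbelianSubgroups hA]
  exact le_trans inf_le_right le_sup_right

/-- `Q` centrally large, `A` abelian of largest order: `C_{QA}(Q ∩ A) = C(Q) A` -/
theorem cl_sup_maxAbelian_inf_centralizer {Q A : Subgroup S} (hQ : Cfsg.IsCentrallyLarge Q)
    (hA : A ∈ Cfsg.maxAbelianSubgroups S) :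
    (Q ⊔ A) ⊓ Subgroup.centralizer ((Q ⊓ A : Subgroup S) : Set S)
        = Subgroup.centralizer (Q : Set S) ⊔ A ∧
    ((Subgroup.centralizer (Q : Set S) ⊔ A : Subgroup S) : Set S)
        = ((Subgroup.centralizer (Q : Set S) : Subgroup S) : Set S) * (A : Set S) := by
  obtain ⟨hQ1, hQ2⟩ := isCentrallyLarge_large_and_le hQ
  have hCA := centralizer_eq_of_mem_maxAbelianSubgroups hA
  obtain ⟨-, -, h3, h4, hB⟩ := cl_sup_maxAbelian_aux hQ hA
  have hBmax : Subgroup.centralizer (Q : Set S) ⊔ (Q ⊓ A) ∈ Cfsg.maxAbelianSubgroups S :=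
    ⟨hB, fun B' hB' => by rw [h4]; exact hA.2 B' hB'⟩
  have hCB := centralizer_eq_of_mem_maxAbelianSubgroups hBmax
  have hBset := coe_sup_eq_mulSet_of_card_le _ _ h3.ge
  have hT := (cl_sup_maxAbelian hQ hA).1
  -- the key decomposition
  have key : ∀ x ∈ (Q ⊔ A) ⊓ Subgroup.centralizer ((Q ⊓ A : Subgroup S) : Set S),
      x ∈ ((Subgroup.centralizer (Q : Set S) : Subgroup S) : Set S) * (A : Set S) := by
    intro x hx
    obtain ⟨hx1, hx2⟩ := Subgroup.mem_inf.mp hx
    have hx1' : x ∈ ((Q ⊔ A : Subgroup S) : Set S) := hx1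
    rw [hT] at hx1'
    obtain ⟨q, hq, a, ha, rfl⟩ := Set.mem_mul.mp hx1'
    have haD : a ∈ Subgroup.centralizer ((Q ⊓ A : Subgroup S) : Set S) :=
      centralizer_anti (inf_le_right : Q ⊓ A ≤ A) (hCA.ge ha)
    have hqD : q ∈ Subgroup.centralizer ((Q ⊓ A : Subgroup S) : Set S) := by
      have : q = q * a * a⁻¹ := by group
      rw [this]
      exact Subgroup.mul_mem _ hx2 (Subgroup.inv_mem _ haD)
    have hqZ : q ∈ Subgroup.centralizer ((Subgroup.centralizer (Q : Set S) : Subgroup S) : Set S) :=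
      le_centralizer_centralizer Q hq
    have hqB : q ∈ Subgroup.centralizer
        ((Subgroup.centralizer (Q : Set S) ⊔ (Q ⊓ A) : Subgroup S) : Set S) := by
      rw [centralizer_sup]; exact Subgroup.mem_inf.mpr ⟨hqZ, hqD⟩
    rw [hCB] at hqB
    have hqB' : q ∈ ((Subgroup.centralizer (Q : Set S) ⊔ (Q ⊓ A) : Subgroup S) : Set S) := hqB
    rw [hBset] at hqB'
    obtain ⟨z, hz, d, hd, rfl⟩ := Set.mem_mul.mp hqB'
    rw [mul_assoc]
    exact Set.mul_mem_mul hz (A.mul_mem (Subgroup.mem_inf.mp hd).2 ha)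
  have hge : Subgroup.centralizer (Q : Set S) ⊔ A
      ≤ (Q ⊔ A) ⊓ Subgroup.centralizer ((Q ⊓ A : Subgroup S) : Set S) := by
    refine sup_le (le_inf (le_trans hQ2 le_sup_left) (centralizer_anti inf_le_left))
      (le_inf le_sup_right ?_)
    exact le_trans hCA.ge (centralizer_anti inf_le_right)
  constructor
  · apply le_antisymm
    · intro x hx
      exact mulSet_subset_sup _ _ (key x hx)
    · exact hge
  · apply Set.Subset.antisymm
    · intro x hx
      exact key x (hge hx)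
    · exact mulSet_subset_sup _ _

/-- every abelian subgroup of largest order lies in the join of the centrally large subgroups -/
theorem le_centrallyLargeJoin_of_mem_maxAbelianSubgroups {A : Subgroup S}
    (hA : A ∈ Cfsg.maxAbelianSubgroups S) : A ≤ Cfsg.centrallyLargeJoin S := by
  have h := (cl_sup_maxAbelian (isCentrallyLarge_centrallyLargeJoin (S := S)) hA).2
  have h2 : Cfsg.centrallyLargeJoin S ⊔ A ≤ Cfsg.centrallyLargeJoin S := le_sSup h
  exact le_trans le_sup_right h2

theorem thompsonSubgroupA_le_centrallyLargeJoin :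
    Cfsg.thompsonSubgroupA S ≤ Cfsg.centrallyLargeJoin S :=
  sSup_le fun _ hA => le_centrallyLargeJoin_of_mem_maxAbelianSubgroups hA

/-- if `T` is centrally large and contains `J(P)` then `C(Z(J(P))) ≤ T` -/
theorem centralizer_center_thompson_le {T : Subgroup S} (hT : Cfsg.IsCentrallyLarge T)
    (hJ : Cfsg.thompsonSubgroupA S ≤ T) :
    Subgroup.centralizer ((Cfsg.thompsonSubgroupA S
      ⊓ Subgroup.centralizer (Cfsg.thompsonSubgroupA S : Set S) : Subgroup S) : Set S) ≤ T := by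
  obtain ⟨hT1, hT2⟩ := isCentrallyLarge_large_and_le hT
  obtain ⟨A, hA⟩ := exists_mem_maxAbelianSubgroups (S := S)
  have hAJ : A ≤ Cfsg.thompsonSubgroupA S := le_sSup hA
  have h1 : Subgroup.centralizer (T : Set S) ≤ Cfsg.thompsonSubgroupA S
      ⊓ Subgroup.centralizer (Cfsg.thompsonSubgroupA S : Set S) := by
    refine le_inf ?_ (centralizer_anti hJ)
    refine le_trans (centralizer_anti (le_trans hAJ hJ)) ?_
    rw [centralizer_eq_of_mem_maxAbelianSubgroups hA]
    exact hAJ
  have h2 := centralizer_anti h1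
  rw [← eq_centralizer_centralizer_of_cdm_max cdm_le_max hT1] at h2
  exact h2

end Cfsg.Agent.Helper50
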