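import Cfsg.Agent.Helper35.CoprimeSylow
import Cfsg.Agent.Helper50.RankTwo
import Cfsg.Agent.Helper50.Basic
import Cfsg.Agent.Helper50.CD

set_option autoImplicit false
set_option linter.style.haveILetI false

/-!
A noncyclic elementary abelian `p`-subgroup `U` normalizing a `p'`-subgroup `R` such that
`C_R(U₀) = 1` for every maximal subgroup `U₀` of `U` forces `R = 1`.
-/

namespace Cfsg.Agent.Helper50

open scoped Pointwise

variable {G : Type*} [Group G]

/-- conjugation action of a subgroup `U ≤ N_G(B)` on `B` -/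
@[reducible] def conjMDMA (U B : Subgroup G) (hUB : U ≤ Subgroup.normalizer (B : Set G)) :
    MulDistribMulAction ↥U ↥B where
  smul u b := ⟨(u : G) * b * (u : G)⁻¹, (Subgroup.mem_normalizer_iff.mp (hUB u.2) b).mp b.2⟩
  one_smul b := by apply Subtype.ext; show ((1 : U) : G) * b * ((1 : U) : G)⁻¹ = b; simp
  mul_smul u v b := by
    apply Subtype.ext
    show ((u * v : U) : G) * b * ((u * v : U) : G)⁻¹ = (u : G) * ((v : G) * b * (v : G)⁻¹) * (u : G)⁻¹
    simp [mul_assoc]
  smul_mul u b c := by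
    apply Subtype.ext
    show (u : G) * ((b * c : B) : G) * (u : G)⁻¹ = ((u : G) * b * (u : G)⁻¹) * ((u : G) * c * (u : G)⁻¹)
    simp [mul_assoc]
  smul_one u := by
    apply Subtype.ext
    show (u : G) * ((1 : B) : G) * (u : G)⁻¹ = 1
    simp

variable [Finite G] {p : ℕ} [Fact p.Prime]

/-- abelian case -/
theorem abelian_eq_bot_of_coatoms_fixedPointFree
    (U B : Subgroup G) (hUc : IsMulCommutative U) (hUp : ∀ a ∈ U, a ^ p = 1)
    (hcard : p ^ 2 ≤ Nat.card U) (hBc : IsMulCommutative B) (hB : (Nat.card B).Coprime p)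
    (hUB : U ≤ Subgroup.normalizer (B : Set G))
    (hfix : ∀ U₀ : Subgroup G, U₀ ≤ U → IsCoatom (U₀.subgroupOf U) →
      B ⊓ Subgroup.centralizer (U₀ : Set G) = ⊥) : B = ⊥ := by
  open scoped IsMulCommutative in
  letI : CommGroup ↥U := inferInstance
  letI : CommGroup ↥B := inferInstance
  letI : MulDistribMulAction ↥U ↥B := conjMDMA U B hUB
  have key := eq_one_of_coatoms_fixedPointFree (U := ↥U) (B := ↥B) p
    (fun u => Subtype.ext (hUp u u.2)) hB hcard ?_
  · rw [eq_bot_iff]
    intro x hx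
    have := key ⟨x, hx⟩
    exact Subgroup.mem_bot.mpr (congrArg Subtype.val this)
  · intro U₀' hco b hb
    have h := hfix (U₀'.map U.subtype) (Subgroup.map_subtype_le _)
      (by
        have e : (U₀'.map U.subtype).subgroupOf U = U₀' :=
          Subgroup.comap_map_eq_self_of_injective U.subtype_injective U₀'
        rw [e]; exact hco)
    have hmem : (b : G) ∈ B ⊓ Subgroup.centralizer ((U₀'.map U.subtype : Subgroup G) : Set G) := by
      refine Subgroup.mem_inf.mpr ⟨b.2, ?_⟩
      rw [Subgroup.mem_centralizer_iff]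
      rintro h' ⟨u, hu, rfl⟩
      have h1 := congrArg Subtype.val (hb u hu)
      have h2 : (u : G) * (b : G) * (u : G)⁻¹ = (b : G) := h1
      show (u : G) * (b : G) = (b : G) * (u : G)
      calc (u : G) * (b : G) = (u : G) * (b : G) * (u : G)⁻¹ * (u : G) := by group
        _ = (b : G) * (u : G) := by rw [h2]
    rw [h] at hmem
    exact Subtype.ext (Subgroup.mem_bot.mp hmem)

/-- general case -/
theorem eq_bot_of_coatoms_fixedPointFree
    (U R : Subgroup G) (hUc : IsMulCommutative U) (hUp : ∀ a ∈ U, a ^ p = 1)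
    (hcard : p ^ 2 ≤ Nat.card U) (hR : (Nat.card R).Coprime p)
    (hUR : U ≤ Subgroup.normalizer (R : Set G))
    (hfix : ∀ U₀ : Subgroup G, U₀ ≤ U → IsCoatom (U₀.subgroupOf U) →
      R ⊓ Subgroup.centralizer (U₀ : Set G) = ⊥) : R = ⊥ := by
  by_contra hne
  have hcardR : Nat.card R ≠ 1 := fun h => hne (Subgroup.card_eq_one.mp h)
  obtain ⟨q, hq, hqR⟩ := Nat.exists_prime_and_dvd hcardR
  haveI : Fact q.Prime := ⟨hq⟩
  -- U is a p-group
  have hUpg : IsPGroup p U := fun u => ⟨1, by rw [pow_one]; exact Subtype.ext (hUp u u.2)⟩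
  have hUcard : ∃ n, Nat.card U = p ^ n := IsPGroup.iff_card.mp hUpg
  obtain ⟨n, hn⟩ := hUcard
  have hcop : (Nat.card U).Coprime (Nat.card R) := by
    rw [hn]
    exact Nat.Coprime.pow_left n hR.symm
  have hsolv : Group.IsSolvable U := by
    have hnil : Group.IsNilpotent ↥U := hUpg.isNilpotent
    exact IsNilpotent.to_isSolvable
  -- a U-invariant Sylow q-subgroup T of R
  obtain ⟨T, hT, hUT⟩ := Cfsg.Agent.Helper35.exists_invariant_sylow hUR hcop (Or.inl hsolv) q
  have hTR : T ≤ R := hT.1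
  have hTq : IsPGroup q T := Cfsg.Agent.Helper35.isPGroup_of_mem_sylowSet hT
  have hTne : T ≠ ⊥ := by
    intro h
    have h1 := hT.2
    rw [h, Subgroup.card_bot] at h1
    have h2 : 0 < (Nat.card R).factorization q :=
      hq.factorization_pos_of_dvd Nat.card_pos.ne' hqR
    have h3 : 1 < q ^ (Nat.card R).factorization q := Nat.one_lt_pow h2.ne' hq.one_lt
    omega
  -- the centre of T
  haveI : Nontrivial ↥T := (Subgroup.nontrivial_iff_ne_bot T).mpr hTne
  haveI := hTq.center_nontrivial
  obtain ⟨z, hz⟩ := exists_ne (1 : ↥(Subgroup.center ↥T))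
  have hBne : T ⊓ Subgroup.centralizer (T : Set G) ≠ ⊥ := by
    intro h
    have hmem : ((z : ↥T) : G) ∈ T ⊓ Subgroup.centralizer (T : Set G) := by
      refine Subgroup.mem_inf.mpr ⟨(z : ↥T).2, ?_⟩
      rw [Subgroup.mem_centralizer_iff]
      intro t ht
      have := Subgroup.mem_center_iff.mp z.2 ⟨t, ht⟩
      exact congrArg Subtype.val this
    rw [h] at hmem
    apply hz
    apply Subtype.ext
    apply Subtype.ext
    exact Subgroup.mem_bot.mp hmem
  apply hBne
  apply abelian_eq_bot_of_coatoms_fixedPointFree U _ hUc hUp hcard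
  · -- abelian
    rw [← Subgroup.le_centralizer_iff_isMulCommutative]
    exact le_trans inf_le_right (centralizer_anti inf_le_left)
  · exact Nat.Coprime.coprime_dvd_left (Subgroup.card_dvd_of_le (le_trans inf_le_left hTR)) hR
  · intro u hu
    apply mem_normalizer_of_map_conj_eq
    rw [Subgroup.map_inf _ _ _ (MulAut.conj u).injective, ← centralizer_map_conj,
      map_conj_eq_of_mem_normalizer T u (hUT hu)]
  · intro U₀ hU₀ hco
    rw [eq_bot_iff, ← hfix U₀ hU₀ hco]
    exact inf_le_inf_right _ (le_trans inf_le_left hTR)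

end Cfsg.Agent.Helper50
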