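import Mathlib

/-!
# Groups of order 320 given by two generators and relations

`Rel320 a y` is a finite list of relations between two elements `a`, `y` of a group.  A finite
group generated by two elements satisfying them has at most 320 elements (`Rel320.card_le`), and
two groups of order 320 generated by such pairs are isomorphic (`rel320_unique`): the subgroup of
the product generated by the two pairs of generators is the graph of an isomorphism.
-/

set_option autoImplicit false

namespace Cfsg.Agent.Helper50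

section tower

variable {X : Type*} [Group X]

theorem conj_pow_mem (H : Subgroup X) (s : X) (h1 : ∀ h ∈ H, s * h * s⁻¹ ∈ H) (k : ℕ) :
    ∀ h ∈ H, s ^ k * h * (s ^ k)⁻¹ ∈ H := by
  induction k with
  | zero => intro h hh; simpa using hh
  | succ k ih =>
    intro h hh
    have := h1 _ (ih h hh)
    have e : s ^ (k + 1) * h * (s ^ (k + 1))⁻¹ = s * (s ^ k * h * (s ^ k)⁻¹) * s⁻¹ := by
      rw [pow_succ']; group
    rw [e]; exact this

theorem conj_pow_mem' (H : Subgroup X) (s : X) (m : ℕ)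
    (h1 : ∀ h ∈ H, s * h * s⁻¹ ∈ H) (hpow : s ^ (m + 1) ∈ H) (k : ℕ) :
    ∀ h ∈ H, (s ^ k)⁻¹ * h * s ^ k ∈ H := by
  have hinv : ∀ h ∈ H, s⁻¹ * h * s ∈ H := by
    intro h hh
    have h2 : (s ^ (m + 1))⁻¹ * h * s ^ (m + 1) ∈ H :=
      H.mul_mem (H.mul_mem (H.inv_mem hpow) hh) hpow
    have h3 := conj_pow_mem H s h1 m _ h2
    have e : s ^ m * ((s ^ (m + 1))⁻¹ * h * s ^ (m + 1)) * (s ^ m)⁻¹ = s⁻¹ * h * s := by
      rw [pow_succ]; group
    rw [e] at h3; exact h3
  induction k with
  | zero => intro h hh; simpa using hh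
  | succ k ih =>
    intro h hh
    have := hinv _ (ih h hh)
    have e : (s ^ (k + 1))⁻¹ * h * s ^ (k + 1) = s⁻¹ * ((s ^ k)⁻¹ * h * s ^ k) * s := by
      rw [pow_succ']; group
    rw [e]; exact this

/-- If `s` normalises `H` and `s ^ n ∈ H` then `⟨H, s⟩` has at most `n * |H|` elements. -/
theorem card_sup_zpowers_le [Finite X] (H : Subgroup X) (s : X) (n : ℕ) (hn : 0 < n)
    (h1 : ∀ h ∈ H, s * h * s⁻¹ ∈ H) (hpow : s ^ n ∈ H) :
    Nat.card ↥(H ⊔ Subgroup.zpowers s) ≤ n * Nat.card H := by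
  obtain ⟨m, rfl⟩ : ∃ m, n = m + 1 := ⟨n - 1, by omega⟩
  have hc := conj_pow_mem H s h1
  have hc' := conj_pow_mem' H s m h1 hpow
  let K : Subgroup X :=
    { carrier := {g | ∃ k : ℕ, g * s ^ k ∈ H}
      one_mem' := ⟨0, by simp⟩
      mul_mem' := by
        rintro a b ⟨k, hk⟩ ⟨l, hl⟩
        refine ⟨l + k, ?_⟩
        have e : a * b * s ^ (l + k) = (a * s ^ k) * ((s ^ k)⁻¹ * (b * s ^ l) * s ^ k) := by
          rw [pow_add]; group
        rw [e]
        exact H.mul_mem hk (hc' k _ hl)
      inv_mem' := by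
        rintro a ⟨k, hk⟩
        refine ⟨k * m, ?_⟩
        have e : a⁻¹ * s ^ (k * m) =
            (s ^ k * (a * s ^ k)⁻¹ * (s ^ k)⁻¹) * (s ^ (m + 1)) ^ k := by
          have e2 : (s ^ (m + 1)) ^ k = s ^ k * s ^ (k * m) := by
            rw [← pow_mul, ← pow_add]; congr 1; ring
          rw [e2]; group
        rw [e]
        exact H.mul_mem (hc k _ (H.inv_mem hk)) (H.pow_mem hpow k) }
  have hHK : H ≤ K := fun h hh => ⟨0, by simpa using hh⟩
  have hsK : s ∈ K := ⟨m, by rw [← pow_succ']; exact hpow⟩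
  have hle : H ⊔ Subgroup.zpowers s ≤ K :=
    sup_le hHK (by rw [Subgroup.zpowers_le]; exact hsK)
  have h2 : Nat.card K ≤ Nat.card (Fin (m + 1) × H) := by
    let f : Fin (m + 1) × H → K := fun p =>
      ⟨(p.2 : X) * (s ^ (p.1 : ℕ))⁻¹, ⟨(p.1 : ℕ), by
        rw [inv_mul_cancel_right]; exact p.2.2⟩⟩
    apply Nat.card_le_card_of_surjective f
    rintro ⟨g, k, hk⟩
    have hkk : s ^ k = s ^ (k % (m + 1)) * (s ^ (m + 1)) ^ (k / (m + 1)) := by
      rw [← pow_mul, ← pow_add, Nat.mod_add_div]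
    have hmem : g * s ^ (k % (m + 1)) ∈ H := by
      have e : g * s ^ (k % (m + 1)) = (g * s ^ k) * ((s ^ (m + 1)) ^ (k / (m + 1)))⁻¹ := by
        rw [hkk]; group
      rw [e]
      exact H.mul_mem hk (H.inv_mem (H.pow_mem hpow _))
    refine ⟨(⟨k % (m + 1), Nat.mod_lt _ (by omega)⟩, ⟨g * s ^ (k % (m + 1)), hmem⟩), ?_⟩
    apply Subtype.ext
    show g * s ^ (k % (m + 1)) * (s ^ (k % (m + 1)))⁻¹ = g
    rw [mul_inv_cancel_right]
  rw [Nat.card_prod, Nat.card_fin] at h2
  exact (Subgroup.card_le_of_le hle).trans h2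

/-- Pairwise commuting elements of order at most two generate a group of order at most
`2 ^ n`. -/
theorem card_closure_comm_invol [Finite X] (S : Finset X)
    (hc : ∀ a ∈ S, ∀ b ∈ S, a * b = b * a) (h2 : ∀ a ∈ S, a * a = 1) :
    Nat.card (Subgroup.closure (S : Set X)) ≤ 2 ^ S.card := by
  classical
  induction S using Finset.induction_on with
  | empty => simp
  | insert a S ha ih =>
    have ih' := ih (fun x hx y hy => hc x (Finset.mem_insert_of_mem hx) y
      (Finset.mem_insert_of_mem hy)) (fun x hx => h2 x (Finset.mem_insert_of_mem hx))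
    have e : Subgroup.closure ((insert a S : Finset X) : Set X) =
        Subgroup.closure (S : Set X) ⊔ Subgroup.zpowers a := by
      rw [Finset.coe_insert, Set.insert_eq, Subgroup.closure_union, Subgroup.zpowers_eq_closure,
        sup_comm]
    rw [e, Finset.card_insert_of_notMem ha, pow_succ, mul_comm]
    refine le_trans (card_sup_zpowers_le _ a 2 (by norm_num) ?_ ?_) (Nat.mul_le_mul_left 2 ih')
    · intro h hh
      have hle : Subgroup.closure (S : Set X) ≤ Subgroup.centralizer ({a} : Set X) := by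
        rw [Subgroup.closure_le]
        intro x hx
        rw [SetLike.mem_coe, Subgroup.mem_centralizer_iff]
        intro g hg
        rw [Set.mem_singleton_iff] at hg
        subst hg
        exact hc g (Finset.mem_insert_self _ _) x (Finset.mem_insert_of_mem hx)
      have h3 := (Subgroup.mem_centralizer_iff.1 (hle hh)) a rfl
      rw [h3, mul_inv_cancel_right]
      exact hh
    · rw [pow_two, h2 a (Finset.mem_insert_self _ _)]
      exact Subgroup.one_mem _

end tower

section rel

variable {X : Type*} [Group X]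

/-- conjugation -/
def cj (y x : X) : X := y * x * y⁻¹

/-- commutator -/
def km (a b : X) : X := a * b * a⁻¹ * b⁻¹

theorem cj_mul (y u v : X) : cj y (u * v) = cj y u * cj y v := by
  unfold cj; group

theorem cj_inv (y u : X) : cj y u⁻¹ = (cj y u)⁻¹ := by
  unfold cj; group

theorem cj_km (y u v : X) : km (cj y u) (cj y v) = cj y (km u v) := by
  unfold cj km; group

theorem km_symm (u v : X) : km v u = (km u v)⁻¹ := by
  unfold km; group

theorem mul_eq_km (u v : X) : u * v = km u v * (v * u) := by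
  unfold km; group

/-- The defining relations. -/
structure Rel320 (a y : X) : Prop where
  r1 : y ^ 5 = 1
  r2 : a * a * y = y * (a * a)
  r3a : km a (cj y a) * a = a * km a (cj y a)
  r3b : km a (cj y a) * y = y * km a (cj y a)
  r4a : a * a * (a * a) = 1
  r4b : km a (cj y a) * km a (cj y a) = 1
  r5 : km a (cj y (cj y a)) = a * a * km a (cj y a)
  r6 : cj y (cj y (cj y (cj y a))) = a * cj y a * cj y (cj y a) * cj y (cj y (cj y a))

theorem cj_five {y : X} (h : y ^ 5 = 1) (u : X) :
    cj y (cj y (cj y (cj y (cj y u)))) = u := by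
  have e : cj y (cj y (cj y (cj y (cj y u)))) =
      (y * y * y * y * y) * u * (y * y * y * y * y)⁻¹ := by
    unfold cj; group
  have h5 : y * y * y * y * y = 1 := by
    have := h
    simpa [pow_succ] using this
  rw [e, h5]; simp

theorem cj_central {y c : X} (h : ∀ g : X, c * g = g * c) : cj y c = c := by
  unfold cj
  rw [← h y, mul_inv_cancel_right]

/-- A finite group generated by two elements satisfying the relations has order at most 320. -/
theorem Rel320.card_le [Finite X] {a y : X} (R : Rel320 a y)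
    (hgen : Subgroup.closure ({a, y} : Set X) = ⊤) : Nat.card X ≤ 320 := by
  classical
  obtain ⟨z0, hz0⟩ : ∃ z0, z0 = a * a := ⟨_, rfl⟩
  obtain ⟨c1, hc1⟩ : ∃ c1, c1 = km a (cj y a) := ⟨_, rfl⟩
  obtain ⟨x1, hx1⟩ : ∃ x1, x1 = cj y a := ⟨_, rfl⟩
  obtain ⟨x2, hx2⟩ : ∃ x2, x2 = cj y x1 := ⟨_, rfl⟩
  obtain ⟨x3, hx3⟩ : ∃ x3, x3 = cj y x2 := ⟨_, rfl⟩
  have cen : ∀ w : X, w * a = a * w → w * y = y * w → ∀ g, w * g = g * w := by
    intro w h1 h2 g
    have hle : Subgroup.closure ({a, y} : Set X) ≤ Subgroup.centralizer ({w} : Set X) := by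
      rw [Subgroup.closure_le]
      intro x hx
      rw [SetLike.mem_coe, Subgroup.mem_centralizer_iff]
      intro k hk
      rw [Set.mem_singleton_iff] at hk
      subst hk
      rcases hx with rfl | hx
      · exact h1
      · rw [Set.mem_singleton_iff] at hx
        subst hx
        exact h2
    have hg : g ∈ Subgroup.centralizer ({w} : Set X) := hle (by rw [hgen]; trivial)
    exact (Subgroup.mem_centralizer_iff.1 hg) w rfl
  have hz0c : ∀ g, z0 * g = g * z0 :=
    cen z0 (by rw [hz0, mul_assoc]) (by rw [hz0]; exact R.r2)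
  have hc1c : ∀ g, c1 * g = g * c1 :=
    cen c1 (by rw [hc1]; exact R.r3a) (by rw [hc1]; exact R.r3b)
  have hz02 : z0 * z0 = 1 := by rw [hz0]; exact R.r4a
  have hc12 : c1 * c1 = 1 := by rw [hc1]; exact R.r4b
  have hzc : ∀ g, (z0 * c1) * g = g * (z0 * c1) := by
    intro g
    rw [mul_assoc, hc1c g, ← mul_assoc, hz0c g, mul_assoc]
  -- the central subgroup
  let K0 : Subgroup X := Subgroup.closure ((({z0, c1} : Finset X)) : Set X)
  have hK0card : Nat.card K0 ≤ 4 := by
    have h := card_closure_comm_invol ({z0, c1} : Finset X)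
      (by
        intro p hp q hq
        rw [Finset.mem_insert, Finset.mem_singleton] at hp hq
        rcases hp with rfl | rfl
        · exact hz0c q
        · exact hc1c q)
      (by
        intro p hp
        rw [Finset.mem_insert, Finset.mem_singleton] at hp
        rcases hp with rfl | rfl
        · exact hz02
        · exact hc12)
    have h4 : (2 : ℕ) ^ ({z0, c1} : Finset X).card ≤ 2 ^ 2 :=
      Nat.pow_le_pow_right (by norm_num) Finset.card_le_two
    exact h.trans (h4.trans (by norm_num))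
  have hK0cen : ∀ k ∈ K0, ∀ g : X, k * g = g * k := by
    intro k hk g
    have hle : K0 ≤ Subgroup.center X := by
      rw [Subgroup.closure_le]
      intro x hx
      rw [Finset.mem_coe, Finset.mem_insert, Finset.mem_singleton] at hx
      rw [SetLike.mem_coe, Subgroup.mem_center_iff]
      rcases hx with rfl | rfl
      · intro g; exact (hz0c g).symm
      · intro g; exact (hc1c g).symm
    exact ((Subgroup.mem_center_iff.1 (hle hk)) g).symm
  have hz0K : z0 ∈ K0 := Subgroup.subset_closure (by simp)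
  have hc1K : c1 ∈ K0 := Subgroup.subset_closure (by simp)
  have hK0n : K0.Normal := ⟨fun n hn g => by
    rw [← hK0cen n hn g, mul_inv_cancel_right]; exact hn⟩
  -- relations between the conjugates
  have sq1 : x1 * x1 = z0 := by
    rw [hx1, ← cj_mul, ← hz0]; exact cj_central hz0c
  have sq2 : x2 * x2 = z0 := by
    rw [hx2, ← cj_mul, sq1]; exact cj_central hz0c
  have sq3 : x3 * x3 = z0 := by
    rw [hx3, ← cj_mul, sq2]; exact cj_central hz0c
  have k01 : km a x1 = c1 := by rw [hx1, hc1]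
  have k02 : km a x2 = z0 * c1 := by rw [hx2, hx1, hz0, hc1]; exact R.r5
  have k12 : km x1 x2 = c1 := by
    rw [hx2]; nth_rewrite 1 [hx1]
    rw [cj_km, k01]; exact cj_central hc1c
  have k23 : km x2 x3 = c1 := by
    rw [hx3]; nth_rewrite 1 [hx2]
    rw [cj_km, k12]; exact cj_central hc1c
  have k13 : km x1 x3 = z0 * c1 := by
    rw [hx3]; nth_rewrite 1 [hx1]
    rw [cj_km, k02]; exact cj_central hzc
  have k03 : km a x3 = (z0 * c1)⁻¹ := by
    have h5 : a = cj y (cj y (cj y x2)) := by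
      rw [hx2, hx1]; exact (cj_five R.r1 a).symm
    have h6 : x3 = cj y (cj y (cj y a)) := by rw [hx3, hx2, hx1]
    have h7 : km x2 a = (z0 * c1)⁻¹ := by rw [km_symm, k02]
    have hzci : ∀ g, (z0 * c1)⁻¹ * g = g * (z0 * c1)⁻¹ := by
      intro g
      have := hzc g
      calc (z0 * c1)⁻¹ * g = (z0 * c1)⁻¹ * (g * (z0 * c1)) * (z0 * c1)⁻¹ := by group
        _ = (z0 * c1)⁻¹ * ((z0 * c1) * g) * (z0 * c1)⁻¹ := by rw [this]
        _ = g * (z0 * c1)⁻¹ := by group
    rw [h6]; nth_rewrite 1 [h5]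
    rw [cj_km, cj_km, cj_km, h7, cj_central hzci, cj_central hzci, cj_central hzci]
  -- the quotient
  let π : X →* X ⧸ K0 := QuotientGroup.mk' K0
  have hπ1 : ∀ k ∈ K0, π k = 1 := fun k hk => (QuotientGroup.eq_one_iff k).2 hk
  have comm_of : ∀ u v : X, km u v ∈ K0 → π u * π v = π v * π u := by
    intro u v h
    rw [← map_mul, mul_eq_km u v, map_mul, hπ1 _ h, one_mul, map_mul]
  have hzcK : z0 * c1 ∈ K0 := K0.mul_mem hz0K hc1K
  have c01 := comm_of a x1 (by rw [k01]; exact hc1K)
  have c02 := comm_of a x2 (by rw [k02]; exact hzcK)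
  have c03 := comm_of a x3 (by rw [k03]; exact K0.inv_mem hzcK)
  have c12 := comm_of x1 x2 (by rw [k12]; exact hc1K)
  have c13 := comm_of x1 x3 (by rw [k13]; exact hzcK)
  have c23 := comm_of x2 x3 (by rw [k23]; exact hc1K)
  have s0 : π a * π a = 1 := by rw [← map_mul, ← hz0]; exact hπ1 _ hz0K
  have s1 : π x1 * π x1 = 1 := by rw [← map_mul, sq1]; exact hπ1 _ hz0K
  have s2 : π x2 * π x2 = 1 := by rw [← map_mul, sq2]; exact hπ1 _ hz0K
  have s3 : π x3 * π x3 = 1 := by rw [← map_mul, sq3]; exact hπ1 _ hz0K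
  let S : Finset (X ⧸ K0) := {π a, π x1, π x2, π x3}
  have hSmem : ∀ p, p ∈ S ↔ p = π a ∨ p = π x1 ∨ p = π x2 ∨ p = π x3 := by
    intro p
    simp only [S, Finset.mem_insert, Finset.mem_singleton]
  have hV := card_closure_comm_invol S
    (by
      intro p hp q hq
      rw [hSmem] at hp hq
      rcases hp with rfl | rfl | rfl | rfl <;> rcases hq with rfl | rfl | rfl | rfl <;>
        first | rfl | assumption | (symm; assumption))
    (by
      intro p hp
      rw [hSmem] at hp
      rcases hp with rfl | rfl | rfl | rfl <;> assumption)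
  have hV16 : Nat.card (Subgroup.closure (S : Set (X ⧸ K0))) ≤ 16 := by
    have h4 : (2 : ℕ) ^ S.card ≤ 2 ^ 4 := Nat.pow_le_pow_right (by norm_num) Finset.card_le_four
    exact hV.trans (h4.trans (by norm_num))
  obtain ⟨V, hVdef⟩ : ∃ V : Subgroup (X ⧸ K0), V = Subgroup.closure (S : Set (X ⧸ K0)) :=
    ⟨_, rfl⟩
  rw [← hVdef] at hV16
  have hSV : ∀ p ∈ S, p ∈ V := fun p hp => by rw [hVdef]; exact Subgroup.subset_closure hp
  have ha_V : π a ∈ V := hSV _ ((hSmem _).2 (Or.inl rfl))
  have h1_V : π x1 ∈ V := hSV _ ((hSmem _).2 (Or.inr (Or.inl rfl)))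
  have h2_V : π x2 ∈ V := hSV _ ((hSmem _).2 (Or.inr (Or.inr (Or.inl rfl))))
  have h3_V : π x3 ∈ V := hSV _ ((hSmem _).2 (Or.inr (Or.inr (Or.inr rfl))))
  have hπcj : ∀ u : X, π y * π u * (π y)⁻¹ = π (cj y u) := by
    intro u
    unfold cj
    rw [map_mul, map_mul, map_inv]
  have hnorm : ∀ h ∈ V, π y * h * (π y)⁻¹ ∈ V := by
    have hle : V ≤ V.comap (MulAut.conj (π y)).toMonoidHom := by
      rw [hVdef, Subgroup.closure_le]
      intro p hp
      rw [Finset.mem_coe, hSmem] at hp
      rw [← hVdef]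
      show MulAut.conj (π y) p ∈ V
      rw [MulAut.conj_apply]
      rcases hp with rfl | rfl | rfl | rfl
      · rw [hπcj, ← hx1]; exact h1_V
      · rw [hπcj, ← hx2]; exact h2_V
      · rw [hπcj, ← hx3]; exact h3_V
      · rw [hπcj]
        have h6 : cj y x3 = a * x1 * x2 * x3 := by
          rw [hx3, hx2, hx1]; exact R.r6
        rw [h6, map_mul, map_mul, map_mul]
        exact V.mul_mem (V.mul_mem (V.mul_mem ha_V h1_V) h2_V) h3_V
    intro h hh
    have := hle hh
    rw [Subgroup.mem_comap] at this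
    have e : (MulAut.conj (π y)).toMonoidHom h = π y * h * (π y)⁻¹ := MulAut.conj_apply _ _
    rw [e] at this
    exact this
  have hpow : (π y) ^ 5 ∈ V := by
    rw [← map_pow, R.r1, map_one]; exact V.one_mem
  have h80 := card_sup_zpowers_le V (π y) 5 (by norm_num) hnorm hpow
  have htop : V ⊔ Subgroup.zpowers (π y) = ⊤ := by
    have h1 : (⊤ : Subgroup (X ⧸ K0)) = (Subgroup.closure ({a, y} : Set X)).map π := by
      rw [hgen, ← MonoidHom.range_eq_map, MonoidHom.range_eq_top.2 (QuotientGroup.mk'_surjective K0)]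
    rw [eq_top_iff, h1, MonoidHom.map_closure, Subgroup.closure_le]
    rintro _ ⟨x, hx, rfl⟩
    rcases hx with rfl | hx
    · exact (le_sup_left : V ≤ V ⊔ Subgroup.zpowers (π y)) ha_V
    · rw [Set.mem_singleton_iff] at hx
      subst hx
      exact (le_sup_right : Subgroup.zpowers (π x) ≤ V ⊔ Subgroup.zpowers (π x))
        (Subgroup.mem_zpowers _)
  rw [htop, Subgroup.card_top] at h80
  have hcard := Subgroup.card_eq_card_quotient_mul_card_subgroup K0
  rw [hcard]
  calc Nat.card (X ⧸ K0) * Nat.card K0 ≤ (5 * Nat.card V) * 4 := Nat.mul_le_mul h80 hK0card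
    _ ≤ (5 * 16) * 4 := Nat.mul_le_mul_right 4 (Nat.mul_le_mul_left 5 hV16)
    _ = 320 := by norm_num

/-- Two groups of order 320 generated by pairs satisfying the relations are isomorphic. -/
theorem rel320_unique {X₁ X₂ : Type*} [Group X₁] [Group X₂] [Finite X₁] [Finite X₂]
    (h₁ : Nat.card X₁ = 320) (h₂ : Nat.card X₂ = 320) {a y : X₁} {a' y' : X₂}
    (R : Rel320 a y) (R' : Rel320 a' y')
    (g : Subgroup.closure ({a, y} : Set X₁) = ⊤)
    (g' : Subgroup.closure ({a', y'} : Set X₂) = ⊤) : Nonempty (X₁ ≃* X₂) := by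
  classical
  obtain ⟨D, hD⟩ : ∃ D : Subgroup (X₁ × X₂),
      D = Subgroup.closure ({(a, a'), (y, y')} : Set (X₁ × X₂)) := ⟨_, rfl⟩
  have haD : (a, a') ∈ D := by rw [hD]; exact Subgroup.subset_closure (by simp)
  have hyD : (y, y') ∈ D := by rw [hD]; exact Subgroup.subset_closure (by simp)
  have RD : Rel320 (⟨(a, a'), haD⟩ : D) ⟨(y, y'), hyD⟩ := by
    refine ⟨?_, ?_, ?_, ?_, ?_, ?_, ?_, ?_⟩
    · exact Subtype.ext (Prod.ext R.r1 R'.r1)
    · exact Subtype.ext (Prod.ext R.r2 R'.r2)
    · exact Subtype.ext (Prod.ext R.r3a R'.r3a)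
    · exact Subtype.ext (Prod.ext R.r3b R'.r3b)
    · exact Subtype.ext (Prod.ext R.r4a R'.r4a)
    · exact Subtype.ext (Prod.ext R.r4b R'.r4b)
    · exact Subtype.ext (Prod.ext R.r5 R'.r5)
    · exact Subtype.ext (Prod.ext R.r6 R'.r6)
  have genD : Subgroup.closure ({(⟨(a, a'), haD⟩ : D), ⟨(y, y'), hyD⟩} : Set D) = ⊤ := by
    have h := Subgroup.closure_closure_coe_preimage (k := ({(a, a'), (y, y')} : Set (X₁ × X₂)))
    subst hD
    have e : (((↑) : Subgroup.closure ({(a, a'), (y, y')} : Set (X₁ × X₂)) → X₁ × X₂) ⁻¹'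
        ({(a, a'), (y, y')} : Set (X₁ × X₂))) = {⟨(a, a'), haD⟩, ⟨(y, y'), hyD⟩} := by
      ext x
      simp only [Set.mem_preimage, Set.mem_insert_iff, Set.mem_singleton_iff, Subtype.ext_iff]
    rw [e] at h
    exact h
  have hcD : Nat.card D ≤ 320 := RD.card_le genD
  let p₁ : D →* X₁ := (MonoidHom.fst X₁ X₂).comp D.subtype
  let p₂ : D →* X₂ := (MonoidHom.snd X₁ X₂).comp D.subtype
  have hs₁ : Function.Surjective p₁ := by
    rw [← MonoidHom.range_eq_top, eq_top_iff, ← g, Subgroup.closure_le]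
    intro x hx
    rcases hx with rfl | hx
    · exact ⟨⟨(x, a'), haD⟩, rfl⟩
    · rw [Set.mem_singleton_iff] at hx
      subst hx
      exact ⟨⟨(x, y'), hyD⟩, rfl⟩
  have hs₂ : Function.Surjective p₂ := by
    rw [← MonoidHom.range_eq_top, eq_top_iff, ← g', Subgroup.closure_le]
    intro x hx
    rcases hx with rfl | hx
    · exact ⟨⟨(a, x), haD⟩, rfl⟩
    · rw [Set.mem_singleton_iff] at hx
      subst hx
      exact ⟨⟨(y, x), hyD⟩, rfl⟩
  have hb₁ : Function.Bijective p₁ := hs₁.bijective_of_nat_card_le (by rw [h₁]; exact hcD)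
  have hb₂ : Function.Bijective p₂ := hs₂.bijective_of_nat_card_le (by rw [h₂]; exact hcD)
  exact ⟨(MulEquiv.ofBijective p₁ hb₁).symm.trans (MulEquiv.ofBijective p₂ hb₂)⟩

end rel

end Cfsg.Agent.Helper50
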