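import Mathlib
import Cfsg.Agent.Helper50.G320a
import Cfsg.Agent.Helper50.Burn3

/-!
# Groups of order 64 with an automorphism of order five

`Q64 φ`: `T` has order 64, its centre is a four-group contained in the derived subgroup, and `φ`
is an automorphism with `φ⁵ = 1` all of whose fixed points are central.  Then `T / Z(T)` is
elementary abelian of order 16 with `φ` acting fixed-point-freely, and `T` has an element `a`
with `φ⁴ a = a · φ a · φ² a · φ³ a`, `[a, φ² a] = a² [a, φ a]` whose `φ`-conjugates generate `T`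
(`Q64.exists_gen`).
-/

set_option autoImplicit false
set_option linter.unusedSectionVars false
set_option linter.unusedVariables false

open scoped commutatorElement

namespace Cfsg.Agent.Helper50

/-- The hypotheses on a group of order 64 and an automorphism of order five. -/
structure Q64 {T : Type*} [Group T] (φ : MulAut T) : Prop where
  card : Nat.card T = 64
  zcard : Nat.card (Subgroup.center T) = 4
  zexp : ∀ z ∈ Subgroup.center T, z * z = 1
  pow : ∀ t, φ (φ (φ (φ (φ t)))) = t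
  fix : ∀ t, φ t = t → t ∈ Subgroup.center T
  der : Subgroup.center T ≤ commutator T

section generic

variable {T : Type*} [Group T]

/-- An automorphism of order dividing five fixes an invariant subgroup of order four
pointwise. -/
theorem fix_of_card_four (φ : MulAut T) (Z : Subgroup T) (hZ : Nat.card Z = 4)
    (hinv : ∀ z ∈ Z, φ z ∈ Z) (hpow : ∀ t, φ (φ (φ (φ (φ t)))) = t) : ∀ z ∈ Z, φ z = z := by
  classical
  have hfin : Finite Z := Nat.finite_of_card_ne_zero (by rw [hZ]; norm_num)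
  have hinv' : ∀ z ∈ Z, φ.symm z ∈ Z := by
    intro z hz
    have : φ.symm z = φ (φ (φ (φ z))) := by
      apply φ.injective
      rw [MulEquiv.apply_symm_apply, hpow]
    rw [this]
    exact hinv _ (hinv _ (hinv _ (hinv _ hz)))
  let ψ : Equiv.Perm Z :=
    { toFun := fun z => ⟨φ z, hinv z z.2⟩
      invFun := fun z => ⟨φ.symm z, hinv' z z.2⟩
      left_inv := fun z => Subtype.ext (φ.symm_apply_apply z)
      right_inv := fun z => Subtype.ext (φ.apply_symm_apply z) }
  have hψ5 : ψ ^ 5 = 1 := by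
    apply Equiv.ext
    intro z
    rw [Equiv.Perm.coe_pow]
    apply Subtype.ext
    show φ (φ (φ (φ (φ (z : T))))) = z
    exact hpow z
  have h1 : orderOf ψ ∣ 5 := orderOf_dvd_of_pow_eq_one hψ5
  have h2 : orderOf ψ ∣ Nat.card (Equiv.Perm Z) := orderOf_dvd_natCard ψ
  rw [Nat.card_perm, hZ] at h2
  have h3 : orderOf ψ ∣ Nat.gcd 5 (Nat.factorial 4) := Nat.dvd_gcd h1 h2
  have h4 : Nat.gcd 5 (Nat.factorial 4) = 1 := by decide
  rw [h4, Nat.dvd_one, orderOf_eq_one_iff] at h3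
  intro z hz
  have h5 : ψ ⟨z, hz⟩ = ⟨z, hz⟩ := by rw [h3]; rfl
  exact congrArg Subtype.val h5

/-- Invariant subgroups of a fixed-point-free automorphism of order five have order
`≡ 1 (mod 5)`. -/
theorem card_mod_five [Finite T] (ψ : MulAut T)
    (h5 : ∀ v, ψ (ψ (ψ (ψ (ψ v)))) = v) (hf : ∀ v, ψ v = v → v = 1)
    (S : Subgroup T) (hS : ∀ v ∈ S, ψ v ∈ S) : Nat.card S % 5 = 1 := by
  have : Fact (Nat.Prime 5) := ⟨by norm_num⟩
  have key := card_modEq_card_fixed (α := S) (fun n => ⟨ψ n, hS n n.2⟩) 5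
    (fun a => Subtype.ext (by
      show ψ (ψ (ψ (ψ (ψ (a : T))))) = a
      exact h5 a))
  have hfix : Nat.card {a : S // (⟨ψ a, hS a a.2⟩ : S) = a} = 1 := by
    rw [Nat.card_eq_one_iff_unique]
    refine ⟨⟨?_⟩, ⟨⟨1, Subtype.ext (by simp)⟩⟩⟩
    rintro ⟨a, ha⟩ ⟨b, hb⟩
    have ha' : (a : T) = 1 := hf _ (congrArg Subtype.val ha)
    have hb' : (b : T) = 1 := hf _ (congrArg Subtype.val hb)
    exact Subtype.ext (Subtype.ext (ha'.trans hb'.symm))
  rw [hfix] at key
  exact key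

theorem eq_sixteen_of (n : ℕ) (h1 : n ∣ 16) (h2 : n % 5 = 1) (h3 : n ≠ 1) : n = 16 := by
  have hle := Nat.le_of_dvd (by norm_num) h1
  interval_cases n <;> first | rfl | omega

theorem km_mul_left' {s s' w : T} (h : km s' w ∈ Subgroup.center T) :
    km (s * s') w = km s' w * km s w := by
  have h1 := Subgroup.mem_center_iff.1 h
  calc km (s * s') w = s * km s' w * w * s⁻¹ * w⁻¹ := by unfold km; group
    _ = km s' w * s * w * s⁻¹ * w⁻¹ := by rw [h1 s]
    _ = km s' w * km s w := by unfold km; group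

theorem km_mul_right' {s w w' : T} (h : km s w' ∈ Subgroup.center T) :
    km s (w * w') = km s w' * km s w := by
  have h1 := Subgroup.mem_center_iff.1 h
  calc km s (w * w') = s * w * s⁻¹ * km s w' * w⁻¹ := by unfold km; group
    _ = km s w' * (s * w * s⁻¹) * w⁻¹ := by rw [← h1 (s * w * s⁻¹)]
    _ = km s w' * km s w := by unfold km; group

theorem sq_mul' {u v : T} (h : km v u ∈ Subgroup.center T) :
    (u * v) * (u * v) = km v u * ((u * u) * (v * v)) := by
  have h1 := Subgroup.mem_center_iff.1 h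
  calc (u * v) * (u * v) = u * (v * u) * v := by group
    _ = u * (km v u * (u * v)) * v := by rw [← mul_eq_km v u]
    _ = u * km v u * (u * v) * v := by group
    _ = km v u * u * (u * v) * v := by rw [h1 u]
    _ = km v u * ((u * u) * (v * v)) := by group

theorem mul_w_pair {w b0 b1 : T} (hw : ∀ g : T, g * w = w * g) (hw2 : w * w = 1) :
    (b0 * w) * (b1 * w) = b0 * b1 := by
  calc (b0 * w) * (b1 * w) = b0 * (w * b1) * w := by group
    _ = b0 * (b1 * w) * w := by rw [hw b1]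
    _ = b0 * b1 * (w * w) := by group
    _ = b0 * b1 := by rw [hw2, mul_one]

theorem km_central_left {n z g : T} (hz : z ∈ Subgroup.center T) : km (n * z) g = km n g := by
  have h1 := Subgroup.mem_center_iff.1 hz
  calc km (n * z) g = n * (z * g) * z⁻¹ * n⁻¹ * g⁻¹ := by unfold km; group
    _ = n * (g * z) * z⁻¹ * n⁻¹ * g⁻¹ := by rw [h1 g]
    _ = km n g := by unfold km; group

theorem km_central_right {n z g : T} (hz : z ∈ Subgroup.center T) : km g (n * z) = km g n := by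
  have h1 := Subgroup.mem_center_iff.1 hz
  calc km g (n * z) = g * n * (z * g⁻¹) * z⁻¹ * n⁻¹ := by unfold km; group
    _ = g * n * (g⁻¹ * z) * z⁻¹ * n⁻¹ := by rw [h1 g⁻¹]
    _ = km g n := by unfold km; group

end generic

section q64

variable {T : Type*} [Group T] {φ : MulAut T}

theorem Q64.finite (h : Q64 φ) : Finite T :=
  Nat.finite_of_card_ne_zero (by rw [h.card]; norm_num)

theorem Q64.fixc (h : Q64 φ) : ∀ z ∈ Subgroup.center T, φ z = z :=
  fix_of_card_four φ _ h.zcard (fun z hz => mulAut_mem_center φ hz) h.pow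

theorem Q64.fpf_mod (h : Q64 φ) (t : T) (ht : t⁻¹ * φ t ∈ Subgroup.center T) :
    t ∈ Subgroup.center T := by
  obtain ⟨z, hz⟩ : ∃ z, z = t⁻¹ * φ t := ⟨_, rfl⟩
  rw [← hz] at ht
  have hφt : φ t = t * z := by rw [hz]; group
  have hφz : φ z = z := h.fixc z ht
  have hz2 : z * z = 1 := h.zexp z ht
  have e1 : φ (φ t) = t := by rw [hφt, map_mul, hφt, hφz, mul_assoc, hz2, mul_one]
  have e5 := h.pow t
  rw [e1, e1] at e5
  exact h.fix t e5

theorem Q64.center_iff (h : Q64 φ) (t : T) : φ t ∈ Subgroup.center T ↔ t ∈ Subgroup.center T := by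
  constructor
  · intro ht
    have := mulAut_mem_center φ.symm ht
    rwa [MulEquiv.symm_apply_apply] at this
  · exact fun ht => mulAut_mem_center φ ht

/-- The structure of the central quotient. -/
theorem Q64.quot (h : Q64 φ) :
    (∀ s t : T, km s t ∈ Subgroup.center T) ∧ (∀ t : T, t * t ∈ Subgroup.center T) ∧
    (∀ t : T, t * φ t * φ (φ t) * φ (φ (φ t)) * φ (φ (φ (φ t))) ∈ Subgroup.center T) ∧
    (∀ N : Subgroup T, (∀ n ∈ N, ∃ m ∈ N, m⁻¹ * φ n ∈ Subgroup.center T) →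
      (∃ n ∈ N, n ∉ Subgroup.center T) → ∀ t : T, ∃ n ∈ N, n⁻¹ * t ∈ Subgroup.center T) := by
  classical
  have hfin := h.finite
  have : Fact (Nat.Prime 2) := ⟨Nat.prime_two⟩
  obtain ⟨ψ, hψ⟩ : ∃ ψ : MulAut (T ⧸ Subgroup.center T),
      ψ = quotAut (Subgroup.center T) φ h.center_iff := ⟨_, rfl⟩
  have hmk : ∀ t : T, ψ (QuotientGroup.mk t) = QuotientGroup.mk (φ t) := by
    intro t; rw [hψ]; rfl
  have h5 : ∀ v, ψ (ψ (ψ (ψ (ψ v)))) = v := by
    intro v
    obtain ⟨t, rfl⟩ := QuotientGroup.mk_surjective v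
    rw [hmk, hmk, hmk, hmk, hmk, h.pow]
  have hf : ∀ v, ψ v = v → v = 1 := by
    intro v hv
    obtain ⟨t, rfl⟩ := QuotientGroup.mk_surjective v
    rw [hmk, QuotientGroup.eq] at hv
    have h1 : t⁻¹ * φ t ∈ Subgroup.center T := by
      have := Subgroup.inv_mem _ hv
      have e : ((φ t)⁻¹ * t)⁻¹ = t⁻¹ * φ t := by group
      rwa [e] at this
    exact (QuotientGroup.eq_one_iff t).2 (h.fpf_mod t h1)
  have hcardQ : Nat.card (T ⧸ Subgroup.center T) = 16 := by
    have := Subgroup.card_eq_card_quotient_mul_card_subgroup (Subgroup.center T)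
    rw [h.card, h.zcard] at this
    omega
  have hpQ : IsPGroup 2 (T ⧸ Subgroup.center T) :=
    IsPGroup.of_card (n := 4) (by rw [hcardQ]; norm_num)
  have hntQ : Nontrivial (T ⧸ Subgroup.center T) :=
    Finite.one_lt_card_iff_nontrivial.1 (by rw [hcardQ]; norm_num)
  have hinvS : ∀ S : Subgroup (T ⧸ Subgroup.center T), (∀ v ∈ S, ψ v ∈ S) → S ≠ ⊥ → S = ⊤ := by
    intro S hS hne
    have h1 := card_mod_five ψ h5 hf S hS
    have h2 : Nat.card S ∣ 16 := by rw [← hcardQ]; exact Subgroup.card_subgroup_dvd_card S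
    have h3 : Nat.card S ≠ 1 := fun h => hne (Subgroup.eq_bot_of_card_eq S h)
    have h4 := eq_sixteen_of _ h2 h1 h3
    exact (Subgroup.card_eq_iff_eq_top S).1 (by rw [h4, hcardQ])
  -- the quotient is abelian
  have hcomm : ∀ u v : T ⧸ Subgroup.center T, u * v = v * u := by
    have hne : Subgroup.center (T ⧸ Subgroup.center T) ≠ ⊥ := by
      have := hpQ.center_nontrivial
      intro hbot
      obtain ⟨⟨c, hc⟩, hc1⟩ := exists_ne (1 : Subgroup.center (T ⧸ Subgroup.center T))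
      rw [hbot, Subgroup.mem_bot] at hc
      exact hc1 (Subtype.ext hc)
    have htop := hinvS _ (fun v hv => mulAut_mem_center ψ hv) hne
    intro u v
    have hv : v ∈ Subgroup.center (T ⧸ Subgroup.center T) := by rw [htop]; trivial
    exact Subgroup.mem_center_iff.1 hv u
  -- of exponent two
  have hexp : ∀ v : T ⧸ Subgroup.center T, v * v = 1 := by
    let Ω : Subgroup (T ⧸ Subgroup.center T) :=
      { carrier := {v | v * v = 1}
        one_mem' := by simp
        mul_mem' := by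
          intro a b ha hb
          change a * a = 1 at ha
          change b * b = 1 at hb
          change a * b * (a * b) = 1
          calc a * b * (a * b) = a * (b * a) * b := by group
            _ = a * (a * b) * b := by rw [hcomm b a]
            _ = (a * a) * (b * b) := by group
            _ = 1 := by rw [ha, hb, mul_one]
        inv_mem' := by
          intro a ha
          change a * a = 1 at ha
          change a⁻¹ * a⁻¹ = 1
          rw [← mul_inv_rev, ha, inv_one] }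
    have hΩ : ∀ v ∈ Ω, ψ v ∈ Ω := by
      intro v hv
      change v * v = 1 at hv
      change ψ v * ψ v = 1
      rw [← map_mul, hv, map_one]
    have hne : Ω ≠ ⊥ := by
      obtain ⟨g, hg⟩ := exists_ne (1 : T ⧸ Subgroup.center T)
      obtain ⟨m, hm1, hm2⟩ := exists_pow_invol hpQ hg
      intro hbot
      have : g ^ m ∈ Ω := hm2
      rw [hbot, Subgroup.mem_bot] at this
      exact hm1 this
    have htop := hinvS Ω hΩ hne
    intro v
    have : v ∈ Ω := by rw [htop]; trivial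
    exact this
  have hkm : ∀ s t : T, km s t ∈ Subgroup.center T := by
    intro s t
    rw [← QuotientGroup.eq_one_iff]
    have e : ((km s t : T) : T ⧸ Subgroup.center T) =
        (s : T ⧸ Subgroup.center T) * t * (s : T ⧸ Subgroup.center T)⁻¹ *
          (t : T ⧸ Subgroup.center T)⁻¹ := by
      unfold km
      simp only [QuotientGroup.mk_mul, QuotientGroup.mk_inv]
    rw [e, hcomm (s : T ⧸ Subgroup.center T) t]
    group
  have hsq : ∀ t : T, t * t ∈ Subgroup.center T := by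
    intro t
    rw [← QuotientGroup.eq_one_iff, QuotientGroup.mk_mul]
    exact hexp _
  have hnorm : ∀ t : T, t * φ t * φ (φ t) * φ (φ (φ t)) * φ (φ (φ (φ t))) ∈
      Subgroup.center T := by
    intro t
    rw [← QuotientGroup.eq_one_iff]
    apply hf
    simp only [QuotientGroup.mk_mul, map_mul, hmk, h.pow]
    obtain ⟨v0, hv0⟩ : ∃ v0 : T ⧸ Subgroup.center T, v0 = (t : T ⧸ Subgroup.center T) :=
      ⟨_, rfl⟩
    obtain ⟨v1, hv1⟩ : ∃ v1 : T ⧸ Subgroup.center T, v1 = (φ t : T ⧸ Subgroup.center T) :=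
      ⟨_, rfl⟩
    obtain ⟨v2, hv2⟩ : ∃ v2 : T ⧸ Subgroup.center T,
        v2 = (φ (φ t) : T ⧸ Subgroup.center T) := ⟨_, rfl⟩
    obtain ⟨v3, hv3⟩ : ∃ v3 : T ⧸ Subgroup.center T,
        v3 = (φ (φ (φ t)) : T ⧸ Subgroup.center T) := ⟨_, rfl⟩
    obtain ⟨v4, hv4⟩ : ∃ v4 : T ⧸ Subgroup.center T,
        v4 = (φ (φ (φ (φ t))) : T ⧸ Subgroup.center T) := ⟨_, rfl⟩
    rw [← hv0, ← hv1, ← hv2, ← hv3, ← hv4]
    rw [hcomm (v1 * v2 * v3 * v4) v0]
    group
  refine ⟨hkm, hsq, hnorm, ?_⟩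
  intro N hN hNne t
  obtain ⟨Nb, hNb⟩ : ∃ Nb : Subgroup (T ⧸ Subgroup.center T),
      Nb = N.map (QuotientGroup.mk' (Subgroup.center T)) := ⟨_, rfl⟩
  have hNbinv : ∀ v ∈ Nb, ψ v ∈ Nb := by
    intro v hv
    rw [hNb] at hv ⊢
    obtain ⟨n, hn, rfl⟩ := hv
    obtain ⟨m, hm, hmz⟩ := hN n hn
    refine ⟨m, hm, ?_⟩
    rw [QuotientGroup.mk'_apply, QuotientGroup.mk'_apply, hmk, QuotientGroup.eq]
    exact hmz
  have hNbne : Nb ≠ ⊥ := by
    obtain ⟨n, hn, hnz⟩ := hNne
    intro hbot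
    have : (QuotientGroup.mk' (Subgroup.center T)) n ∈ Nb := by
      rw [hNb]; exact ⟨n, hn, rfl⟩
    rw [hbot, Subgroup.mem_bot, QuotientGroup.mk'_apply, QuotientGroup.eq_one_iff] at this
    exact hnz this
  have htop := hinvS Nb hNbinv hNbne
  have ht : (QuotientGroup.mk' (Subgroup.center T)) t ∈ Nb := by rw [htop]; trivial
  rw [hNb] at ht
  obtain ⟨n, hn, hnt⟩ := ht
  refine ⟨n, hn, ?_⟩
  rw [QuotientGroup.mk'_apply, QuotientGroup.mk'_apply, QuotientGroup.eq] at hnt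
  exact hnt

/-- The `φ`-conjugates of a non-central element generate `T`. -/
theorem Q64.closure_eq_top (h : Q64 φ) (a : T) (ha : a ∉ Subgroup.center T) :
    Subgroup.closure ({a, φ a, φ (φ a), φ (φ (φ a))} : Set T) = ⊤ := by
  obtain ⟨hkm, hsq, hnorm, hgen⟩ := h.quot
  obtain ⟨N, hNdef⟩ : ∃ N : Subgroup T,
      N = Subgroup.closure ({a, φ a, φ (φ a), φ (φ (φ a))} : Set T) := ⟨_, rfl⟩
  rw [← hNdef]
  have ha0 : a ∈ N := by rw [hNdef]; exact Subgroup.subset_closure (by simp)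
  have ha1 : φ a ∈ N := by rw [hNdef]; exact Subgroup.subset_closure (by simp)
  have ha2 : φ (φ a) ∈ N := by rw [hNdef]; exact Subgroup.subset_closure (by simp)
  have ha3 : φ (φ (φ a)) ∈ N := by rw [hNdef]; exact Subgroup.subset_closure (by simp)
  -- invariance modulo the centre
  have hinv : ∀ n ∈ N, ∃ m ∈ N, m⁻¹ * φ n ∈ Subgroup.center T := by
    let M : Subgroup T :=
      { carrier := {n | ∃ m ∈ N, m⁻¹ * φ n ∈ Subgroup.center T}
        one_mem' := ⟨1, N.one_mem, by simp⟩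
        mul_mem' := by
          rintro x y ⟨m, hm, hmz⟩ ⟨m', hm', hmz'⟩
          refine ⟨m * m', N.mul_mem hm hm', ?_⟩
          have h1 := Subgroup.mem_center_iff.1 hmz
          have e : (m * m')⁻¹ * φ (x * y) = (m⁻¹ * φ x) * (m'⁻¹ * φ y) := by
            rw [map_mul]
            calc (m * m')⁻¹ * (φ x * φ y) = m'⁻¹ * (m⁻¹ * φ x) * φ y := by group
              _ = (m⁻¹ * φ x) * m'⁻¹ * φ y := by rw [h1 m'⁻¹]
              _ = (m⁻¹ * φ x) * (m'⁻¹ * φ y) := by group
          rw [e]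
          exact Subgroup.mul_mem _ hmz hmz'
        inv_mem' := by
          rintro x ⟨m, hm, hmz⟩
          refine ⟨m⁻¹, N.inv_mem hm, ?_⟩
          have h1 := Subgroup.mem_center_iff.1 hmz
          have e : m⁻¹⁻¹ * φ x⁻¹ = (m⁻¹ * φ x)⁻¹ := by
            rw [map_inv]
            have h1' := Subgroup.mem_center_iff.1 (Subgroup.inv_mem _ hmz)
            calc m⁻¹⁻¹ * (φ x)⁻¹ = m * (m⁻¹ * φ x)⁻¹ * m⁻¹ := by group
              _ = (m⁻¹ * φ x)⁻¹ * m * m⁻¹ := by rw [h1' m]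
              _ = (m⁻¹ * φ x)⁻¹ := by group
          rw [e]
          exact Subgroup.inv_mem _ hmz }
    have hle : N ≤ M := by
      rw [hNdef, Subgroup.closure_le]
      intro x hx
      rcases hx with rfl | rfl | rfl | hx
      · exact ⟨φ x, ha1, by simp⟩
      · exact ⟨φ (φ a), ha2, by simp⟩
      · exact ⟨φ (φ (φ a)), ha3, by simp⟩
      · rw [Set.mem_singleton_iff] at hx
        subst hx
        refine ⟨(a * φ a * φ (φ a) * φ (φ (φ a)))⁻¹,
          N.inv_mem (N.mul_mem (N.mul_mem (N.mul_mem ha0 ha1) ha2) ha3), ?_⟩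
        rw [inv_inv]
        exact hnorm a
    exact fun n hn => hle hn
  have hcov := hgen N hinv ⟨a, ha0, ha⟩
  -- the derived subgroup lies in `N`
  have hder : commutator T ≤ N := by
    rw [commutator_def, Subgroup.commutator_le]
    intro g₁ _ g₂ _
    obtain ⟨n₁, hn₁, hz₁⟩ := hcov g₁
    obtain ⟨n₂, hn₂, hz₂⟩ := hcov g₂
    have e1 : g₁ = n₁ * (n₁⁻¹ * g₁) := by group
    have e2 : g₂ = n₂ * (n₂⁻¹ * g₂) := by group
    have e3 : ⁅g₁, g₂⁆ = km n₁ n₂ := by
      have : ⁅g₁, g₂⁆ = km g₁ g₂ := rfl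
      rw [this, e1, km_central_left hz₁, e2, km_central_right hz₂]
    rw [e3]
    unfold km
    exact N.mul_mem (N.mul_mem (N.mul_mem hn₁ hn₂) (N.inv_mem hn₁)) (N.inv_mem hn₂)
  rw [eq_top_iff]
  intro t _
  obtain ⟨n, hn, hz⟩ := hcov t
  have e : t = n * (n⁻¹ * t) := by group
  rw [e]
  exact N.mul_mem hn (hder (h.der hz))

/-- Generators and relations for a `Q64` group. -/
theorem Q64.exists_gen (h : Q64 φ) : ∃ a : T,
    a * a ∈ Subgroup.center T ∧ km a (φ a) ∈ Subgroup.center T ∧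
    km a (φ (φ a)) = a * a * km a (φ a) ∧
    φ (φ (φ (φ a))) = a * φ a * φ (φ a) * φ (φ (φ a)) ∧
    Subgroup.closure ({a, φ a, φ (φ a), φ (φ (φ a))} : Set T) = ⊤ := by
  obtain ⟨hkm, hsq, hnorm, hgen⟩ := h.quot
  have hfin := h.finite
  have hfix := h.fixc
  -- a non-central element
  obtain ⟨a0, ha0⟩ : ∃ a0 : T, a0 ∉ Subgroup.center T := by
    by_contra hcon
    push Not at hcon
    have htop : Subgroup.center T = ⊤ := by
      rw [eq_top_iff]; intro t _; exact hcon t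
    have := h.zcard
    rw [htop, Subgroup.card_top, h.card] at this
    omega
  obtain ⟨p0, hp0⟩ : ∃ p0, p0 = a0 * φ a0 * φ (φ a0) * φ (φ (φ a0)) := ⟨_, rfl⟩
  obtain ⟨w, hw⟩ : ∃ w, w = (p0 * p0)⁻¹ * (p0 * φ (φ (φ (φ a0)))) := ⟨_, rfl⟩
  have hwZ : w ∈ Subgroup.center T := by
    rw [hw]
    refine Subgroup.mul_mem _ (Subgroup.inv_mem _ (hsq p0)) ?_
    rw [hp0]; exact hnorm a0
  have hwc : ∀ g : T, g * w = w * g := Subgroup.mem_center_iff.1 hwZ
  have hw2 : w * w = 1 := h.zexp w hwZ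
  have hφw : φ w = w := hfix w hwZ
  have h4 : φ (φ (φ (φ a0))) = p0 * w := by rw [hw]; group
  obtain ⟨a, hadef⟩ : ∃ a, a = a0 * w := ⟨_, rfl⟩
  have ha : a ∉ Subgroup.center T := by
    intro hcon
    apply ha0
    have e : a0 = a * w⁻¹ := by rw [hadef]; group
    rw [e]
    exact Subgroup.mul_mem _ hcon (Subgroup.inv_mem _ hwZ)
  have e1 : φ a = φ a0 * w := by rw [hadef, map_mul, hφw]
  have e2 : φ (φ a) = φ (φ a0) * w := by rw [e1, map_mul, hφw]
  have e3 : φ (φ (φ a)) = φ (φ (φ a0)) * w := by rw [e2, map_mul, hφw]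
  have e4 : φ (φ (φ (φ a))) = p0 := by
    rw [e3, map_mul, hφw, h4, mul_assoc, hw2, mul_one]
  have r6 : φ (φ (φ (φ a))) = a * φ a * φ (φ a) * φ (φ (φ a)) := by
    rw [e4, e3, e2, e1, hadef, mul_w_pair hwc hw2, mul_assoc (a0 * φ a0),
      mul_w_pair hwc hw2, hp0]
    group
  -- notation
  obtain ⟨x1, hx1⟩ : ∃ x1, x1 = φ a := ⟨_, rfl⟩
  obtain ⟨x2, hx2⟩ : ∃ x2, x2 = φ x1 := ⟨_, rfl⟩
  obtain ⟨x3, hx3⟩ : ∃ x3, x3 = φ x2 := ⟨_, rfl⟩
  obtain ⟨z0, hz0⟩ : ∃ z0, z0 = a * a := ⟨_, rfl⟩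
  obtain ⟨c1, hc1⟩ : ∃ c1, c1 = km a x1 := ⟨_, rfl⟩
  obtain ⟨c2, hc2⟩ : ∃ c2, c2 = km a x2 := ⟨_, rfl⟩
  have hz0Z : z0 ∈ Subgroup.center T := by rw [hz0]; exact hsq a
  have hc1Z : c1 ∈ Subgroup.center T := by rw [hc1]; exact hkm _ _
  have hc2Z : c2 ∈ Subgroup.center T := by rw [hc2]; exact hkm _ _
  have hc1sq : c1 * c1 = 1 := h.zexp _ hc1Z
  have hc2sq : c2 * c2 = 1 := h.zexp _ hc2Z
  have hz0sq : z0 * z0 = 1 := h.zexp _ hz0Z
  have hφkm : ∀ s t : T, km (φ s) (φ t) = km s t := by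
    intro s t
    have e : km (φ s) (φ t) = φ (km s t) := by
      unfold km; simp only [map_mul, map_inv]
    rw [e]
    exact hfix _ (hkm s t)
  have hsym : ∀ s t : T, km t s = km s t := by
    intro s t
    rw [km_symm s t]
    have := h.zexp _ (hkm s t)
    exact inv_eq_of_mul_eq_one_left this
  have hφsq : ∀ s : T, φ s * φ s = s * s := by
    intro s
    rw [← map_mul]
    exact hfix _ (hsq s)
  have s1 : x1 * x1 = z0 := by rw [hx1, hφsq, hz0]
  have s2 : x2 * x2 = z0 := by rw [hx2, hφsq, s1]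
  have s3 : x3 * x3 = z0 := by rw [hx3, hφsq, s2]
  have k12 : km x1 x2 = c1 := by
    rw [hx2]; nth_rewrite 1 [hx1]; rw [hφkm, hc1]
  have k23 : km x2 x3 = c1 := by
    rw [hx3]; nth_rewrite 1 [hx2]; rw [hφkm, k12]
  have k13 : km x1 x3 = c2 := by
    rw [hx3]; nth_rewrite 1 [hx1]; rw [hφkm, hc2]
  have k30 : km x3 a = c2 := by
    have e5 : a = φ (φ (φ x2)) := by
      rw [hx2, hx1]; exact (h.pow a).symm
    have e6 : x3 = φ (φ (φ a)) := by rw [hx3, hx2, hx1]
    rw [e6]; nth_rewrite 2 [e5]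
    rw [hφkm, hφkm, hφkm, hc2]
  have r6' : φ x3 = a * x1 * x2 * x3 := by
    rw [hx3, hx2, hx1]; exact r6
  have s4 : φ x3 * φ x3 = z0 := by rw [hφsq, s3]
  -- squares of the two halves
  have hu : (a * x1) * (a * x1) = c1 := by
    rw [sq_mul' (hkm _ _), hsym, ← hc1, ← hz0, s1, hz0sq, mul_one]
  have hv : (x2 * x3) * (x2 * x3) = c1 := by
    rw [sq_mul' (hkm _ _), hsym, k23, s2, s3, hz0sq, mul_one]
  have hvu : km (x2 * x3) (a * x1) = c1 * c2 := by
    rw [km_mul_right' (hkm _ _), km_mul_left' (hkm _ _), km_mul_left' (hkm _ _),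
      k30, hsym a x2, ← hc2, hsym x1 x3, k13, hsym x1 x2, k12]
    have hc1c := Subgroup.mem_center_iff.1 hc1Z
    calc c2 * c1 * (c2 * c2) = c2 * c1 := by rw [hc2sq, mul_one]
      _ = c1 * c2 := (hc1c c2)
  have hz0eq : z0 = c1 * c2 := by
    have e : φ x3 * φ x3 = (a * x1 * (x2 * x3)) * (a * x1 * (x2 * x3)) := by
      rw [r6']; group
    rw [← s4, e, sq_mul' (hkm _ _), hvu, hu, hv, hc1sq, mul_one]
  have r5 : km a (φ (φ a)) = a * a * km a (φ a) := by
    rw [← hx1, ← hx2, ← hc2, ← hc1, ← hz0, hz0eq]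
    have hc1c := Subgroup.mem_center_iff.1 hc1Z
    calc c2 = c2 * (c1 * c1) := by rw [hc1sq, mul_one]
      _ = (c2 * c1) * c1 := by group
      _ = c1 * c2 * c1 := by rw [hc1c c2]
  exact ⟨a, hsq a, hkm _ _, r5, r6, h.closure_eq_top a ha⟩

end q64

end Cfsg.Agent.Helper50
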