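import Mathlib
import Cfsg.Agent.Helper50.G320b
import Cfsg.Agent.Helper50.A6a

/-!
# Groups of order 320 with derived subgroup of order 64 whose centre is a four-group

* `rel320_of_q64`: a group `X` of order 320 with a normal subgroup `T` and an element `y` of
  order five acting on `T` as in `Q64` is generated by two elements satisfying `Rel320`.
* `q64_of_hyp`: the hypotheses `|G| = 320`, `|G'| = 64`, `Z(G')` a four-group give `Q64` for the
  action of any element of order five on `G'`.
* `unique_of_q64`: two groups as in `rel320_of_q64` are isomorphic.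
-/

set_option autoImplicit false
set_option linter.unusedSectionVars false
set_option linter.unusedVariables false

open scoped commutatorElement

namespace Cfsg.Agent.Helper50

theorem top_of_le_of_notMem {X : Type*} [Group X] [Finite X] (T H : Subgroup X)
    (hX : Nat.card X = 320) (hT : Nat.card T = 64) (hTH : T ≤ H) {y : X} (hy : y ∈ H)
    (hyT : y ∉ T) : H = ⊤ := by
  obtain ⟨k, hk⟩ := Subgroup.card_dvd_of_le hTH
  have h2 : Nat.card H ∣ 320 := by rw [← hX]; exact Subgroup.card_subgroup_dvd_card H
  rw [hk, hT] at h2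
  have h3 : k ∣ 5 := by
    have : (64 : ℕ) * k ∣ 64 * 5 := by norm_num at h2 ⊢; exact h2
    exact (Nat.mul_dvd_mul_iff_left (by norm_num)).1 this
  rcases (Nat.dvd_prime Nat.prime_five).1 h3 with rfl | rfl
  · exfalso
    apply hyT
    have : T = H := Subgroup.eq_of_le_of_card_ge hTH (by rw [hk, mul_one])
    rw [this]; exact hy
  · apply (Subgroup.card_eq_iff_eq_top H).1
    rw [hk, hT, hX]

/-- From the action on a normal subgroup to generators and relations. -/
theorem rel320_of_q64 {X : Type*} [Group X] [Finite X] (T : Subgroup X) [T.Normal] (y : X)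
    (hX : Nat.card X = 320) (hy : y ^ 5 = 1) (hyT : y ∉ T)
    (h : Q64 (MulAut.conjNormal y : MulAut T)) :
    ∃ a : X, Rel320 a y ∧ Subgroup.closure ({a, y} : Set X) = ⊤ := by
  obtain ⟨a, ha2, hc1, hr5, hr6, hgen⟩ := h.exists_gen
  have hfix := h.fixc
  have hcom : ∀ c : T, (MulAut.conjNormal y : MulAut T) c = c → (c : X) * y = y * (c : X) := by
    intro c hc
    have h1 : y * (c : X) * y⁻¹ = c := congrArg Subtype.val hc
    calc (c : X) * y = (y * (c : X) * y⁻¹) * y := by rw [h1]
      _ = y * (c : X) := by group
  refine ⟨(a : X), ⟨hy, ?_, ?_, ?_, ?_, ?_, ?_, ?_⟩, ?_⟩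
  · exact hcom _ (hfix _ ha2)
  · exact (congrArg Subtype.val (Subgroup.mem_center_iff.1 hc1 a)).symm
  · exact hcom _ (hfix _ hc1)
  · exact congrArg Subtype.val (h.zexp _ ha2)
  · exact congrArg Subtype.val (h.zexp _ hc1)
  · exact congrArg Subtype.val hr5
  · exact congrArg Subtype.val hr6
  · obtain ⟨H, hH⟩ : ∃ H : Subgroup X, H = Subgroup.closure ({(a : X), y} : Set X) := ⟨_, rfl⟩
    rw [← hH]
    have haH : (a : X) ∈ H := by rw [hH]; exact Subgroup.subset_closure (by simp)
    have hyH : y ∈ H := by rw [hH]; exact Subgroup.subset_closure (by simp)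
    have hcjH : ∀ u : X, u ∈ H → cj y u ∈ H := fun u hu =>
      H.mul_mem (H.mul_mem hyH hu) (H.inv_mem hyH)
    have hTH : T ≤ H := by
      intro t ht
      have h1 : (⟨t, ht⟩ : T) ∈ Subgroup.closure
          ({a, (MulAut.conjNormal y : MulAut T) a,
            (MulAut.conjNormal y : MulAut T) ((MulAut.conjNormal y : MulAut T) a),
            (MulAut.conjNormal y : MulAut T) ((MulAut.conjNormal y : MulAut T)
              ((MulAut.conjNormal y : MulAut T) a))} : Set T) := by
        rw [hgen]; trivial
      have h2 : Subgroup.closure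
          ({a, (MulAut.conjNormal y : MulAut T) a,
            (MulAut.conjNormal y : MulAut T) ((MulAut.conjNormal y : MulAut T) a),
            (MulAut.conjNormal y : MulAut T) ((MulAut.conjNormal y : MulAut T)
              ((MulAut.conjNormal y : MulAut T) a))} : Set T) ≤ H.comap T.subtype := by
        rw [Subgroup.closure_le]
        intro x hx
        rw [SetLike.mem_coe, Subgroup.mem_comap]
        rcases hx with rfl | rfl | rfl | hx
        · exact haH
        · exact hcjH _ haH
        · exact hcjH _ (hcjH _ haH)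
        · rw [Set.mem_singleton_iff] at hx
          subst hx
          exact hcjH _ (hcjH _ (hcjH _ haH))
      exact h2 h1
    exact top_of_le_of_notMem T H hX h.card hTH hyH hyT

/-- Two groups of order 320 with a `Q64` action are isomorphic. -/
theorem unique_of_q64 {X₁ X₂ : Type*} [Group X₁] [Group X₂] [Finite X₁] [Finite X₂]
    (T₁ : Subgroup X₁) [T₁.Normal] (y₁ : X₁) (T₂ : Subgroup X₂) [T₂.Normal] (y₂ : X₂)
    (h₁ : Nat.card X₁ = 320) (h₂ : Nat.card X₂ = 320)
    (hy₁ : y₁ ^ 5 = 1) (hy₂ : y₂ ^ 5 = 1) (hn₁ : y₁ ∉ T₁) (hn₂ : y₂ ∉ T₂)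
    (q₁ : Q64 (MulAut.conjNormal y₁ : MulAut T₁)) (q₂ : Q64 (MulAut.conjNormal y₂ : MulAut T₂)) :
    Nonempty (X₁ ≃* X₂) := by
  obtain ⟨a₁, R₁, g₁⟩ := rel320_of_q64 T₁ y₁ h₁ hy₁ hn₁ q₁
  obtain ⟨a₂, R₂, g₂⟩ := rel320_of_q64 T₂ y₂ h₂ hy₂ hn₂ q₂
  exact rel320_unique h₁ h₂ R₁ R₂ g₁ g₂

/-- The abstract hypotheses give a `Q64` action. -/
theorem q64_of_hyp {G : Type*} [Group G] [Finite G] (hG : Nat.card G = 320)
    (hD : Nat.card (commutator G) = 64) (hZ : IsKleinFour (Subgroup.center (commutator G)))
    (y : G) (hy : orderOf y = 5) :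
    y ∉ commutator G ∧ Q64 (MulAut.conjNormal y : MulAut (commutator G)) := by
  classical
  have hy5 : y ^ 5 = 1 := by rw [← hy]; exact pow_orderOf_eq_one y
  have hyT : y ∉ commutator G := by
    intro hmem
    have h1 : orderOf (⟨y, hmem⟩ : commutator G) = 5 := by
      rw [← hy]; exact Subgroup.orderOf_mk _ hmem
    have h2 := orderOf_dvd_natCard (⟨y, hmem⟩ : commutator G)
    rw [h1, hD] at h2
    omega
  refine ⟨hyT, ?_⟩
  obtain ⟨φ, hφ⟩ : ∃ φ : MulAut (commutator G), φ = MulAut.conjNormal y := ⟨_, rfl⟩
  rw [← hφ]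
  have hφv : ∀ t : commutator G, ((φ t : commutator G) : G) = cj y (t : G) := by
    intro t; rw [hφ]; rfl
  have hpow : ∀ t, φ (φ (φ (φ (φ t)))) = t := by
    intro t
    apply Subtype.ext
    rw [hφv, hφv, hφv, hφv, hφv]
    exact cj_five hy5 _
  have hzexp : ∀ z ∈ Subgroup.center (commutator G), z * z = 1 := by
    intro z hz
    have h1 : (⟨z, hz⟩ : Subgroup.center (commutator G)) ^ 2 = 1 := by
      rw [← hZ.exponent_two]; exact Monoid.pow_exponent_eq_one _
    have h2 := congrArg Subtype.val h1
    rw [pow_two] at h2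
    exact h2
  have hfixc : ∀ z ∈ Subgroup.center (commutator G), φ z = z :=
    fix_of_card_four φ _ hZ.card_four (fun z hz => mulAut_mem_center φ hz) hpow
  -- `G = G' ⟨y⟩`
  have htop : commutator G ⊔ Subgroup.zpowers y = ⊤ :=
    top_of_le_of_notMem (commutator G) _ hG hD le_sup_left
      ((le_sup_right : Subgroup.zpowers y ≤ commutator G ⊔ Subgroup.zpowers y)
        (Subgroup.mem_zpowers y)) hyT
  have hcen : ∀ w : G, (∀ t ∈ commutator G, w * t = t * w) → w * y = y * w →
      w ∈ Subgroup.center G := by
    intro w h1 h2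
    have hle : commutator G ⊔ Subgroup.zpowers y ≤ Subgroup.centralizer ({w} : Set G) := by
      apply sup_le
      · intro t ht
        rw [Subgroup.mem_centralizer_iff]
        intro k hk
        rw [Set.mem_singleton_iff] at hk
        subst hk
        exact h1 t ht
      · rw [Subgroup.zpowers_le, Subgroup.mem_centralizer_iff]
        intro k hk
        rw [Set.mem_singleton_iff] at hk
        subst hk
        exact h2
    rw [Subgroup.mem_center_iff]
    intro g
    have hg : g ∈ Subgroup.centralizer ({w} : Set G) := hle (by rw [htop]; trivial)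
    exact ((Subgroup.mem_centralizer_iff.1 hg) w rfl).symm
  have hcomy : ∀ c : commutator G, φ c = c → (c : G) * y = y * (c : G) := by
    intro c hc
    have h1 : y * (c : G) * y⁻¹ = c := by
      have := congrArg Subtype.val hc
      rw [hφv] at this
      exact this
    calc (c : G) * y = (y * (c : G) * y⁻¹) * y := by rw [h1]
      _ = y * (c : G) := by group
  have hfinT : Finite (commutator G) := inferInstance
  have hpT : IsPGroup 2 (commutator G) := IsPGroup.of_card (n := 6) (by rw [hD]; norm_num)
  have hntT : Nontrivial (commutator G) :=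
    Finite.one_lt_card_iff_nontrivial.1 (by rw [hD]; norm_num)
  have : Fact (Nat.Prime 2) := ⟨Nat.prime_two⟩
  have hnilT : Group.IsNilpotent (commutator G) := hpT.isNilpotent
  have hderT : commutator (commutator G) ≠ ⊤ :=
    (Group.IsSolvable.commutator_lt_top_of_nontrivial (commutator G)).ne
  refine ⟨hD, hZ.card_four, hzexp, hpow, ?_, ?_⟩
  · -- fixed points are central
    have : Fact (Nat.Prime 5) := ⟨by norm_num⟩
    have key := card_modEq_card_fixed (α := commutator G) (fun t => φ t) 5 (fun t => hpow t)
    have hC : Nat.card (fixSub φ) = Nat.card {t : commutator G // φ t = t} := rfl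
    rw [← hC, hD] at key
    have hdvd : Nat.card (fixSub φ) ∣ 64 := by
      rw [← hD]; exact Subgroup.card_subgroup_dvd_card _
    have hle : Subgroup.center (commutator G) ≤ fixSub φ := fun z hz => hfixc z hz
    have h46 : Nat.card (fixSub φ) = 4 ∨ Nat.card (fixSub φ) = 64 := by
      have hle64 := Nat.le_of_dvd (by norm_num) hdvd
      have hmod : Nat.card (fixSub φ) % 5 = 4 := by
        have := key.symm
        unfold Nat.ModEq at this
        omega
      generalize Nat.card (fixSub φ) = n at *
      interval_cases n <;> first | omega | simp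
    rcases h46 with h4 | h64
    · have heq : Subgroup.center (commutator G) = fixSub φ :=
        Subgroup.eq_of_le_of_card_ge hle (by rw [h4, hZ.card_four])
      intro t ht
      rw [heq]
      exact ht
    · exfalso
      have hall : ∀ t : commutator G, φ t = t := by
        have htop' : fixSub φ = ⊤ :=
          (Subgroup.card_eq_iff_eq_top _).1 (by rw [h64, hD])
        intro t
        have : t ∈ fixSub φ := by rw [htop']; trivial
        exact this
      have hyc : y ∈ Subgroup.center G := by
        apply hcen y _ rfl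
        intro t ht
        exact (hcomy ⟨t, ht⟩ (hall _)).symm
      have hzp : ∀ p ∈ Subgroup.zpowers y, p ∈ Subgroup.center G := by
        intro p hp
        exact (Subgroup.zpowers_le.2 hyc) hp
      have hle2 : commutator G ≤ ⁅commutator G, commutator G⁆ := by
        nth_rewrite 1 [commutator_def]
        rw [Subgroup.commutator_le]
        intro g₁ _ g₂ _
        have hg₁ : g₁ ∈ ((commutator G ⊔ Subgroup.zpowers y : Subgroup G) : Set G) := by
          rw [htop]; trivial
        have hg₂ : g₂ ∈ ((commutator G ⊔ Subgroup.zpowers y : Subgroup G) : Set G) := by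
          rw [htop]; trivial
        rw [Subgroup.normal_mul] at hg₁ hg₂
        obtain ⟨t₁, ht₁, p₁, hp₁, rfl⟩ := hg₁
        obtain ⟨t₂, ht₂, p₂, hp₂, rfl⟩ := hg₂
        have e : ⁅t₁ * p₁, t₂ * p₂⁆ = ⁅t₁, t₂⁆ := by
          have e1 : ⁅t₁ * p₁, t₂ * p₂⁆ = km (t₁ * p₁) (t₂ * p₂) := rfl
          have e2 : ⁅t₁, t₂⁆ = km t₁ t₂ := rfl
          rw [e1, e2, km_central_left (hzp p₁ hp₁), km_central_right (hzp p₂ hp₂)]
        rw [e]
        exact Subgroup.commutator_mem_commutator ht₁ ht₂
      apply hderT
      rw [eq_top_iff]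
      intro t _
      have h1 : (t : G) ∈ ⁅commutator G, commutator G⁆ := hle2 t.2
      rw [← Subgroup.map_subtype_commutator] at h1
      obtain ⟨s, hs, hst⟩ := h1
      have : s = t := Subtype.ext hst
      rw [← this]
      exact hs
  · -- the centre lies in the derived subgroup (transfer)
    intro z hz
    have hzc : (z : G) ∈ Subgroup.center G := by
      apply hcen
      · intro t ht
        have := Subgroup.mem_center_iff.1 hz ⟨t, ht⟩
        exact (congrArg Subtype.val this).symm
      · exact hcomy z (hfixc z hz)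
    have hzc' := Subgroup.mem_center_iff.1 hzc
    have hidx : (commutator G).index = 5 := by
      have := Subgroup.card_mul_index (commutator G)
      rw [hD, hG] at this
      omega
    have key : ∀ (k : ℕ) (g₀ : G), g₀⁻¹ * (z : G) ^ k * g₀ ∈ commutator G →
        g₀⁻¹ * (z : G) ^ k * g₀ = (z : G) ^ k := by
      intro k g₀ _
      have hk : (z : G) ^ k ∈ Subgroup.center G := Subgroup.pow_mem _ hzc k
      rw [mul_assoc, ← Subgroup.mem_center_iff.1 hk g₀, inv_mul_cancel_left]
    have htr := MonoidHom.transfer_eq_pow (Abelianization.of : commutator G →* _) (z : G) key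
    have hker : (z : G) ∈ (MonoidHom.transfer
        (Abelianization.of : commutator G →* Abelianization (commutator G))).ker :=
      Abelianization.commutator_subset_ker _ z.2
    rw [MonoidHom.mem_ker, htr] at hker
    have hz5 : (⟨(z : G) ^ (commutator G).index,
        MonoidHom.transfer_eq_pow_aux (z : G) key⟩ : commutator G) = z := by
      apply Subtype.ext
      show (z : G) ^ (commutator G).index = z
      rw [hidx]
      have hz2 : (z : G) * (z : G) = 1 := congrArg Subtype.val (hzexp z hz)
      calc (z : G) ^ 5 = ((z : G) * (z : G)) * ((z : G) * (z : G)) * (z : G) := by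
            simp only [pow_succ, pow_zero, one_mul, mul_assoc]
        _ = z := by rw [hz2, one_mul, one_mul]
    rw [hz5] at hker
    have hk2 : z ∈ (Abelianization.of : commutator G →* Abelianization (commutator G)).ker :=
      MonoidHom.mem_ker.2 hker
    rw [Abelianization.ker_of] at hk2
    exact hk2

end Cfsg.Agent.Helper50
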