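import Mathlib.GroupTheory.Sylow
import Mathlib.GroupTheory.Nilpotent
import Mathlib.GroupTheory.Frattini
import Mathlib.GroupTheory.SpecificGroups.Cyclic
import Mathlib.GroupTheory.QuotientGroup.Basic
import Cfsg.Agent.Helper50.Basic
import Cfsg.Agent.Helper24.Coprime
import Cfsg.Agent.Helper35.Coprime
import Cfsg.Agent.Helper86.PGroupAux
import Cfsg.Agent.S3803

/-!
# helper50: `p'`-elements normalizing all subgroups of a fixed order of a `p`-group

* `inv_mul_conj_mem_of_relIndex_dvd_prime`: an element of order prime to `p - 1` normalizing `F` and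
  `M ⊴ F` with `|F : M|` dividing `p` acts trivially on `F / M`;
* `mem_centralizer_of_normalizer_cyclic`: an element of order prime to `p (p - 1)` normalizing a cyclic
  `p`-group centralizes it;
* `centralizes_of_max_invariant_prime`: ... normalizing `F` of order `p^(k+1)` and all its subgroups of
  order `p^k` centralizes `F`;
* `centralizes_of_normalizes_card`: (all `p`) an element of order prime to `p (p - 1)` normalizing a
  `p`-group `Q` and all its subgroups of order `|D|` (`1 < |D| < |Q|`; and of order 4 if `|D| = 2`)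
  centralizes `Q`;
* `mem_frattini_of_forall_mem`: an element of `R ≤ P` (`|R| = p^(k+1)`) lying in all subgroups of order
  `p^k` of `R` lies in `Φ(P)`;
* `le_normalizer_of_hSub`: a subgroup `E` of a `p`-group `P` with `E^g ∩ N(E) ≤ E` for all `g` is normal
  in `P`.
-/

set_option autoImplicit false

namespace Cfsg.Agent.Helper50

open Subgroup

universe u

section

variable {X : Type u} [Group X] [Finite X]

/-- An element `a` of order prime to `p - 1` that normalizes `F` and `M`, where `M` is normalized by `F` and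
`|F : F ∩ M|` divides the prime `p`, acts trivially on `F / (F ∩ M)`. -/
theorem inv_mul_conj_mem_of_relIndex_dvd_prime {p : ℕ} [hp : Fact p.Prime] {F M : Subgroup X}
    (hMn : F ≤ normalizer (M : Set X)) (hidx : M.relIndex F ∣ p) {a : X}
    (haF : a ∈ normalizer (F : Set X)) (haM : a ∈ normalizer (M : Set X))
    (hcop : (orderOf a).Coprime (p - 1)) :
    ∀ x ∈ F, x⁻¹ * (a * x * a⁻¹) ∈ M := by
  classical
  have hM'n : (M.subgroupOf F).Normal := by
    refine ⟨fun n hn g => ?_⟩
    rw [mem_subgroupOf] at hn ⊢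
    exact (mem_normalizer_iff.mp (hMn g.2) n).mp hn
  let e : MulAut F := F.normalizerMonoidHom ⟨a, haF⟩
  have he : ∀ y : F, ((e y : F) : X) = a * y * a⁻¹ := fun y => rfl
  have hmap : (M.subgroupOf F).map (e : F ≃* F) = M.subgroupOf F := by
    ext y
    rw [mem_map, mem_subgroupOf]
    constructor
    · rintro ⟨z, hz, rfl⟩
      rw [mem_subgroupOf] at hz
      show ((e z : F) : X) ∈ M
      rw [he]
      exact (mem_normalizer_iff.mp haM z).mp hz
    · intro hy
      refine ⟨e.symm y, ?_, e.apply_symm_apply y⟩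
      rw [mem_subgroupOf]
      have h1 : ((e (e.symm y) : F) : X) = a * (e.symm y : F) * a⁻¹ := he _
      rw [e.apply_symm_apply] at h1
      have h2 : ((e.symm y : F) : X) = a⁻¹ * y * a := by rw [h1]; group
      rw [h2]
      have := (mem_normalizer_iff.mp (inv_mem haM) y).mp hy
      simpa using this
  let ψ : MulAut (F ⧸ M.subgroupOf F) := QuotientGroup.congr (M.subgroupOf F) (M.subgroupOf F) e hmap
  have hψ : ∀ y : F, ψ (QuotientGroup.mk y) = QuotientGroup.mk (e y) := fun y => rfl
  have hψn : ∀ (n : ℕ) (y : F), (ψ ^ n) (QuotientGroup.mk y) = QuotientGroup.mk ((e ^ n) y) := by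
    intro n
    induction n with
    | zero => intro y; simp
    | succ n ih =>
      intro y
      rw [pow_succ', pow_succ', MulAut.mul_apply, ih, hψ, MulAut.mul_apply]
  have hcardQ : Nat.card (F ⧸ M.subgroupOf F) ∣ p := hidx
  have hcycQ : IsCyclic (F ⧸ M.subgroupOf F) := by
    rcases (Nat.dvd_prime hp.out).mp hcardQ with h1 | h1
    · have : Subsingleton (F ⧸ M.subgroupOf F) := (Nat.card_eq_one_iff_unique.mp h1).1
      exact isCyclic_of_subsingleton
    · exact isCyclic_of_prime_card h1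
  have h1 : orderOf ψ ∣ p - 1 := by
    have h := orderOf_dvd_natCard ψ
    rw [IsCyclic.card_mulAut] at h
    rcases (Nat.dvd_prime hp.out).mp hcardQ with h1 | h1
    · rw [h1, Nat.totient_one] at h
      exact h.trans (one_dvd _)
    · rwa [h1, Nat.totient_prime hp.out] at h
  have h2 : orderOf ψ ∣ orderOf a := by
    apply orderOf_dvd_of_pow_eq_one
    have he1 : e ^ orderOf a = 1 := by
      show (F.normalizerMonoidHom ⟨a, haF⟩) ^ orderOf a = 1
      rw [← map_pow]
      have h0 : (⟨a, haF⟩ : normalizer (F : Set X)) ^ orderOf a = 1 :=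
        Subtype.ext (pow_orderOf_eq_one a)
      rw [h0, map_one]
    ext q
    induction q using QuotientGroup.induction_on with
    | H y => rw [hψn, he1]; rfl
  have h3 : ψ = 1 := orderOf_eq_one_iff.mp (Nat.eq_one_of_dvd_coprimes hcop h2 h1)
  intro x hx
  have h4 : ψ (QuotientGroup.mk (⟨x, hx⟩ : F)) = QuotientGroup.mk (⟨x, hx⟩ : F) := by rw [h3]; rfl
  rw [hψ] at h4
  have h5 := QuotientGroup.eq.mp h4.symm
  rw [mem_subgroupOf] at h5
  exact h5

/-- An element of order prime to `p (p - 1)` normalizing a cyclic `p`-group centralizes it. -/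
theorem mem_centralizer_of_normalizer_cyclic {p : ℕ} [hp : Fact p.Prime] (C : Subgroup X)
    (hC : IsPGroup p C) (hcyc : IsCyclic C) {a : X} (ha : a ∈ normalizer (C : Set X))
    (hcop1 : (orderOf a).Coprime p) (hcop2 : (orderOf a).Coprime (p - 1)) :
    a ∈ centralizer (C : Set X) := by
  have h1 : orderOf (C.normalizerMonoidHom ⟨a, ha⟩) ∣ orderOf a := by
    apply orderOf_dvd_of_pow_eq_one
    rw [← map_pow]
    have h0 : (⟨a, ha⟩ : normalizer (C : Set X)) ^ orderOf a = 1 :=
      Subtype.ext (pow_orderOf_eq_one a)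
    rw [h0, map_one]
  have h2 : orderOf (C.normalizerMonoidHom ⟨a, ha⟩) ∣ (Nat.card C).totient := by
    rw [← IsCyclic.card_mulAut]
    exact orderOf_dvd_natCard _
  obtain ⟨k, hk⟩ := IsPGroup.iff_card.mp hC
  have h3 : (orderOf a).Coprime (Nat.card C).totient := by
    rw [hk]
    rcases Nat.eq_zero_or_pos k with h0 | h0
    · rw [h0, pow_zero, Nat.totient_one]; exact Nat.coprime_one_right _
    · rw [Nat.totient_prime_pow hp.out h0]
      exact Nat.Coprime.mul_right (Nat.Coprime.pow_right _ hcop1) hcop2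
  have h4 : C.normalizerMonoidHom ⟨a, ha⟩ = 1 :=
    orderOf_eq_one_iff.mp (Nat.eq_one_of_dvd_coprimes h3 h1 h2)
  have h5 : (⟨a, ha⟩ : normalizer (C : Set X)) ∈ C.normalizerMonoidHom.ker := h4
  rw [normalizerMonoidHom_ker] at h5
  exact h5

/-- A subgroup `M` of index `p` in a `p`-group `F` is normal in `F`. -/
theorem normal_data_of_card {p : ℕ} [hp : Fact p.Prime] {F M : Subgroup X} (hMF : M ≤ F) (k : ℕ)
    (hF : Nat.card F = p ^ (k + 1)) (hM : Nat.card M = p ^ k) :
    F ≤ normalizer (M : Set X) ∧ M.relIndex F = p := by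
  have hM' : Nat.card (M.subgroupOf F) = p ^ k := by
    rw [Nat.card_congr (subgroupOfEquivOfLe hMF).toEquiv, hM]
  have hidx : (M.subgroupOf F).index = p := by
    have h1 := (M.subgroupOf F).card_mul_index
    rw [hM', hF, pow_succ] at h1
    exact Nat.eq_of_mul_eq_mul_left (pow_pos hp.out.pos k) h1
  have hn : (M.subgroupOf F).Normal := by
    apply normal_of_index_eq_minFac_card
    rw [hidx, hF, Nat.Prime.pow_minFac hp.out (Nat.succ_ne_zero k)]
  refine ⟨fun f hf => ?_, hidx⟩
  apply mem_normalizer_of_conj_mem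
  intro m hm
  have h1 : (⟨m, hMF hm⟩ : F) ∈ M.subgroupOf F := mem_subgroupOf.mpr hm
  have h2 := hn.conj_mem _ h1 ⟨f, hf⟩
  rw [mem_subgroupOf] at h2
  exact h2

/-- An element of order prime to `p (p - 1)` normalizing a group `F` of order `p^(k+1)` and all its
subgroups of order `p^k` centralizes `F`. -/
theorem centralizes_of_max_invariant_prime {p : ℕ} [hp : Fact p.Prime] (F : Subgroup X) (a : X)
    (k : ℕ) (hF : Nat.card F = p ^ (k + 1)) (hcop1 : (orderOf a).Coprime p)
    (hcop2 : (orderOf a).Coprime (p - 1)) (haF : a ∈ normalizer (F : Set X))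
    (hM : ∀ M : Subgroup X, M ≤ F → Nat.card M = p ^ k → a ∈ normalizer (M : Set X)) :
    F ≤ centralizer (zpowers a : Set X) := by
  by_contra hnot
  have hCF : F ⊓ centralizer (zpowers a : Set X) ≤ F := inf_le_left
  have hCne : F ⊓ centralizer (zpowers a : Set X) ≠ F := by
    intro h
    exact hnot (h ▸ inf_le_right)
  have hCdvd : Nat.card (F ⊓ centralizer (zpowers a : Set X) : Subgroup X) ∣ p ^ (k + 1) := by
    rw [← hF]; exact card_dvd_of_le hCF
  obtain ⟨j, hj, hCj⟩ := (Nat.dvd_prime_pow hp.out).mp hCdvd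
  have hjk : j ≤ k := by
    by_contra hjk
    have : j = k + 1 := by omega
    rw [this] at hCj
    exact hCne (eq_of_le_of_card_ge hCF (by rw [hCj, hF]))
  obtain ⟨M, hMcard, hCM, hMF⟩ := Cfsg.Agent.S3803.exists_between p F _ hCF hCj hjk
    (by rw [hF]; exact pow_dvd_pow p (Nat.le_succ k))
  obtain ⟨x, hxF, hxM⟩ : ∃ x ∈ F, x ∉ M := by
    by_contra hcon
    push Not at hcon
    have h1 : Nat.card F ≤ Nat.card M := card_le_of_le hcon
    rw [hF, hMcard] at h1
    have : p ^ k < p ^ (k + 1) := Nat.pow_lt_pow_right hp.out.one_lt (Nat.lt_succ_self k)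
    omega
  obtain ⟨hMnF, hidx⟩ := normal_data_of_card hMF k hF hMcard
  have hAM : zpowers a ≤ normalizer (M : Set X) := by
    rw [zpowers_le]; exact hM M hMF hMcard
  have hAF : zpowers a ≤ normalizer (F : Set X) := by
    rw [zpowers_le]; exact haF
  have hx : ∀ b ∈ zpowers a, x⁻¹ * b * x * b⁻¹ ∈ M := by
    intro b hb
    have hbcop : (orderOf b).Coprime (p - 1) :=
      Nat.Coprime.coprime_dvd_left (orderOf_dvd_of_mem_zpowers hb) hcop2
    have h1 := inv_mul_conj_mem_of_relIndex_dvd_prime hMnF (hidx ▸ dvd_rfl) (hAF hb) (hAM hb)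
      hbcop x hxF
    have h2 : x⁻¹ * b * x * b⁻¹ = x⁻¹ * (b * x * b⁻¹) := by group
    rw [h2]
    exact h1
  have hcop : (Nat.card (zpowers a)).Coprime (Nat.card M) := by
    rw [hMcard, Nat.card_zpowers]; exact Nat.Coprime.pow_right k hcop1
  have hMp : IsPGroup p M := IsPGroup.of_card hMcard
  have hMnil : Group.IsNilpotent M := hMp.isNilpotent
  have hsolv : Group.IsSolvable (zpowers a) ∨ Group.IsSolvable M := Or.inr inferInstance
  obtain ⟨c, hc, hcM⟩ := Cfsg.Agent.Helper35.exists_fixed_in_coset hAM hcop hsolv x hx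
  have hcF : c ∈ F := by
    have : c = x * (x⁻¹ * c) := by group
    rw [this]
    exact F.mul_mem hxF (hMF hcM)
  have hcM' : c ∈ M := hCM ⟨hcF, hc⟩
  apply hxM
  have : x = c * (x⁻¹ * c)⁻¹ := by group
  rw [this]
  exact M.mul_mem hcM' (M.inv_mem hcM)

/-- For odd `p`: an element of order prime to `p (p - 1)` normalizing a `p`-group `Q` and all its
subgroups of order `p^k` (`1 ≤ k`, `p^k < |Q|`) centralizes `Q`. -/
theorem centralizes_of_normalizes_card_odd {p : ℕ} [hp : Fact p.Prime] (hp2 : p ≠ 2)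
    (Q : Subgroup X) (a : X) (k : ℕ) (hQ : IsPGroup p Q) (hcop1 : (orderOf a).Coprime p)
    (hcop2 : (orderOf a).Coprime (p - 1)) (haQ : a ∈ normalizer (Q : Set X)) (hk1 : 1 ≤ k)
    (hkQ : p ^ k < Nat.card Q)
    (hinv : ∀ E : Subgroup X, E ≤ Q → Nat.card E = p ^ k → a ∈ normalizer (E : Set X)) :
    Q ≤ centralizer (zpowers a : Set X) := by
  obtain ⟨n, hn⟩ := IsPGroup.iff_card.mp hQ
  have hkn : k < n := by
    rw [hn] at hkQ
    exact (Nat.pow_lt_pow_iff_right hp.out.one_lt).mp hkQ
  have hAcop : (Nat.card (zpowers a)).Coprime p := by rw [Nat.card_zpowers]; exact hcop1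
  have hAQ : zpowers a ≤ normalizer (Q : Set X) := by rw [zpowers_le]; exact haQ
  apply Cfsg.Agent.Helper24.le_centralizer_of_odd_of_centralizes_omega hp2 (zpowers a) hAcop
    (Nat.card Q) Q le_rfl hQ hAQ
  intro x hx hxp b hb
  have hYQ : zpowers x ≤ Q := by rw [zpowers_le]; exact hx
  have hYdvd : orderOf x ∣ p ^ 1 := orderOf_dvd_of_pow_eq_one (by rw [pow_one]; exact hxp)
  obtain ⟨j, hj1, hj⟩ := (Nat.dvd_prime_pow hp.out).mp hYdvd
  have hYcard : Nat.card (zpowers x) = p ^ j := by rw [Nat.card_zpowers, hj]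
  obtain ⟨M, hMcard, hYM, hMQ⟩ := Cfsg.Agent.S3803.exists_between p Q _ hYQ hYcard
    (le_trans hj1 hk1) (by rw [hn]; exact pow_dvd_pow p hkn.le)
  obtain ⟨E, hEcard, hME, hEQ⟩ : ∃ E : Subgroup X, Nat.card E = p ^ (k + 1) ∧ M ≤ E ∧ E ≤ Q :=
    Cfsg.Agent.S3803.exists_between p Q _ hMQ hMcard
      (Nat.le_succ k) (by rw [hn]; exact pow_dvd_pow p hkn)
  have haM : a ∈ normalizer (M : Set X) := hinv M hMQ hMcard
  have hAM : zpowers a ≤ normalizer (M : Set X) := by rw [zpowers_le]; exact haM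
  obtain ⟨y, hyE, hyM⟩ : ∃ y ∈ E, y ∉ M := by
    by_contra hcon
    push Not at hcon
    have h1 : Nat.card E ≤ Nat.card M := card_le_of_le hcon
    rw [hEcard, hMcard] at h1
    have : p ^ k < p ^ (k + 1) := Nat.pow_lt_pow_right hp.out.one_lt (Nat.lt_succ_self k)
    omega
  have hZE : zpowers y ≤ E := by rw [zpowers_le]; exact hyE
  have hZdvd : Nat.card (zpowers y) ∣ p ^ (k + 1) := by
    rw [← hEcard]; exact card_dvd_of_le hZE
  obtain ⟨i, hi, hZcard⟩ := (Nat.dvd_prime_pow hp.out).mp hZdvd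
  by_cases hik : i ≤ k
  · obtain ⟨M', hM'card, hZM', hM'E⟩ := Cfsg.Agent.S3803.exists_between p E _ hZE hZcard hik
      (by rw [hEcard]; exact pow_dvd_pow p (Nat.le_succ k))
    have hAM' : zpowers a ≤ normalizer (M' : Set X) := by
      rw [zpowers_le]; exact hinv M' (hM'E.trans hEQ) hM'card
    have hsupE : M ⊔ M' = E := by
      have hle : M ⊔ M' ≤ E := sup_le hME hM'E
      have hlt : M < M ⊔ M' := by
        refine lt_of_le_of_ne le_sup_left (fun h => hyM ?_)
        rw [h]
        exact mem_sup_right (hZM' (mem_zpowers y))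
      have h1 := Cfsg.Agent.Helper24.card_lt_card_of_lt hlt
      have hdvd : Nat.card (M ⊔ M' : Subgroup X) ∣ p ^ (k + 1) := by
        rw [← hEcard]; exact card_dvd_of_le hle
      obtain ⟨t, ht, htc⟩ := (Nat.dvd_prime_pow hp.out).mp hdvd
      rw [hMcard, htc] at h1
      have htk : k < t := (Nat.pow_lt_pow_iff_right hp.out.one_lt).mp h1
      have ht' : t = k + 1 := by omega
      exact eq_of_le_of_card_ge hle (by rw [hEcard, htc, ht'])
    have hAE : zpowers a ≤ normalizer (E : Set X) := by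
      rw [← hsupE]; exact Cfsg.Agent.S3803.le_normalizer_sup hAM hAM'
    have hEc := centralizes_of_max_invariant_prime E a k hEcard hcop1 hcop2
      (hAE (mem_zpowers a)) (fun M0 hM0E hM0 => hinv M0 (hM0E.trans hEQ) hM0)
    exact mem_centralizer_iff.mp (hEc (hME (hYM (mem_zpowers x)))) b hb
  · have hi' : i = k + 1 := by omega
    have hZeq : zpowers y = E :=
      eq_of_le_of_card_ge hZE (by rw [hEcard, hZcard, hi'])
    have hEcyc : IsCyclic ↥E := (Subgroup.isCyclic_iff_exists_zpowers_eq_top E).mpr ⟨y, hZeq⟩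
    have hMcyc : IsCyclic ↥M := isCyclic_of_le hME
    have h1 : a ∈ centralizer (M : Set X) :=
      mem_centralizer_of_normalizer_cyclic M (IsPGroup.of_card hMcard) hMcyc haM hcop1 hcop2
    have h2 : zpowers a ≤ centralizer (M : Set X) := by rw [zpowers_le]; exact h1
    exact (mem_centralizer_iff.mp (h2 hb) x (hYM (mem_zpowers x))).symm

/-- An element of order prime to `p (p - 1)` normalizing a `p`-group `Q` and all its subgroups of order
`|D|`, where `1 < |D| < |Q|` (and also all subgroups of order `4` when `|D| = 2`), centralizes `Q`. -/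
theorem centralizes_of_normalizes_card {p : ℕ} [hp : Fact p.Prime] (Q D : Subgroup X) (a : X)
    (hQ : IsPGroup p Q) (hcop1 : (orderOf a).Coprime p) (hcop2 : (orderOf a).Coprime (p - 1))
    (haQ : a ∈ normalizer (Q : Set X)) (hDQ : D ≤ Q) (hD1 : 1 < Nat.card D)
    (hD2 : Nat.card D < Nat.card Q)
    (hinv : ∀ E : Subgroup X, E ≤ Q → (Nat.card E = Nat.card D ∨ (Nat.card D = 2 ∧ Nat.card E = 4)) →
      a ∈ normalizer (E : Set X)) :
    Q ≤ centralizer (zpowers a : Set X) := by
  by_cases hp2 : p = 2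
  · subst hp2
    have hodd : Odd (Nat.card (zpowers a)) := by
      rw [Nat.card_zpowers]
      exact Nat.Coprime.odd_of_right hcop1
    have hAQ : zpowers a ≤ normalizer (Q : Set X) := by rw [zpowers_le]; exact haQ
    have h := Cfsg.Agent.S3803.result Q (zpowers a) D hQ hodd hAQ hDQ hD1 hD2
      (fun E hE hc => by rw [zpowers_le]; exact hinv E hE hc)
    exact le_centralizer_iff.mp h
  · obtain ⟨k, hk⟩ := IsPGroup.iff_card.mp (hQ.to_le hDQ)
    have hk1 : 1 ≤ k := by
      by_contra h
      have : k = 0 := by omega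
      rw [hk, this] at hD1
      simp at hD1
    exact centralizes_of_normalizes_card_odd hp2 Q a k hQ hcop1 hcop2 haQ hk1 (hk ▸ hD2)
      (fun E hE hc => hinv E hE (Or.inl (hc.trans hk.symm)))

/-- Let `R ≤ P` be `p`-groups with `|R| = p^(k+1)`. An element of `R` lying in every subgroup of order
`p^k` of `R` lies in `Φ(P)`. -/
theorem mem_frattini_of_forall_mem {p : ℕ} [hp : Fact p.Prime] {P R : Subgroup X}
    (hP : IsPGroup p P) (hRP : R ≤ P) (k : ℕ) (hR : Nat.card R = p ^ (k + 1)) {y : X} (hyR : y ∈ R)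
    (hy : ∀ M : Subgroup X, M ≤ R → Nat.card M = p ^ k → y ∈ M) :
    y ∈ (frattini P).map P.subtype := by
  refine ⟨⟨y, hRP hyR⟩, ?_, rfl⟩
  suffices key : ∀ M' : Subgroup P, IsCoatom M' → (⟨y, hRP hyR⟩ : P) ∈ M' by
    show (⟨y, hRP hyR⟩ : P) ∈ Order.radical (Subgroup P)
    unfold Order.radical
    exact mem_iInf.mpr fun M' => mem_iInf.mpr fun hM' => key M' hM'
  intro M' hM'
  obtain ⟨ν, hν⟩ := Cfsg.Agent.Helper86.exists_hom_ker_eq_of_isCoatom hP M' hM'
  rw [← hν, MonoidHom.mem_ker]
  let νR : R →* Multiplicative (ZMod p) := ν.comp (inclusion hRP)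
  have hνR : νR ⟨y, hyR⟩ = ν ⟨y, hRP hyR⟩ := rfl
  rw [← hνR]
  have hidx : νR.ker.index ∣ p := by
    rw [index_ker]
    have h1 : Nat.card νR.range ∣ Nat.card (Multiplicative (ZMod p)) := card_subgroup_dvd_card _
    have h2 : Nat.card (Multiplicative (ZMod p)) = p := by
      rw [Nat.card_congr Multiplicative.toAdd, Nat.card_zmod]
    rwa [h2] at h1
  rcases (Nat.dvd_prime hp.out).mp hidx with h1 | h1
  · have h2 : νR.ker = ⊤ := index_eq_one.mp h1
    have h3 : (⟨y, hyR⟩ : R) ∈ νR.ker := h2 ▸ mem_top _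
    exact MonoidHom.mem_ker.mp h3
  · have hcard : Nat.card (νR.ker.map R.subtype) = p ^ k := by
      rw [card_map_of_injective R.subtype_injective]
      have h2 := νR.ker.card_mul_index
      rw [h1, hR, pow_succ] at h2
      exact Nat.eq_of_mul_eq_mul_right hp.out.pos h2
    have h3 := hy _ (map_subtype_le _) hcard
    obtain ⟨r, hr, hry⟩ := h3
    have h4 : r = ⟨y, hyR⟩ := Subtype.ext hry
    rw [← h4]
    exact MonoidHom.mem_ker.mp hr

/-- A subgroup `E` of a `p`-group `P` with `E^g ∩ N(E) ≤ E` for all `g` is normal in `P`. -/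
theorem le_normalizer_of_hSub {p : ℕ} [hp : Fact p.Prime] {P E : Subgroup X} (hP : IsPGroup p P)
    (hEP : E ≤ P)
    (hH : ∀ g : X, E.map (MulAut.conj g).toMonoidHom ⊓ normalizer (E : Set X) ≤ E) :
    P ≤ normalizer (E : Set X) := by
  by_contra hnot
  have hTne : (P ⊓ normalizer (E : Set X)).subgroupOf P ≠ ⊤ := by
    intro h
    apply hnot
    intro x hx
    have h1 : (⟨x, hx⟩ : P) ∈ (P ⊓ normalizer (E : Set X)).subgroupOf P := h ▸ mem_top _
    exact (mem_subgroupOf.mp h1).2
  have hnil : Group.IsNilpotent P := hP.isNilpotent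
  have hnc : NormalizerCondition P := Group.normalizerCondition_of_isNilpotent
  have hlt := hnc ((P ⊓ normalizer (E : Set X)).subgroupOf P) (lt_top_iff_ne_top.mpr hTne)
  obtain ⟨g, hgN, hgT⟩ := SetLike.exists_of_lt hlt
  apply hgT
  rw [mem_subgroupOf]
  refine ⟨g.2, ?_⟩
  apply mem_normalizer_of_conj_mem
  intro e he
  apply hH (g : X)
  refine ⟨conj_mem_map_conj E g he, ?_⟩
  have heT : (⟨e, hEP he⟩ : P) ∈ (P ⊓ normalizer (E : Set X)).subgroupOf P :=
    mem_subgroupOf.mpr ⟨hEP he, le_normalizer he⟩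
  have h1 := (mem_normalizer_iff.mp hgN ⟨e, hEP he⟩).mp heT
  rw [mem_subgroupOf] at h1
  exact h1.2

end

end Cfsg.Agent.Helper50
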