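import Mathlib
import Cfsg.Agent.Helper50.HigDefs
import Cfsg.Agent.Helper91.HigR0
import Cfsg.Agent.Helper50.HigR1
import Cfsg.Agent.Helper91.HigNF

set_option autoImplicit false

namespace Cfsg.Agent.Helper50.HigBETA

open Cfsg.Agent.Helper5 Cfsg.Agent.Helper50.Hig Cfsg.Agent.Helper91.HigR0
open Cfsg.Agent.Helper50.HigR1 Cfsg.Agent.Helper91.HigNF

/-- conjugates of `c` satisfy the same relation -/
theorem conj_rel {K : Type*} [Field K] {R : Type*} [Ring R] (ρ : SL2 K →* R)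
    (hρ : ρ (cSL K) * ρ (cSL K) + ρ (cSL K) + 1 = 0) (g : SL2 K) :
    ρ (g * cSL K * g⁻¹) * ρ (g * cSL K * g⁻¹) + ρ (g * cSL K * g⁻¹) + 1 = 0 := by
  have hone : ρ g * ρ g⁻¹ = 1 := by rw [← map_mul, mul_inv_cancel, map_one]
  have hone' : ρ g⁻¹ * ρ g = 1 := by rw [← map_mul, inv_mul_cancel, map_one]
  have e1 : ρ (g * cSL K * g⁻¹) * ρ (g * cSL K * g⁻¹) + ρ (g * cSL K * g⁻¹) + 1 =
      ρ g * (ρ (cSL K) * ρ (cSL K) + ρ (cSL K) + 1) * ρ g⁻¹ := by
    simp only [map_mul, mul_add, add_mul, mul_one]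
    rw [hone]
    congr 2
    simp only [mul_assoc]
    rw [← mul_assoc (ρ g⁻¹) (ρ g), hone', one_mul]
  rw [e1, hρ, mul_zero, zero_mul]

/-- `u(t) l(1/t)` is a conjugate of `c` -/
theorem hconj_eq {K : Type*} [Field K] [Fintype K] [CharP K 2] (t : K) (ht : t ≠ 0) :
    ∃ d : K, hSL d * cSL K * (hSL d)⁻¹ = uSL t * lSL t⁻¹ := by
  obtain ⟨hll, huu, hl2, hn1, hln, hhu, hhl, hhh, hh1⟩ := sl2_rel (K := K)
  obtain ⟨d, hd⟩ : ∃ d : K, d ^ 2 = t := by
    have hbij := (frobenius K 2).injective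
    have hsurj : Function.Surjective (frobenius K 2) :=
      Finite.surjective_of_injective hbij
    obtain ⟨d, hd⟩ := hsurj t
    exact ⟨d, by simpa [frobenius_def] using hd⟩
  have hd0 : d ≠ 0 := by
    rintro rfl
    apply ht
    rw [← hd]; simp
  refine ⟨d, ?_⟩
  have h1 := hhu d 1 hd0
  have h2 := hhl d 1 hd0
  rw [mul_one, hd] at h1
  rw [mul_one, hd] at h2
  unfold cSL
  rw [← mul_assoc, h1, mul_assoc (uSL t), h2, mul_assoc, mul_assoc, mul_inv_cancel, mul_one]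

theorem pair_aux {V Z : Type*} [AddCommGroup V] [AddCommGroup Z]
    (hZ2 : ∀ z : Z, z + z = 0) (β : V →+ V →+ Z) (hsymm : ∀ v w, β v w = β w v)
    (Y : AddMonoid.End V) (Y' : AddMonoid.End Z)
    (hY : Y * Y + Y + 1 = 0) (hY' : Y' * Y' + Y' + 1 = 0)
    (hfix : ∀ v, β v (Y v) = 0) (hequiv : ∀ v w, β (Y v) (Y w) = Y' (β v w)) (v w : V) :
    β v (Y w) = Y' (Y' (β v w)) := by
  have hZeq : ∀ z z' : Z, z + z' = 0 → z = z' := by
    intro z z' h
    have h1 : z = -z' := eq_neg_of_add_eq_zero_left h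
    rw [h1]; exact neg_eq_of_add_eq_zero_left (hZ2 z')
  have h1 : ∀ v w, β v (Y w) = β w (Y v) := by
    intro v w
    have h := hfix (v + w)
    simp only [map_add, AddMonoidHom.add_apply, hfix, add_zero, zero_add] at h
    rw [add_comm] at h
    exact hZeq _ _ h
  have h2 : ∀ v w, β v (Y w) = β (Y v) w := fun v w => by rw [h1, hsymm]
  have hYw : Y (Y w) + Y w + w = 0 := by
    have h := congrArg (fun f : AddMonoid.End V => f w) hY
    exact h
  have E1 : Y' (β v w) + β v (Y w) + β v w = 0 := by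
    have h := congrArg (fun x => β v x) hYw
    simp only [map_add, map_zero] at h
    rw [h2 v (Y w), hequiv] at h
    exact h
  have E2 : Y' (Y' (β v w)) + Y' (β v w) + β v w = 0 := by
    have h := congrArg (fun f : AddMonoid.End Z => f (β v w)) hY'
    exact h
  apply hZeq
  have hz := hZ2 (β v w)
  have hz' := hZ2 (Y' (β v w))
  calc β v (Y w) + Y' (Y' (β v w)) = (Y' (β v w) + β v (Y w) + β v w) +
        (Y' (Y' (β v w)) + Y' (β v w) + β v w) - (Y' (β v w) + Y' (β v w)) -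
          (β v w + β v w) := by abel
    _ = 0 := by rw [E1, E2, hz, hz']; simp

/-- PIECE BETA (uses NF, R0, R1) -/
theorem beta_zero {K : Type*} [Field K] [Fintype K] [CharP K 2] (hK : 2 < Fintype.card K)
    {V Z : Type*} [AddCommGroup V] [AddCommGroup Z] (hV2 : ∀ v : V, v + v = 0)
    (hZ2 : ∀ z : Z, z + z = 0) (ρV : SL2 K →* AddMonoid.End V) (ρZ : SL2 K →* AddMonoid.End Z)
    (hρV : ρV (cSL K) * ρV (cSL K) + ρV (cSL K) + 1 = 0)
    (hρZ : ρZ (cSL K) * ρZ (cSL K) + ρZ (cSL K) + 1 = 0) (β : V →+ V →+ Z)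
    (hequiv : ∀ (g : SL2 K) (v w : V), β (ρV g v) (ρV g w) = ρZ g (β v w))
    (halt : ∀ v : V, β v v = 0)
    (hfix : ∀ (g : SL2 K) (v : V), β v (ρV (g * cSL K * g⁻¹) v) = 0) : β = 0 := by
  classical
  obtain ⟨hll, huu, hl2, hn1, hln, hhu, hhl, hhh, hh1⟩ := sl2_rel (K := K)
  have hRV : ∀ r : AddMonoid.End V, r + r = 0 := fun r => AddMonoidHom.ext fun v => hV2 (r v)
  have hRZ : ∀ r : AddMonoid.End Z, r + r = 0 := fun r => AddMonoidHom.ext fun z => hZ2 (r z)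
  have hZeq : ∀ z z' : Z, z + z' = 0 → z = z' := by
    intro z z' h
    have h1 : z = -z' := eq_neg_of_add_eq_zero_left h
    rw [h1]; exact neg_eq_of_add_eq_zero_left (hZ2 z')
  have hsymm : ∀ v w : V, β v w = β w v := by
    intro v w
    have h := halt (v + w)
    simp only [map_add, AddMonoidHom.add_apply, halt, add_zero, zero_add] at h
    rw [add_comm] at h
    exact hZeq _ _ h
  -- (*) : β (U v) (L w) = U' z + L' z
  have hstar : ∀ (t : K), t ≠ 0 → ∀ v w : V,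
      β (ρV (uSL t) v) (ρV (lSL t⁻¹) w) = ρZ (uSL t) (β v w) + ρZ (lSL t⁻¹) (β v w) := by
    intro t ht v w
    obtain ⟨d, hd⟩ := hconj_eq t ht
    have hYV := conj_rel ρV hρV (hSL d)
    have hYZ := conj_rel ρZ hρZ (hSL d)
    have hfx := hfix (hSL d)
    rw [hd] at hYV hYZ hfx
    have hA := pair_aux hZ2 β hsymm (ρV (uSL t * lSL t⁻¹)) (ρZ (uSL t * lSL t⁻¹)) hYV hYZ hfx
      (hequiv (uSL t * lSL t⁻¹))
    -- relations in End Z
    have hUU' : ρZ (uSL t) * ρZ (uSL t) = 1 := by rw [← map_mul, huu, map_one]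
    have hUU : ρV (uSL t) * ρV (uSL t) = 1 := by rw [← map_mul, huu, map_one]
    have hR1 := fpf_family ρZ hρZ t ht
    -- β v (U (L w)) = L' (U' (β v w))
    have h1 : ∀ v w : V, β v (ρV (uSL t) (ρV (lSL t⁻¹) w)) =
        ρZ (lSL t⁻¹) (ρZ (uSL t) (β v w)) := by
      intro v w
      have h := hA v w
      rw [map_mul] at h
      -- Y' (Y' z) = L' (U' z)
      have e : ρZ (uSL t * lSL t⁻¹) * ρZ (uSL t * lSL t⁻¹) = ρZ (lSL t⁻¹) * ρZ (uSL t) := by
        have e1 : ρZ (uSL t * lSL t⁻¹) * ρZ (uSL t * lSL t⁻¹) + ρZ (lSL t⁻¹) * ρZ (uSL t) = 0 := by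
          calc ρZ (uSL t * lSL t⁻¹) * ρZ (uSL t * lSL t⁻¹) + ρZ (lSL t⁻¹) * ρZ (uSL t)
              = (ρZ (uSL t * lSL t⁻¹) * ρZ (uSL t * lSL t⁻¹) + ρZ (uSL t * lSL t⁻¹) + 1) +
                (ρZ (uSL t) * ρZ (lSL t⁻¹) + ρZ (lSL t⁻¹) * ρZ (uSL t) + 1) -
                (ρZ (uSL t * lSL t⁻¹) + ρZ (uSL t * lSL t⁻¹)) - (1 + 1) := by
                rw [map_mul]; abel
            _ = 0 := by rw [hYZ, hR1, hRZ (ρZ (uSL t * lSL t⁻¹)), hRZ 1]; simp
        have e2 : ρZ (uSL t * lSL t⁻¹) * ρZ (uSL t * lSL t⁻¹) = -(ρZ (lSL t⁻¹) * ρZ (uSL t)) :=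
          eq_neg_of_add_eq_zero_left e1
        rw [e2]; exact neg_eq_of_add_eq_zero_left (hRZ _)
      have h' : ρZ (uSL t * lSL t⁻¹) (ρZ (uSL t * lSL t⁻¹) (β v w)) =
          ρZ (lSL t⁻¹) (ρZ (uSL t) (β v w)) := by
        have := congrArg (fun f : AddMonoid.End Z => f (β v w)) e
        exact this
      rw [h'] at h
      exact h
    have h2 := hequiv (uSL t) v (ρV (uSL t) (ρV (lSL t⁻¹) w))
    have h3 : ρV (uSL t) (ρV (uSL t) (ρV (lSL t⁻¹) w)) = ρV (lSL t⁻¹) w := by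
      have := congrArg (fun f : AddMonoid.End V => f (ρV (lSL t⁻¹) w)) hUU
      exact this
    rw [h3, h1] at h2
    rw [h2]
    -- U' L' U' = U' + L'
    have e : ρZ (uSL t) * ρZ (lSL t⁻¹) * ρZ (uSL t) = ρZ (uSL t) + ρZ (lSL t⁻¹) := by
      have e1 : ρZ (uSL t) * ρZ (lSL t⁻¹) * ρZ (uSL t) + (ρZ (uSL t) + ρZ (lSL t⁻¹)) = 0 := by
        calc ρZ (uSL t) * ρZ (lSL t⁻¹) * ρZ (uSL t) + (ρZ (uSL t) + ρZ (lSL t⁻¹))
            = (ρZ (uSL t) * ρZ (lSL t⁻¹) + ρZ (lSL t⁻¹) * ρZ (uSL t) + 1) * ρZ (uSL t) +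
              (ρZ (lSL t⁻¹) - ρZ (lSL t⁻¹) * (ρZ (uSL t) * ρZ (uSL t))) := by noncomm_ring
          _ = 0 := by rw [hR1, hUU']; simp
      have e2 := eq_neg_of_add_eq_zero_left e1
      rw [e2]; exact neg_eq_of_add_eq_zero_left (hRZ _)
    have := congrArg (fun f : AddMonoid.End Z => f (β v w)) e
    exact this
  -- normal forms
  obtain ⟨haa, hbb, hab, Qf, hQa, hQb, hQ1, hQadd, hQmul, hQu, hQl⟩ := normal_form hRV ρV hρV
  obtain ⟨haa', hbb', hab', Qf', hQa', hQb', hQ1', hQadd', hQmul', hQu', hQl'⟩ :=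
    normal_form hRZ ρZ hρZ
  obtain ⟨a, ha⟩ : ∃ a : AddMonoid.End V, a = ρV (uSL 1) + 1 := ⟨_, rfl⟩
  obtain ⟨b, hb⟩ : ∃ b : AddMonoid.End V, b = ρV (lSL 1) + 1 := ⟨_, rfl⟩
  obtain ⟨a', ha'⟩ : ∃ a' : AddMonoid.End Z, a' = ρZ (uSL 1) + 1 := ⟨_, rfl⟩
  obtain ⟨b', hb'⟩ : ∃ b' : AddMonoid.End Z, b' = ρZ (lSL 1) + 1 := ⟨_, rfl⟩
  rw [← ha] at haa hab hQa hQu
  rw [← hb] at hbb hab hQb hQl
  rw [← ha'] at haa' hab' hQa' hQu'
  rw [← hb'] at hbb' hab' hQb' hQl'
  -- pointwise forms, V side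
  have paa : ∀ v, a (a v) = 0 := fun v => congrArg (fun f : AddMonoid.End V => f v) haa
  have pbb : ∀ v, b (b v) = 0 := fun v => congrArg (fun f : AddMonoid.End V => f v) hbb
  have pab : ∀ v, a (b v) + b (a v) = v := fun v => congrArg (fun f : AddMonoid.End V => f v) hab
  have pQa : ∀ s v, Qf s (a v) = a (Qf s v) := fun s v =>
    congrArg (fun f : AddMonoid.End V => f v) (hQa s)
  have pQb : ∀ s v, Qf s (b v) = b (Qf s v) := fun s v =>
    congrArg (fun f : AddMonoid.End V => f v) (hQb s)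
  have pU : ∀ s v, ρV (uSL s) v = v + Qf s (a v) := fun s v =>
    congrArg (fun f : AddMonoid.End V => f v) (hQu s)
  have pL : ∀ s v, ρV (lSL s) v = v + Qf s (b v) := fun s v =>
    congrArg (fun f : AddMonoid.End V => f v) (hQl s)
  -- pointwise forms, Z side
  have paa' : ∀ v, a' (a' v) = 0 := fun v => congrArg (fun f : AddMonoid.End Z => f v) haa'
  have pbb' : ∀ v, b' (b' v) = 0 := fun v => congrArg (fun f : AddMonoid.End Z => f v) hbb'
  have pab' : ∀ v, a' (b' v) + b' (a' v) = v := fun v =>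
    congrArg (fun f : AddMonoid.End Z => f v) hab'
  have pQa' : ∀ s v, Qf' s (a' v) = a' (Qf' s v) := fun s v =>
    congrArg (fun f : AddMonoid.End Z => f v) (hQa' s)
  have pQb' : ∀ s v, Qf' s (b' v) = b' (Qf' s v) := fun s v =>
    congrArg (fun f : AddMonoid.End Z => f v) (hQb' s)
  have pU' : ∀ s v, ρZ (uSL s) v = v + Qf' s (a' v) := fun s v =>
    congrArg (fun f : AddMonoid.End Z => f v) (hQu' s)
  have pL' : ∀ s v, ρZ (lSL s) v = v + Qf' s (b' v) := fun s v =>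
    congrArg (fun f : AddMonoid.End Z => f v) (hQl' s)
  have pQ1' : ∀ v, Qf' 1 v = v := fun v => congrArg (fun f : AddMonoid.End Z => f v) hQ1'
  have pQadd' : ∀ s t v, Qf' (s + t) v = Qf' s v + Qf' t v := fun s t v =>
    congrArg (fun f : AddMonoid.End Z => f v) (hQadd' s t)
  have pQmul' : ∀ s t v, Qf' (s * t) v = Qf' s (Qf' t v) := fun s t v =>
    congrArg (fun f : AddMonoid.End Z => f v) (hQmul' s t)
  have pQinj' : ∀ s : K, s ≠ 0 → ∀ v, Qf' s v = 0 → v = 0 := by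
    intro s hs v hv
    have h := pQmul' s⁻¹ s v
    rw [inv_mul_cancel₀ hs, pQ1', hv, map_zero] at h
    exact h
  -- the fixed point lemma on Z
  obtain ⟨t0, ht0, ht1⟩ : ∃ t : K, t ≠ 0 ∧ t ≠ 1 := by
    by_contra hcon
    push Not at hcon
    have hsub : (Finset.univ : Finset K) ⊆ {0, 1} := by
      intro t _
      by_cases h : t = 0
      · simp [h]
      · simp [hcon t h]
    have := Finset.card_le_card hsub
    have h2 : ({0, 1} : Finset K).card ≤ 2 := Finset.card_le_two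
    rw [Finset.card_univ] at this
    omega
  have hZfix : ∀ z : Z, (∀ t : K, t ≠ 0 → z = ρZ (uSL t) z + ρZ (lSL t⁻¹) z) → z = 0 := by
    intro z hz
    -- E(t) : z = Qf' t (a' z) + Qf' t⁻¹ (b' z)
    have hE : ∀ t : K, t ≠ 0 → z = Qf' t (a' z) + Qf' t⁻¹ (b' z) := by
      intro t ht
      have h := hz t ht
      rw [pU', pL'] at h
      have h' : z + Qf' t (a' z) + (z + Qf' t⁻¹ (b' z)) = (z + z) + (Qf' t (a' z) + Qf' t⁻¹ (b' z)) := by
        abel
      rw [h', hZ2, zero_add] at h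
      exact h
    have hE1 := hE 1 one_ne_zero
    rw [inv_one, pQ1', pQ1'] at hE1
    have hEt := hE t0 ht0
    have hsum : Qf' (t0 + 1) (a' z) + Qf' (t0⁻¹ + 1) (b' z) = 0 := by
      rw [pQadd', pQadd', pQ1', pQ1']
      calc Qf' t0 (a' z) + a' z + (Qf' t0⁻¹ (b' z) + b' z)
          = (Qf' t0 (a' z) + Qf' t0⁻¹ (b' z)) + (a' z + b' z) := by abel
        _ = z + z := by rw [← hEt, ← hE1]
        _ = 0 := hZ2 z
    have ht01 : t0 + 1 ≠ 0 := by
      intro h
      apply ht1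
      have h2 : t0 = -1 := eq_neg_of_add_eq_zero_left h
      rw [h2]
      exact neg_eq_of_add_eq_zero_left (CharTwo.add_self_eq_zero (1:K))
    have ht02 : t0⁻¹ + 1 ≠ 0 := by
      intro h
      apply ht1
      have h2 : t0⁻¹ = -1 := eq_neg_of_add_eq_zero_left h
      have h3 : t0⁻¹ = 1 := by
        rw [h2]; exact neg_eq_of_add_eq_zero_left (CharTwo.add_self_eq_zero (1:K))
      have h4 : t0 = (t0⁻¹)⁻¹ := (inv_inv t0).symm
      rw [h4, h3, inv_one]
    -- apply a'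
    have hA : a' (b' z) = 0 := by
      have h := congrArg (fun x => a' x) hsum
      simp only [map_add, map_zero] at h
      rw [← pQa', ← pQa', paa', map_zero, zero_add] at h
      exact pQinj' _ ht02 _ h
    have hB : b' (a' z) = 0 := by
      have h := congrArg (fun x => b' x) hsum
      simp only [map_add, map_zero] at h
      rw [← pQb', ← pQb', pbb', map_zero, add_zero] at h
      exact pQinj' _ ht01 _ h
    rw [← pab' z, hA, hB, add_zero]
  -- U fixes aV, L fixes bV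
  have hUa : ∀ t v, ρV (uSL t) (a v) = a v := by
    intro t v
    rw [pU, paa, map_zero, add_zero]
  have hLb : ∀ t v, ρV (lSL t) (b v) = b v := by
    intro t v
    rw [pL, pbb, map_zero, add_zero]
  -- β (aV, bV) = 0
  have hab0 : ∀ v w, β (a v) (b w) = 0 := by
    intro v w
    apply hZfix
    intro t ht
    have h := hstar t ht (a v) (b w)
    rw [hUa, hLb] at h
    exact h
  have haa0 : ∀ v w, β (a v) (a w) = 0 := by
    intro v w
    apply hZfix
    intro t ht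
    have h := hstar t ht (a v) (a w)
    rw [hUa, pL, pQb, map_add, hab0, add_zero] at h
    exact h
  have hbb0 : ∀ v w, β (b v) (b w) = 0 := by
    intro v w
    apply hZfix
    intro t ht
    have h := hstar t ht (b v) (b w)
    rw [hLb, pU, pQa, map_add, AddMonoidHom.add_apply, hab0, add_zero] at h
    exact h
  have hba0 : ∀ v w, β (b v) (a w) = 0 := fun v w => by rw [hsymm, hab0]
  apply AddMonoidHom.ext
  intro v
  apply AddMonoidHom.ext
  intro w
  rw [← pab v, ← pab w]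
  simp only [map_add, AddMonoidHom.add_apply, hab0, haa0, hbb0, hba0, add_zero]
  simp

end Cfsg.Agent.Helper50.HigBETA
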