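import Mathlib
import Cfsg.Agent.Helper50.HigDefs
import Cfsg.Agent.Helper91.HigZKCore
import Cfsg.Agent.Helper3.HigZK4

set_option autoImplicit false

namespace Cfsg.Agent.Helper50.HigZK

open Cfsg.Agent.Helper5 Cfsg.Agent.Helper50.Hig

/-- PIECE ZK (glue of helper91's core with helper3's ZK4) -/
theorem two_eq_zero {K : Type*} [Field K] [Fintype K] [CharP K 2]
    (hK : 2 < Fintype.card K) {R : Type*} [Ring R] (k : ℕ) (hk : (2 : R) ^ k = 0)
    (ρ : SL2 K →* R) (hρ : ρ (cSL K) * ρ (cSL K) + ρ (cSL K) + 1 = 0) : (2 : R) = 0 :=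
  Cfsg.Agent.Helper91.HigZKCore.two_eq_zero_core hK
    (fun _ _ h4 ρ' hρ' => Cfsg.Agent.Helper3.HigZK4.two_eq_zero_of_four hK h4 ρ' hρ') k hk ρ hρ

end Cfsg.Agent.Helper50.HigZK
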