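import Cfsg.Agent.Helper50.CDP

set_option autoImplicit false

/-!
Minimal centrally large subgroups and abelian subgroups of largest order.
-/

namespace Cfsg.Agent.Helper50

open scoped Pointwise
open scoped commutatorElement

variable {S : Type*} [Group S]

theorem commutatorElement_mul_left_of_commute {a z b : S} (h : Commute z b) :
    ⁅a * z, b⁆ = ⁅a, b⁆ := by
  rw [commutatorElement_def, commutatorElement_def]
  calc a * z * b * (a * z)⁻¹ * b⁻¹ = a * (z * b) * z⁻¹ * a⁻¹ * b⁻¹ := by group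
    _ = a * (b * z) * z⁻¹ * a⁻¹ * b⁻¹ := by rw [h.eq]
    _ = a * b * a⁻¹ * b⁻¹ := by group

theorem commutatorElement_mul_right_of_commute {a z b : S} (h : Commute z a) :
    ⁅a, b * z⁆ = ⁅a, b⁆ := by
  rw [commutatorElement_def, commutatorElement_def]
  have h' : z * a⁻¹ = a⁻¹ * z := h.inv_right.eq
  calc a * (b * z) * a⁻¹ * (b * z)⁻¹ = a * b * (z * a⁻¹) * z⁻¹ * b⁻¹ := by group
    _ = a * b * (a⁻¹ * z) * z⁻¹ * b⁻¹ := by rw [h']
    _ = a * b * a⁻¹ * b⁻¹ := by group

theorem isMulCommutative_iff_le_centralizer (A : Subgroup S) :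
    IsMulCommutative A ↔ A ≤ Subgroup.centralizer (A : Set S) :=
  Subgroup.le_centralizer_iff_isMulCommutative.symm

theorem isMulCommutative_of_le' {A B : Subgroup S} (hB : IsMulCommutative B) (h : A ≤ B) :
    IsMulCommutative A := by
  rw [isMulCommutative_iff_le_centralizer] at hB ⊢
  exact le_trans h (le_trans hB (centralizer_anti h))

variable [Finite S]

/-- `Q` minimal centrally large, `R` centrally large: `Q = (Q ∩ R) C(Q)` -/
theorem mcl_inf_sup_centralizer {Q R : Subgroup S} (hQ : Cfsg.IsMinimalCentrallyLarge Q)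
    (hR : Cfsg.IsCentrallyLarge R) : (Q ⊓ R) ⊔ Subgroup.centralizer (Q : Set S) = Q := by
  obtain ⟨hQ1, hQ2⟩ := isCentrallyLarge_large_and_le hQ.1
  obtain ⟨hR1, hR2⟩ := isCentrallyLarge_large_and_le hR
  have hD := cdm_inf_eq cdm_le_max hQ1 hR1
  have hZ := cdm_centralizer_eq cdm_le_max hQ1
  have hX := cdm_sup_eq cdm_le_max hD hZ
  have hXle : (Q ⊓ R) ⊔ Subgroup.centralizer (Q : Set S) ≤ Q := sup_le inf_le_left hQ2
  have hCX : Subgroup.centralizer (((Q ⊓ R) ⊔ Subgroup.centralizer (Q : Set S) : Subgroup S) : Set S)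
      ≤ (Q ⊓ R) ⊔ Subgroup.centralizer (Q : Set S) := by
    rw [centralizer_sup, centralizer_inf_of_cdm_max cdm_le_max hQ1 hR1,
      ← eq_centralizer_centralizer_of_cdm_max cdm_le_max hQ1]
    intro x hx
    obtain ⟨hx1, hx2⟩ := Subgroup.mem_inf.mp hx
    have hx1' : x ∈ ((Subgroup.centralizer (Q : Set S) ⊔ Subgroup.centralizer (R : Set S) :
        Subgroup S) : Set S) := hx1
    rw [coe_sup_centralizer_eq_mulSet_of_cdm_max cdm_le_max hQ1 hR1] at hx1'
    obtain ⟨a, ha, b, hb, rfl⟩ := Set.mem_mul.mp hx1'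
    have hbQ : b ∈ Q := by
      have : b = a⁻¹ * (a * b) := by group
      rw [this]; exact Q.mul_mem (Q.inv_mem (hQ2 ha)) hx2
    rw [sup_comm]
    exact Subgroup.mul_mem_sup ha (Subgroup.mem_inf.mpr ⟨hbQ, hR2 hb⟩)
  have hXCL := isCentrallyLarge_of_large_of_le hX hCX
  exact hQ.2 _ hXle hXCL

/-- `Q` minimal centrally large, `R` centrally large: `Q = (Q ∩ R) C(Q)` as a product set -/
theorem mcl_coe_eq_mulSet {Q R : Subgroup S} (hQ : Cfsg.IsMinimalCentrallyLarge Q)
    (hR : Cfsg.IsCentrallyLarge R) :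
    (Q : Set S) = ((Q ⊓ R : Subgroup S) : Set S)
      * ((Subgroup.centralizer (Q : Set S) : Subgroup S) : Set S) := by
  obtain ⟨hQ1, hQ2⟩ := isCentrallyLarge_large_and_le hQ.1
  obtain ⟨hR1, hR2⟩ := isCentrallyLarge_large_and_le hR
  have hD := cdm_inf_eq cdm_le_max hQ1 hR1
  have hZ := cdm_centralizer_eq cdm_le_max hQ1
  rw [← coe_sup_eq_mulSet_of_cdm_max cdm_le_max hD hZ, mcl_inf_sup_centralizer hQ hR]

/-- `Q` minimal centrally large, `R` centrally large: `[Q, Q] ≤ [Q ∩ R, Q ∩ R]` -/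
theorem mcl_commutator_le {Q R : Subgroup S} (hQ : Cfsg.IsMinimalCentrallyLarge Q)
    (hR : Cfsg.IsCentrallyLarge R) : ⁅Q, Q⁆ ≤ ⁅Q ⊓ R, Q ⊓ R⁆ := by
  rw [Subgroup.commutator_le]
  intro g₁ hg₁ g₂ hg₂
  have h1 : g₁ ∈ (Q : Set S) := hg₁
  have h2 : g₂ ∈ (Q : Set S) := hg₂
  rw [mcl_coe_eq_mulSet hQ hR] at h1 h2
  obtain ⟨d₁, hd₁, z₁, hz₁, rfl⟩ := Set.mem_mul.mp h1
  obtain ⟨d₂, hd₂, z₂, hz₂, rfl⟩ := Set.mem_mul.mp h2
  have hz₁' := Subgroup.mem_centralizer_iff.mp hz₁
  have hz₂' := Subgroup.mem_centralizer_iff.mp hz₂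
  have e1 : ⁅d₁ * z₁, d₂ * z₂⁆ = ⁅d₁, d₂ * z₂⁆ :=
    commutatorElement_mul_left_of_commute (hz₁' _ hg₂).symm
  have e2 : ⁅d₁, d₂ * z₂⁆ = ⁅d₁, d₂⁆ :=
    commutatorElement_mul_right_of_commute (hz₂' _ (Subgroup.mem_inf.mp hd₁).1).symm
  rw [e1, e2]
  exact Subgroup.commutator_mem_commutator hd₁ hd₂

/-- two minimal centrally large subgroups have the same derived subgroup -/
theorem mcl_commutator_eq {Q R : Subgroup S} (hQ : Cfsg.IsMinimalCentrallyLarge Q)
    (hR : Cfsg.IsMinimalCentrallyLarge R) : ⁅Q, Q⁆ = ⁅R, R⁆ := by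
  apply le_antisymm
  · exact le_trans (mcl_commutator_le hQ hR.1) (Subgroup.commutator_mono inf_le_right inf_le_right)
  · exact le_trans (mcl_commutator_le hR hQ.1) (Subgroup.commutator_mono inf_le_right inf_le_right)

theorem mcl_inf_centralizer_le {Q R : Subgroup S} (hR : Cfsg.IsMinimalCentrallyLarge R)
    (hQ : Cfsg.IsCentrallyLarge Q) :
    (Q ⊓ R) ⊓ Subgroup.centralizer (Q : Set S) ≤ (Q ⊓ R) ⊓ Subgroup.centralizer (R : Set S) := by
  intro x hx
  obtain ⟨hx1, hx2⟩ := Subgroup.mem_inf.mp hx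
  refine Subgroup.mem_inf.mpr ⟨hx1, ?_⟩
  have h := mcl_inf_sup_centralizer hR hQ
  have h2 : x ∈ Subgroup.centralizer (((R ⊓ Q) ⊔ Subgroup.centralizer (R : Set S) : Subgroup S) : Set S) := by
    rw [centralizer_sup]
    refine Subgroup.mem_inf.mpr ⟨?_, ?_⟩
    · exact centralizer_anti (inf_le_right : R ⊓ Q ≤ Q) hx2
    · have : R ≤ Subgroup.centralizer ((Subgroup.centralizer (R : Set S) : Subgroup S) : Set S) :=
        le_centralizer_centralizer R
      exact this (Subgroup.mem_inf.mp hx1).2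
  rw [h] at h2
  exact h2

/-- two minimal centrally large subgroups have the same order, and so do their centralizers -/
theorem mcl_card_eq {Q R : Subgroup S} (hQ : Cfsg.IsMinimalCentrallyLarge Q)
    (hR : Cfsg.IsMinimalCentrallyLarge R) :
    Nat.card Q = Nat.card R ∧
      Nat.card ↥(Subgroup.centralizer (Q : Set S)) = Nat.card ↥(Subgroup.centralizer (R : Set S)) := by
  obtain ⟨hQ1, hQ2⟩ := isCentrallyLarge_large_and_le hQ.1
  obtain ⟨hR1, hR2⟩ := isCentrallyLarge_large_and_le hR.1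
  have hD := cdm_inf_eq cdm_le_max hQ1 hR1
  have hD' := cdm_inf_eq cdm_le_max hR1 hQ1
  have hZQ := cdm_centralizer_eq cdm_le_max hQ1
  have hZR := cdm_centralizer_eq cdm_le_max hR1
  have e1 := (cdm_max_aux cdm_le_max hD hZQ).1
  have e2 := (cdm_max_aux cdm_le_max hD' hZR).1
  rw [mcl_inf_sup_centralizer hQ hR.1] at e1
  rw [mcl_inf_sup_centralizer hR hQ.1] at e2
  have e3 : (Q ⊓ R) ⊓ Subgroup.centralizer (Q : Set S) = (R ⊓ Q) ⊓ Subgroup.centralizer (R : Set S) := by
    rw [inf_comm R Q]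
    apply le_antisymm (mcl_inf_centralizer_le hR hQ.1)
    have := mcl_inf_centralizer_le hQ hR.1
    rw [inf_comm R Q] at this
    exact this
  rw [← e3, inf_comm R Q] at e2
  have e4 : Nat.card Q * Nat.card ↥(Subgroup.centralizer (Q : Set S))
      = Nat.card R * Nat.card ↥(Subgroup.centralizer (R : Set S)) := by
    have a := hQ1; have b := hR1
    unfold Cfsg.IsCentralizerLarge at a b
    rw [a, b]
  set a := Nat.card ↥(Q ⊓ R) with ha
  set zq := Nat.card ↥(Subgroup.centralizer (Q : Set S)) with hzq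
  set zr := Nat.card ↥(Subgroup.centralizer (R : Set S)) with hzr
  set q := Nat.card Q with hq
  set r := Nat.card R with hr
  set c := Nat.card ↥((Q ⊓ R) ⊓ Subgroup.centralizer (Q : Set S)) with hc
  have ha0 : 0 < a := Nat.card_pos
  have hzq0 : 0 < zq := Nat.card_pos
  have hzr0 : 0 < zr := Nat.card_pos
  have hq0 : 0 < q := Nat.card_pos
  have hr0 : 0 < r := Nat.card_pos
  have hc0 : 0 < c := Nat.card_pos
  -- e1 : a * zq = q * c, e2 : a * zr = r * c, e4 : q * zq = r * zr
  have k1 : zq * r = q * zr := by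
    have : a * (zq * r) = a * (q * zr) := by
      calc a * (zq * r) = (a * zq) * r := by ring
        _ = q * c * r := by rw [e1]
        _ = q * (r * c) := by ring
        _ = q * (a * zr) := by rw [e2]
        _ = a * (q * zr) := by ring
    exact Nat.eq_of_mul_eq_mul_left ha0 this
  have k2 : zq * zq = zr * zr := by
    have : r * (zq * zq) = r * (zr * zr) := by
      calc r * (zq * zq) = (zq * r) * zq := by ring
        _ = q * zr * zq := by rw [k1]
        _ = (q * zq) * zr := by ring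
        _ = r * zr * zr := by rw [e4]
        _ = r * (zr * zr) := by ring
    exact Nat.eq_of_mul_eq_mul_left hr0 this
  have k3 : zq = zr := Nat.mul_self_inj.mp k2
  refine ⟨?_, k3⟩
  rw [k3] at e4
  exact Nat.eq_of_mul_eq_mul_right hzr0 e4

/-- an abelian centrally large subgroup has largest order among abelian subgroups -/
theorem card_le_of_abelian_cl {Q B : Subgroup S} (hQ : Cfsg.IsCentrallyLarge Q)
    (hQc : IsMulCommutative Q) (hB : IsMulCommutative B) : Nat.card B ≤ Nat.card Q := by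
  obtain ⟨hQ1, hQ2⟩ := isCentrallyLarge_large_and_le hQ
  have hCQ : Subgroup.centralizer (Q : Set S) = Q :=
    le_antisymm hQ2 ((isMulCommutative_iff_le_centralizer Q).mp hQc)
  have h1 : cdm B ≤ cdm Q := by
    have := cdm_le_max B
    rw [← (isCentralizerLarge_iff Q).mp hQ1] at this
    exact this
  unfold cdm at h1
  rw [hCQ] at h1
  have h2 : Nat.card B * Nat.card B ≤ Nat.card Q * Nat.card Q :=
    le_trans (Nat.mul_le_mul_left _
      (Subgroup.card_le_of_le ((isMulCommutative_iff_le_centralizer B).mp hB))) h1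
  exact Nat.mul_self_le_mul_self_iff.mp h2

theorem mem_maxAbelianSubgroups_of_abelian_cl {Q : Subgroup S} (hQ : Cfsg.IsCentrallyLarge Q)
    (hQc : IsMulCommutative Q) : Q ∈ Cfsg.maxAbelianSubgroups S :=
  ⟨hQc, fun _ hB => card_le_of_abelian_cl hQ hQc hB⟩

omit [Finite S] in
/-- if some abelian subgroup is centrally large, every abelian subgroup of that order is -/
theorem isCentrallyLarge_of_abelian_card_eq {Q X : Subgroup S} (hQ : Cfsg.IsCentrallyLarge Q)
    (hQc : IsMulCommutative Q) (hX : IsMulCommutative X) (hcard : Nat.card X = Nat.card Q) :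
    Cfsg.IsCentrallyLarge X := by
  rw [isCentrallyLarge_iff] at hQ ⊢
  rw [← hQ, czm_eq, czm_eq, inf_eq_left.mpr ((isMulCommutative_iff_le_centralizer X).mp hX),
    inf_eq_left.mpr ((isMulCommutative_iff_le_centralizer Q).mp hQc), hcard]

/-- if some abelian subgroup is centrally large, the abelian subgroups of largest order are
exactly the minimal centrally large subgroups -/
theorem mcl_iff_mem_maxAbelianSubgroups {Q : Subgroup S} (hQ : Cfsg.IsCentrallyLarge Q)
    (hQc : IsMulCommutative Q) (X : Subgroup S) :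
    Cfsg.IsMinimalCentrallyLarge X ↔ X ∈ Cfsg.maxAbelianSubgroups S := by
  obtain ⟨Q₀, hQ₀, hQ₀le⟩ := exists_isMinimalCentrallyLarge_le hQ
  have hQ₀c : IsMulCommutative Q₀ := isMulCommutative_of_le' hQc hQ₀le
  have hCQ₀ : Subgroup.centralizer (Q₀ : Set S) = Q₀ :=
    le_antisymm (isCentrallyLarge_large_and_le hQ₀.1).2
      ((isMulCommutative_iff_le_centralizer Q₀).mp hQ₀c)
  constructor
  · intro hX
    obtain ⟨h1, h2⟩ := mcl_card_eq hX hQ₀
    rw [hCQ₀, ← h1] at h2
    have hXc : IsMulCommutative X := by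
      rw [isMulCommutative_iff_le_centralizer]
      have : Subgroup.centralizer (X : Set S) = X :=
        Subgroup.eq_of_le_of_card_ge (isCentrallyLarge_large_and_le hX.1).2 h2.ge
      rw [this]
    exact mem_maxAbelianSubgroups_of_abelian_cl hX.1 hXc
  · rintro ⟨hXc, hXmax⟩
    have hcard : Nat.card X = Nat.card Q :=
      le_antisymm (card_le_of_abelian_cl hQ hQc hXc) (hXmax Q hQc)
    have hXCL := isCentrallyLarge_of_abelian_card_eq hQ hQc hXc hcard
    refine ⟨hXCL, fun R' hR' hR'' => ?_⟩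
    have hR'c : IsMulCommutative R' := isMulCommutative_of_le' hXc hR'
    exact Subgroup.eq_of_le_of_card_ge hR' (card_le_of_abelian_cl hR'' hR'c hXc)

end Cfsg.Agent.Helper50
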