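import Mathlib
import Cfsg.Agent.Helper55.N9Defs

/-!
# CALL S4409 (helper55), piece A1 (helper50)

An abelian 2-group without a noncyclic abelian subgroup of order 8 is cyclic or has order `≤ 4`.
-/

set_option autoImplicit false

namespace Cfsg.Agent.Helper50.N9

open Subgroup Cfsg.Agent.Helper55.N9

/-- `|H| · |K : H| = |K|` -/
theorem n9_card_mul_relIndex {G : Type*} [Group G] {H K : Subgroup G} (h : H ≤ K) :
    Nat.card H * H.relIndex K = Nat.card K := by
  have h1 := Subgroup.card_mul_index (H.subgroupOf K)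
  rwa [Nat.card_congr (Subgroup.subgroupOfEquivOfLe h).toEquiv] at h1

/-- counting the `2^j`-torsion of an abelian group with at most two elements of square one -/
theorem n9_tors_card_le {A : Type*} [CommGroup A] [Finite A]
    (h2 : Nat.card (powMonoidHom 2 : A →* A).ker ≤ 2) (j : ℕ) :
    Nat.card (powMonoidHom (2 ^ j) : A →* A).ker ≤ 2 ^ j := by
  induction j with
  | zero =>
    have h1 : (powMonoidHom (2 ^ 0) : A →* A).ker = ⊥ := by
      rw [eq_bot_iff]
      intro a ha
      rw [MonoidHom.mem_ker, powMonoidHom_apply, pow_zero, pow_one] at ha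
      rw [Subgroup.mem_bot]
      exact ha
    rw [h1, Subgroup.card_bot, pow_zero]
  | succ j ih =>
    set H : Subgroup A := (powMonoidHom (2 ^ (j + 1)) : A →* A).ker with hH
    set f : H →* A := (powMonoidHom 2 : A →* A).comp H.subtype with hf
    have hfa : ∀ x : H, f x = (x : A) ^ 2 := fun x => rfl
    have hrange : f.range ≤ (powMonoidHom (2 ^ j) : A →* A).ker := by
      rintro _ ⟨x, rfl⟩
      rw [MonoidHom.mem_ker, powMonoidHom_apply, hfa, ← pow_mul, ← pow_succ']
      have h3 : (x : A) ∈ (powMonoidHom (2 ^ (j + 1)) : A →* A).ker := x.2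
      rw [MonoidHom.mem_ker, powMonoidHom_apply] at h3
      exact h3
    have h4 : Nat.card f.range ≤ 2 ^ j := (Subgroup.card_le_of_le hrange).trans ih
    have h5 : Nat.card f.ker ≤ 2 := by
      refine le_trans ?_ h2
      refine Nat.card_le_card_of_injective
        (fun x : f.ker => (⟨(x : H), by
          have h6 := x.2
          rw [MonoidHom.mem_ker, hfa] at h6
          rw [MonoidHom.mem_ker, powMonoidHom_apply]
          exact h6⟩ : (powMonoidHom 2 : A →* A).ker)) ?_
      intro x y hxy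
      have h7 := congrArg (fun z : (powMonoidHom 2 : A →* A).ker => (z : A)) hxy
      exact Subtype.ext (Subtype.ext h7)
    have h8 := Subgroup.card_mul_index f.ker
    rw [Subgroup.index_ker] at h8
    rw [← h8, pow_succ, mul_comm]
    exact Nat.mul_le_mul h4 h5

/-- an abelian 2-group with at most two elements of square one is cyclic -/
theorem n9_cyc_of_tors {A : Type*} [CommGroup A] [Finite A] (hA : IsPGroup 2 A)
    (h2 : Nat.card (powMonoidHom 2 : A →* A).ker ≤ 2) : IsCyclic A := by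
  have : Fact (Nat.Prime 2) := ⟨Nat.prime_two⟩
  obtain ⟨m, hm⟩ := IsPGroup.iff_card.mp hA
  have hexp : Monoid.exponent A ∣ Nat.card A := Group.exponent_dvd_nat_card
  have hexp' : Monoid.exponent A ∣ 2 ^ m := hm ▸ hexp
  obtain ⟨e, -, hee⟩ := (Nat.dvd_prime_pow Nat.prime_two).mp hexp'
  have htop : (powMonoidHom (2 ^ e) : A →* A).ker = ⊤ := by
    rw [eq_top_iff]
    intro a _
    rw [MonoidHom.mem_ker, powMonoidHom_apply, ← hee]
    exact Monoid.pow_exponent_eq_one a
  have h1 := n9_tors_card_le h2 e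
  rw [htop, Subgroup.card_top] at h1
  apply IsCyclic.of_exponent_eq_card
  apply le_antisymm (Nat.le_of_dvd Nat.card_pos hexp)
  rw [hee]
  exact h1

/-- a noncyclic abelian 2-group of order `> 4` has a noncyclic subgroup of order 8 -/
theorem n9_exists_a8 {A : Type*} [CommGroup A] [Finite A] (hA : IsPGroup 2 A)
    (hnc : ¬ IsCyclic A) (hcard : 4 < Nat.card A) :
    ∃ B : Subgroup A, Nat.card B = 8 ∧ ¬ IsCyclic B := by
  have : Fact (Nat.Prime 2) := ⟨Nat.prime_two⟩
  have hT2 : 2 < Nat.card (powMonoidHom 2 : A →* A).ker := by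
    by_contra hc
    exact hnc (n9_cyc_of_tors hA (not_lt.mp hc))
  obtain ⟨t, ht⟩ := IsPGroup.iff_card.mp (hA.to_subgroup (powMonoidHom 2 : A →* A).ker)
  have ht2 : 2 ≤ t := by
    by_contra hc
    have h1 : t ≤ 1 := by omega
    have h2 : 2 ^ t ≤ 2 ^ 1 := Nat.pow_le_pow_right (by norm_num) h1
    omega
  have h4 : 2 ^ 2 ∣ Nat.card (powMonoidHom 2 : A →* A).ker := by
    rw [ht]
    exact pow_dvd_pow 2 ht2
  obtain ⟨V', hV'⟩ := Sylow.exists_subgroup_card_pow_prime 2 h4
  have hinj : Function.Injective ((powMonoidHom 2 : A →* A).ker.subtype) :=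
    Subgroup.subtype_injective _
  have hV4 : Nat.card (V'.map (powMonoidHom 2 : A →* A).ker.subtype) = 2 ^ 2 := by
    rw [← hV']
    exact Nat.card_congr (V'.equivMapOfInjective _ hinj).toEquiv.symm
  have hVsq : ∀ v ∈ V'.map (powMonoidHom 2 : A →* A).ker.subtype, v ^ 2 = 1 := by
    rintro _ ⟨x, -, rfl⟩
    have h1 := x.2
    rw [MonoidHom.mem_ker, powMonoidHom_apply] at h1
    exact h1
  obtain ⟨m, hm⟩ := IsPGroup.iff_card.mp hA
  have hm3 : 3 ≤ m := by
    by_contra hc
    have h1 : m ≤ 2 := by omega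
    have h2 : 2 ^ m ≤ 2 ^ 2 := Nat.pow_le_pow_right (by norm_num) h1
    omega
  have h8 : 2 ^ 3 ∣ Nat.card A := by
    rw [hm]
    exact pow_dvd_pow 2 hm3
  obtain ⟨B, hB8, hVB⟩ := Sylow.exists_subgroup_card_pow_prime_le 2 h8
    (V'.map (powMonoidHom 2 : A →* A).ker.subtype) hV4 (by norm_num)
  refine ⟨B, by rw [hB8]; norm_num, ?_⟩
  intro hcyc
  haveI := hcyc
  obtain ⟨g, hg⟩ := IsCyclic.exists_generator
    (α := ((V'.map (powMonoidHom 2 : A →* A).ker.subtype).subgroupOf B))
  have hord := orderOf_eq_card_of_forall_mem_zpowers hg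
  rw [Nat.card_congr (Subgroup.subgroupOfEquivOfLe hVB).toEquiv, hV4] at hord
  have hg2 : g ^ 2 = 1 := by
    apply Subtype.ext
    apply Subtype.ext
    have h1 := hVsq ((g : B) : A) g.2
    simpa using h1
  have h2 := orderOf_dvd_of_pow_eq_one hg2
  rw [hord] at h2
  omega

variable {G : Type*} [Group G] [Finite G]

-- A1
theorem n9_ab8 (A : Subgroup G) (hA : IsPGroup 2 A) (hab : ∀ a ∈ A, ∀ b ∈ A, a * b = b * a)
    (hN : NoA8 A) : IsCyclic A ∨ Nat.card A ≤ 4 := by
  by_contra hcon
  rw [not_or, not_le] at hcon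
  obtain ⟨hnc, hcard⟩ := hcon
  letI : CommGroup ↥A :=
    { (inferInstance : Group ↥A) with mul_comm := fun a b => Subtype.ext (hab a a.2 b b.2) }
  obtain ⟨B, hB8, hBnc⟩ := n9_exists_a8 (A := ↥A) hA hnc hcard
  apply hN
  have hle : B.map A.subtype ≤ A := by
    rintro _ ⟨x, -, rfl⟩
    exact x.2
  refine ⟨B.map A.subtype, hle, ⟨⟨fun x y => Subtype.ext (hab _ (hle x.2) _ (hle y.2))⟩⟩, ?_, ?_⟩
  · intro hc
    apply hBnc
    haveI := hc
    exact isCyclic_of_surjective
      (B.equivMapOfInjective A.subtype A.subtype_injective).symm.toMonoidHom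
      (B.equivMapOfInjective A.subtype A.subtype_injective).symm.surjective
  · rw [← hB8]
    exact Nat.card_congr (B.equivMapOfInjective A.subtype A.subtype_injective).toEquiv.symm

end Cfsg.Agent.Helper50.N9
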