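import Mathlib
import Cfsg.Agent.Helper55.N9Defs
import Cfsg.Agent.Helper50.Ord8
import Cfsg.Agent.Helper50.N9A1

/-!
# CALL S4409 (helper55), piece M5d (helper50)

A nonabelian minimal configuration of order 8 is a quaternion group: in the dihedral group of order
8 the elements of order 4 generate a characteristic subgroup of index 2.
-/

set_option autoImplicit false

namespace Cfsg.Agent.Helper50.N9

open Subgroup Cfsg.Agent.Helper55.N9

variable {G : Type*} [Group G] [Finite G]

-- M5d
theorem n9_min_q8 (T : Tools G) (K D : Subgroup G) (h : MinCfg K D) (mf : MinFacts K D)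
    (hD : IsPGroup 2 D) (hK : Odd (Nat.card K))
    (hna : ¬ ∀ a ∈ D, ∀ b ∈ D, a * b = b * a)
    (h8 : Nat.card D = 8) : IsQ8 D := by
  have hna' : ∃ a b : ↥D, a * b ≠ b * a := by
    by_contra hc
    push_neg at hc
    apply hna
    intro a ha b hb
    exact congrArg Subtype.val (hc ⟨a, ha⟩ ⟨b, hb⟩)
  rcases Cfsg.Agent.Helper50.d8_or_q8 (G := ↥D) h8 hna' with he | hq
  · exfalso
    obtain ⟨e⟩ := he
    obtain ⟨x₀, hx₀⟩ : ∃ x₀ : ↥D, e x₀ = DihedralGroup.r 1 :=
      ⟨e.symm (DihedralGroup.r 1), e.apply_symm_apply _⟩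
    have hox : orderOf x₀ = 4 := by
      rw [← MulEquiv.orderOf_eq e, hx₀, DihedralGroup.orderOf_r_one]
    have hoxG : orderOf (x₀ : G) = 4 := by
      rw [Subgroup.orderOf_coe, hox]
    have hMD : zpowers (x₀ : G) ≤ D := by
      rw [zpowers_le]
      exact x₀.2
    have hcardM : Nat.card (zpowers (x₀ : G)) = 4 := by
      rw [Nat.card_zpowers, hoxG]
    have hidx : (zpowers (x₀ : G)).relIndex D = 2 := by
      have h1 := n9_card_mul_relIndex hMD
      rw [hcardM, h8] at h1
      omega
    have hchar : ∀ g ∈ D, g ^ 2 ≠ 1 → g ∈ zpowers (x₀ : G) := by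
      intro g hg hg2
      rcases hy : e ⟨g, hg⟩ with i | i
      · have h1 : (⟨g, hg⟩ : ↥D) = x₀ ^ (i.val) := by
          apply e.injective
          rw [map_pow, hx₀, hy, DihedralGroup.r_one_pow, ZMod.natCast_zmod_val]
        have h2 : g = (x₀ : G) ^ (i.val) := by
          have h3 := congrArg Subtype.val h1
          simpa using h3
        rw [h2]
        exact pow_mem (mem_zpowers _) _
      · exfalso
        apply hg2
        have h1 : (⟨g, hg⟩ : ↥D) ^ 2 = 1 := by
          apply e.injective
          rw [map_pow, hy, map_one, pow_two, DihedralGroup.sr_mul_self]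
        have h3 := congrArg Subtype.val h1
        simpa using h3
    have hconj : ∀ k ∈ K, ∀ g ∈ zpowers (x₀ : G), k * g * k⁻¹ ∈ zpowers (x₀ : G) := by
      intro k hk g hg
      obtain ⟨n, rfl⟩ := mem_zpowers_iff.mp hg
      have h1 : k * (x₀ : G) * k⁻¹ ∈ zpowers (x₀ : G) := by
        apply hchar
        · exact (mem_normalizer_iff.mp (h.inv hk) _).mp x₀.2
        · intro h2
          rw [conj_pow] at h2
          have h3 : (x₀ : G) ^ 2 = 1 := by
            have h4 : (x₀ : G) ^ 2 = k⁻¹ * (k * (x₀ : G) ^ 2 * k⁻¹) * k := by group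
            rw [h4, h2]
            group
          have h5 := orderOf_dvd_of_pow_eq_one h3
          rw [hoxG] at h5
          omega
      rw [← conj_zpow]
      exact zpow_mem h1 n
    apply mf.noidx2 (zpowers (x₀ : G)) hMD hidx
    intro k hk
    rw [mem_normalizer_iff]
    intro g
    constructor
    · exact hconj k hk g
    · intro hg
      have h1 := hconj k⁻¹ (K.inv_mem hk) _ hg
      have h2 : k⁻¹ * (k * g * k⁻¹) * k⁻¹⁻¹ = g := by group
      rw [h2] at h1
      exact h1
  · exact hq

end Cfsg.Agent.Helper50.N9
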