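import Mathlib
import Cfsg.Agent.Helper50.LocKieler

/-!
# Subgroups are controlled by their elements of prime power order (helper50)
-/

set_option autoImplicit false

namespace Cfsg.Agent.Helper50

variable {G : Type*} [Group G]

/-- A subgroup all of whose elements of prime power order lie in `D` is contained in `D`. -/
theorem le_of_forall_prime_pow_mem [Finite G] (S D : Subgroup G)
    (h : ∀ x ∈ S, ∀ p k : ℕ, p.Prime → orderOf x = p ^ k → x ∈ D) : S ≤ D := by
  have hdvd : Nat.card ↥S ∣ Nat.card ↥(S ⊓ D) := by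
    rw [Nat.dvd_iff_prime_pow_dvd_dvd]
    intro p k hp hpk
    haveI : Fact p.Prime := ⟨hp⟩
    obtain ⟨K₀, hK₀⟩ := Sylow.exists_subgroup_card_pow_prime p hpk
    have hcard : Nat.card ↥(K₀.map S.subtype) = p ^ k := by
      rw [Subgroup.card_map_of_injective S.subtype_injective, hK₀]
    have hle : K₀.map S.subtype ≤ S ⊓ D := by
      intro x hx
      have hxS : x ∈ S := Subgroup.map_subtype_le K₀ hx
      refine ⟨hxS, ?_⟩
      have h1 : orderOf x ∣ p ^ k := by
        have := orderOf_dvd_natCard (⟨x, hx⟩ : ↥(K₀.map S.subtype))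
        rwa [hcard, ← Subgroup.orderOf_coe] at this
      obtain ⟨j, -, hj⟩ := (Nat.dvd_prime_pow hp).mp h1
      exact h x hxS p j hp hj
    rw [← hcard]
    exact Subgroup.card_dvd_of_le hle
  have heq : S ⊓ D = S :=
    Subgroup.eq_of_le_of_card_ge inf_le_left (Nat.le_of_dvd Nat.card_pos hdvd)
  rw [← heq]
  exact inf_le_right

/-- If `A ≤ C_G(T)` has index prime to `p`, every element of `p`-power order normalizing `T`
centralizes `T`. -/
theorem mem_centralizer_of_index_coprime {p : ℕ} [Fact p.Prime] {A T : Subgroup G}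
    (hidx : ¬ p ∣ A.index) (hAT : A ≤ Subgroup.centralizer (T : Set G)) {g : G}
    (hg : g ∈ Subgroup.normalizer (T : Set G)) {k : ℕ} (hk : orderOf g = p ^ k) :
    g ∈ Subgroup.centralizer (T : Set G) := by
  have hCN : Subgroup.centralizer (T : Set G) ≤ Subgroup.normalizer (T : Set G) :=
    centralizer_le_normalizer' T
  refine mem_of_orderOf_pow_of_normal hCN
    (Cfsg.Agent.Helper49.normalizer_le_normalizer_centralizer T) ?_ hg hk
  intro hd
  apply hidx
  have e1 := Subgroup.relIndex_mul_relIndex A (Subgroup.centralizer (T : Set G))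
    (Subgroup.normalizer (T : Set G)) hAT hCN
  have e2 := Subgroup.relIndex_mul_index (hAT.trans hCN)
  rw [← e2, ← e1]
  exact Dvd.dvd.mul_right (Dvd.dvd.mul_left hd _) _

end Cfsg.Agent.Helper50
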