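import Mathlib
import Cfsg.Agent.Helper50.HSub
import Cfsg.Agent.Helper50.SubnSylow
import Cfsg.Agent.Helper9.Supersolvable3
import Cfsg.Agent.Helper53.PCenter
import Cfsg.Agent.Helper70.Huppert2

/-!
# helper50: supersolvability above a normal `p`-subgroup

* `TSub p G`: the normal closure of the commutators and the `(p-1)`-th powers of `G`
  (so `G / TSub p G` is abelian of exponent dividing `p - 1`);
* `TSub_map_pow_eq_one`: a homomorphism to a commutative group of exponent dividing `(p-1) p^m` maps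
  `TSub p G` to elements of order dividing `p^m`;
* `TSub_inv_mul_conj_mem`: `TSub p G` acts trivially on `F / M` for `M ≤ F` normal in `G` with
  `|F : M| = p`;
* `TSub_commute_of_cyclic`: the `p'`-elements of `TSub p G` centralize the normal cyclic `p`-subgroups;
* `centralizes_of_max_invariant_of_trivial`, `le_centralizer_of_mem_TSub_odd`: (`p` odd) if all subgroups of
  order `p^k` (`1 ≤ k`, `p^k < |P|`) of the normal `p`-subgroup `P` are normal in `G` then the
  `p'`-elements of `TSub p G` centralize `P`;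
* `ss_of_pGroup_action_aux`: if `P, M ⊴ G`, `P` a `p`-group, `G / M` abelian of exponent dividing `p - 1`,
  `M` acts on `P` as a `p`-group and `G / P` is supersolvable, then `G` is supersolvable;
* `ss_of_normal_pSubgroup`: `P ⊴ G` a `p`-group with `G / P` supersolvable, and `P` cyclic or all
  subgroups of `P` of some order `p^k` (`1 ≤ k`, `p^k < |P|`; also of order `4` if `p^k = 2`) normal in `G`:
  then `G` is supersolvable.
-/

set_option autoImplicit false

namespace Cfsg.Agent.Helper50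

open Subgroup
open scoped commutatorElement

universe u

section

variable {G : Type u} [Group G]

/-- The normal closure of the commutators and the `(p-1)`-th powers. -/
def TSub (p : ℕ) (G : Type u) [Group G] : Subgroup G :=
  Subgroup.normalClosure {t : G | (∃ g h : G, t = ⁅g, h⁆) ∨ ∃ g : G, t = g ^ (p - 1)}

instance TSub_normal (p : ℕ) : (TSub p G).Normal := Subgroup.normalClosure_normal

theorem commutator_mem_TSub (p : ℕ) (g h : G) : ⁅g, h⁆ ∈ TSub p G :=
  Subgroup.subset_normalClosure (Or.inl ⟨g, h, rfl⟩)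

theorem pow_pred_mem_TSub (p : ℕ) (g : G) : g ^ (p - 1) ∈ TSub p G :=
  Subgroup.subset_normalClosure (Or.inr ⟨g, rfl⟩)

/-- A homomorphism to a commutative group of exponent dividing `(p-1) p^m` maps `TSub p G` to elements
of order dividing `p^m`. -/
theorem TSub_map_pow_eq_one {p : ℕ} {A : Type*} [Group A] (ψ : G →* A)
    (hcomm : ∀ a b : A, a * b = b * a) (m : ℕ) (hexp : ∀ a : A, a ^ ((p - 1) * p ^ m) = 1) {t : G}
    (ht : t ∈ TSub p G) : ψ t ^ (p ^ m) = 1 := by
  let K : Subgroup G :=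
    { carrier := {x | ψ x ^ (p ^ m) = 1}
      mul_mem' := by
        intro a b ha hb
        show ψ (a * b) ^ (p ^ m) = 1
        have ha' : ψ a ^ (p ^ m) = 1 := ha
        have hb' : ψ b ^ (p ^ m) = 1 := hb
        rw [map_mul, (show Commute (ψ a) (ψ b) from hcomm _ _).mul_pow, ha', hb', one_mul]
      one_mem' := by
        show ψ 1 ^ (p ^ m) = 1
        rw [map_one, one_pow]
      inv_mem' := by
        intro a ha
        show ψ a⁻¹ ^ (p ^ m) = 1
        have ha' : ψ a ^ (p ^ m) = 1 := ha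
        rw [map_inv, inv_pow, ha', inv_one] }
  have hKn : K.Normal := ⟨fun x hx g => by
    show ψ (g * x * g⁻¹) ^ (p ^ m) = 1
    have h1 : ψ (g * x * g⁻¹) = ψ x := by
      rw [map_mul, map_mul, map_inv, hcomm (ψ g) (ψ x)]; group
    rw [h1]; exact hx⟩
  have hS : {t : G | (∃ g h : G, t = ⁅g, h⁆) ∨ ∃ g : G, t = g ^ (p - 1)} ⊆ K := by
    rintro t (⟨g, h, rfl⟩ | ⟨g, rfl⟩)
    · show ψ ⁅g, h⁆ ^ (p ^ m) = 1
      have h1 : ψ ⁅g, h⁆ = 1 := by
        rw [map_commutatorElement, commutatorElement_def, hcomm (ψ g) (ψ h)]; group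
      rw [h1, one_pow]
    · show ψ (g ^ (p - 1)) ^ (p ^ m) = 1
      rw [map_pow, ← pow_mul]; exact hexp _
  exact (Subgroup.normalClosure_le_normal hS) ht

variable [Finite G]

/-- `TSub p G` acts trivially on `F / M` for `M ≤ F` normal in `G` with `|F : M| = p`. -/
theorem TSub_inv_mul_conj_mem {p : ℕ} [hp : Fact p.Prime] (F M : Subgroup G) [F.Normal] [M.Normal]
    (hMF : M ≤ F) (hcard : Nat.card F = p * Nat.card M) {t : G} (ht : t ∈ TSub p G) :
    ∀ x ∈ F, x⁻¹ * (t * x * t⁻¹) ∈ M := by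
  let f := QuotientGroup.mk' M
  have hFn : (F.map f).Normal :=
    Subgroup.Normal.map inferInstance f (QuotientGroup.mk'_surjective M)
  have hcardF : Nat.card (F.map f) = p := by
    have h1 := card_map_mul_card_inf_ker f F
    rw [QuotientGroup.ker_mk', inf_eq_right.mpr hMF, hcard] at h1
    exact Nat.eq_of_mul_eq_mul_right Nat.card_pos h1
  have : IsCyclic (F.map f) := isCyclic_of_prime_card hcardF
  let ψ : G →* MulAut (F.map f) := (MulAut.conjNormal).comp f
  have hcomm : ∀ a b : MulAut (F.map f), a * b = b * a := fun a b =>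
    (IsCyclic.mulAutMulEquiv (F.map f)).injective (by rw [map_mul, map_mul, mul_comm])
  have hexp : ∀ a : MulAut (F.map f), a ^ ((p - 1) * p ^ 0) = 1 := by
    intro a
    rw [pow_zero, mul_one]
    have h1 := orderOf_dvd_natCard a
    rw [IsCyclic.card_mulAut, hcardF, Nat.totient_prime hp.out] at h1
    exact orderOf_dvd_iff_pow_eq_one.mp h1
  have h1 := TSub_map_pow_eq_one ψ hcomm 0 hexp ht
  rw [pow_zero, pow_one] at h1
  intro x hx
  have h2 : ψ t ⟨f x, Subgroup.mem_map_of_mem f hx⟩ = ⟨f x, Subgroup.mem_map_of_mem f hx⟩ := by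
    rw [h1]; rfl
  have h3 : f t * f x * (f t)⁻¹ = f x := congrArg Subtype.val h2
  rw [← QuotientGroup.eq_one_iff]
  show f (x⁻¹ * (t * x * t⁻¹)) = 1
  rw [map_mul, map_inv, map_mul, map_mul, map_inv, h3]
  group

/-- The `p'`-elements of `TSub p G` centralize the normal cyclic `p`-subgroups. -/
theorem TSub_commute_of_cyclic {p : ℕ} [hp : Fact p.Prime] (C : Subgroup G) [C.Normal]
    (hC : IsPGroup p C) (hcyc : IsCyclic C) {t : G} (ht : t ∈ TSub p G)
    (hcop : (orderOf t).Coprime p) : ∀ x ∈ C, t * x = x * t := by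
  obtain ⟨m, hm⟩ := IsPGroup.iff_card.mp hC
  let ψ : G →* MulAut C := MulAut.conjNormal
  have hcomm : ∀ a b : MulAut C, a * b = b * a := fun a b =>
    (IsCyclic.mulAutMulEquiv C).injective (by rw [map_mul, map_mul, mul_comm])
  have hexp : ∀ a : MulAut C, a ^ ((p - 1) * p ^ m) = 1 := by
    intro a
    have h1 := orderOf_dvd_natCard a
    rw [IsCyclic.card_mulAut, hm] at h1
    apply orderOf_dvd_iff_pow_eq_one.mp
    refine h1.trans ?_
    rcases Nat.eq_zero_or_pos m with h0 | h0
    · rw [h0, pow_zero, Nat.totient_one]; exact one_dvd _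
    · rw [Nat.totient_prime_pow hp.out h0, mul_comm (p ^ (m - 1))]
      exact Nat.mul_dvd_mul_left _ (pow_dvd_pow p (Nat.sub_le m 1))
  have h1 := TSub_map_pow_eq_one ψ hcomm m hexp ht
  have h2 : ψ t ^ orderOf t = 1 := by rw [← map_pow, pow_orderOf_eq_one, map_one]
  have h3 : ψ t = 1 := by
    have hd1 : orderOf (ψ t) ∣ p ^ m := orderOf_dvd_of_pow_eq_one h1
    have hd2 : orderOf (ψ t) ∣ orderOf t := orderOf_dvd_of_pow_eq_one h2
    exact orderOf_eq_one_iff.mp (Nat.eq_one_of_dvd_coprimes (Nat.Coprime.pow_right m hcop) hd2 hd1)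
  intro x hx
  have h4 : ψ t ⟨x, hx⟩ = ⟨x, hx⟩ := by rw [h3]; rfl
  have h5 : t * x * t⁻¹ = x := congrArg Subtype.val h4
  calc t * x = t * x * t⁻¹ * t := by group
    _ = x * t := by rw [h5]

/-- A `p'`-element `a` normalizing all subgroups `M` of order `p^k` of a group `F` of order `p^(k+1)`
and acting trivially on each `F / M` centralizes `F`. -/
theorem centralizes_of_max_invariant_of_trivial {p : ℕ} [hp : Fact p.Prime] (F : Subgroup G) (a : G)
    (k : ℕ) (hF : Nat.card F = p ^ (k + 1)) (hcop1 : (orderOf a).Coprime p)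
    (hM : ∀ M : Subgroup G, M ≤ F → Nat.card M = p ^ k → a ∈ normalizer (M : Set G) ∧
      ∀ x ∈ F, ∀ b ∈ zpowers a, x⁻¹ * b * x * b⁻¹ ∈ M) :
    F ≤ centralizer (zpowers a : Set G) := by
  by_contra hnot
  have hCF : F ⊓ centralizer (zpowers a : Set G) ≤ F := inf_le_left
  have hCne : F ⊓ centralizer (zpowers a : Set G) ≠ F := by
    intro h
    exact hnot (h ▸ inf_le_right)
  have hCdvd : Nat.card (F ⊓ centralizer (zpowers a : Set G) : Subgroup G) ∣ p ^ (k + 1) := by
    rw [← hF]; exact card_dvd_of_le hCF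
  obtain ⟨j, hj, hCj⟩ := (Nat.dvd_prime_pow hp.out).mp hCdvd
  have hjk : j ≤ k := by
    by_contra hjk
    have : j = k + 1 := by omega
    rw [this] at hCj
    exact hCne (eq_of_le_of_card_ge hCF (by rw [hCj, hF]))
  obtain ⟨M, hMcard, hCM, hMF⟩ := Cfsg.Agent.S3803.exists_between p F _ hCF hCj hjk
    (by rw [hF]; exact pow_dvd_pow p (Nat.le_succ k))
  obtain ⟨x, hxF, hxM⟩ : ∃ x ∈ F, x ∉ M := by
    by_contra hcon
    push Not at hcon
    have h1 : Nat.card F ≤ Nat.card M := card_le_of_le hcon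
    rw [hF, hMcard] at h1
    have : p ^ k < p ^ (k + 1) := Nat.pow_lt_pow_right hp.out.one_lt (Nat.lt_succ_self k)
    omega
  obtain ⟨haM, htriv⟩ := hM M hMF hMcard
  have hAM : zpowers a ≤ normalizer (M : Set G) := by rw [zpowers_le]; exact haM
  have hx : ∀ b ∈ zpowers a, x⁻¹ * b * x * b⁻¹ ∈ M := fun b hb => htriv x hxF b hb
  have hcop : (Nat.card (zpowers a)).Coprime (Nat.card M) := by
    rw [hMcard, Nat.card_zpowers]; exact Nat.Coprime.pow_right k hcop1
  have hMp : IsPGroup p M := IsPGroup.of_card hMcard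
  have hMnil : Group.IsNilpotent M := hMp.isNilpotent
  have hsolv : Group.IsSolvable (zpowers a) ∨ Group.IsSolvable M := Or.inr inferInstance
  obtain ⟨c, hc, hcM⟩ := Cfsg.Agent.Helper35.exists_fixed_in_coset hAM hcop hsolv x hx
  have hcF : c ∈ F := by
    have : c = x * (x⁻¹ * c) := by group
    rw [this]
    exact F.mul_mem hxF (hMF hcM)
  have hcM' : c ∈ M := hCM ⟨hcF, hc⟩
  apply hxM
  have : x = c * (x⁻¹ * c)⁻¹ := by group
  rw [this]
  exact M.mul_mem hcM' (M.inv_mem hcM)

/-- For odd `p`: if all subgroups of order `p^k` (`1 ≤ k`, `p^k < |P|`) of the normal `p`-subgroup `P`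
are normal in `G`, then the `p'`-elements of `TSub p G` centralize `P`. -/
theorem le_centralizer_of_mem_TSub_odd {p : ℕ} [hp : Fact p.Prime] (hp2 : p ≠ 2) (P : Subgroup G)
    [P.Normal] (hP : IsPGroup p P) (k : ℕ) (hk1 : 1 ≤ k) (hkP : p ^ k < Nat.card P)
    (hnorm : ∀ F : Subgroup G, F ≤ P → Nat.card F = p ^ k → F.Normal) {a : G}
    (ha : a ∈ TSub p G) (hcop : (orderOf a).Coprime p) :
    P ≤ centralizer (zpowers a : Set G) := by
  obtain ⟨n, hn⟩ := IsPGroup.iff_card.mp hP
  have hkn : k < n := by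
    rw [hn] at hkP
    exact (Nat.pow_lt_pow_iff_right hp.out.one_lt).mp hkP
  have hAcop : (Nat.card (zpowers a)).Coprime p := by rw [Nat.card_zpowers]; exact hcop
  have hAP : zpowers a ≤ normalizer (P : Set G) := by rw [normalizer_eq_top]; exact le_top
  have hAT : zpowers a ≤ TSub p G := by rw [zpowers_le]; exact ha
  apply Cfsg.Agent.Helper24.le_centralizer_of_odd_of_centralizes_omega hp2 (zpowers a) hAcop
    (Nat.card P) P le_rfl hP hAP
  intro x hx hxp b hb
  have hbcop : (orderOf b).Coprime p :=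
    Nat.Coprime.coprime_dvd_left (orderOf_dvd_of_mem_zpowers hb) hcop
  have hYQ : zpowers x ≤ P := by rw [zpowers_le]; exact hx
  have hYdvd : orderOf x ∣ p ^ 1 := orderOf_dvd_of_pow_eq_one (by rw [pow_one]; exact hxp)
  obtain ⟨j, hj1, hj⟩ := (Nat.dvd_prime_pow hp.out).mp hYdvd
  have hYcard : Nat.card (zpowers x) = p ^ j := by rw [Nat.card_zpowers, hj]
  obtain ⟨M, hMcard, hYM, hMQ⟩ := Cfsg.Agent.S3803.exists_between p P _ hYQ hYcard
    (le_trans hj1 hk1) (by rw [hn]; exact pow_dvd_pow p hkn.le)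
  obtain ⟨E, hEcard, hME, hEQ⟩ : ∃ E : Subgroup G, Nat.card E = p ^ (k + 1) ∧ M ≤ E ∧ E ≤ P :=
    Cfsg.Agent.S3803.exists_between p P _ hMQ hMcard
      (Nat.le_succ k) (by rw [hn]; exact pow_dvd_pow p hkn)
  have hMn : M.Normal := hnorm M hMQ hMcard
  obtain ⟨y, hyE, hyM⟩ : ∃ y ∈ E, y ∉ M := by
    by_contra hcon
    push Not at hcon
    have h1 : Nat.card E ≤ Nat.card M := card_le_of_le hcon
    rw [hEcard, hMcard] at h1
    have : p ^ k < p ^ (k + 1) := Nat.pow_lt_pow_right hp.out.one_lt (Nat.lt_succ_self k)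
    omega
  have hZE : zpowers y ≤ E := by rw [zpowers_le]; exact hyE
  have hZdvd : Nat.card (zpowers y) ∣ p ^ (k + 1) := by
    rw [← hEcard]; exact card_dvd_of_le hZE
  obtain ⟨i, hi, hZcard⟩ := (Nat.dvd_prime_pow hp.out).mp hZdvd
  by_cases hik : i ≤ k
  · obtain ⟨M', hM'card, hZM', hM'E⟩ := Cfsg.Agent.S3803.exists_between p E _ hZE hZcard hik
      (by rw [hEcard]; exact pow_dvd_pow p (Nat.le_succ k))
    have hM'n : M'.Normal := hnorm M' (hM'E.trans hEQ) hM'card
    have hsupE : M ⊔ M' = E := by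
      have hle : M ⊔ M' ≤ E := sup_le hME hM'E
      have hlt : M < M ⊔ M' := by
        refine lt_of_le_of_ne le_sup_left (fun h => hyM ?_)
        rw [h]
        exact mem_sup_right (hZM' (mem_zpowers y))
      have h1 := Cfsg.Agent.Helper24.card_lt_card_of_lt hlt
      have hdvd : Nat.card (M ⊔ M' : Subgroup G) ∣ p ^ (k + 1) := by
        rw [← hEcard]; exact card_dvd_of_le hle
      obtain ⟨t, ht, htc⟩ := (Nat.dvd_prime_pow hp.out).mp hdvd
      rw [hMcard, htc] at h1
      have htk : k < t := (Nat.pow_lt_pow_iff_right hp.out.one_lt).mp h1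
      have ht' : t = k + 1 := by omega
      exact eq_of_le_of_card_ge hle (by rw [hEcard, htc, ht'])
    have hEn : E.Normal := by rw [← hsupE]; infer_instance
    have hEc : E ≤ centralizer (zpowers a : Set G) := by
      apply centralizes_of_max_invariant_of_trivial E a k hEcard hcop
      intro M0 hM0E hM0
      have hM0n : M0.Normal := hnorm M0 (hM0E.trans hEQ) hM0
      refine ⟨by rw [normalizer_eq_top]; exact mem_top a, ?_⟩
      intro z hz c hc
      have h1 := TSub_inv_mul_conj_mem E M0 hM0E (by rw [hEcard, hM0, pow_succ, mul_comm])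
        (hAT hc) z hz
      have h2 : z⁻¹ * c * z * c⁻¹ = z⁻¹ * (c * z * c⁻¹) := by group
      rw [h2]
      exact h1
    exact mem_centralizer_iff.mp (hEc (hME (hYM (mem_zpowers x)))) b hb
  · have hi' : i = k + 1 := by omega
    have hZeq : zpowers y = E :=
      eq_of_le_of_card_ge hZE (by rw [hEcard, hZcard, hi'])
    have hEcyc : IsCyclic ↥E := (Subgroup.isCyclic_iff_exists_zpowers_eq_top E).mpr ⟨y, hZeq⟩
    have hMcyc : IsCyclic ↥M := isCyclic_of_le hME
    exact TSub_commute_of_cyclic M (IsPGroup.of_card hMcard) hMcyc (hAT hb) hbcop x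
      (hYM (mem_zpowers x))

end

/-- Let `P, M ⊴ G` with `P` a `p`-group, `G / M` abelian of exponent dividing `p - 1`, `M` acting on `P` as a
`p`-group, and `G / P` supersolvable. Then `G` is supersolvable. -/
theorem ss_of_pGroup_action_aux (p : ℕ) [hp : Fact p.Prime] (n : ℕ) :
    ∀ (G : Type u) [Group G] [Finite G] (P M : Subgroup G) [P.Normal] [M.Normal],
      Nat.card P ≤ n → IsPGroup p P → (∀ g h : G, ⁅g, h⁆ ∈ M) → (∀ g : G, g ^ (p - 1) ∈ M) →
      (∀ m ∈ M, ∃ j : ℕ, ∀ x ∈ P, m ^ (p ^ j) * x = x * m ^ (p ^ j)) →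
      Cfsg.IsSupersolvable (G ⧸ P) → Cfsg.IsSupersolvable G := by
  induction n with
  | zero =>
    intro G _ _ P M _ _ hcard
    exact absurd hcard (by have := Nat.card_pos (α := P); omega)
  | succ n ih =>
    intro G _ _ P M hPn hMn hcard hP hcomm hpow hM hss
    by_cases hPbot : P = ⊥
    · subst hPbot
      exact Helper9.ss_of_mulEquiv QuotientGroup.quotientBot hss
    -- `Ω₁(Z(P))`
    let Ω : Subgroup G :=
      { carrier := {x | x ∈ P ∧ (∀ y ∈ P, x * y = y * x) ∧ x ^ p = 1}
        mul_mem' := by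
          rintro a b ⟨ha, hac, hap⟩ ⟨hb, hbc, hbp⟩
          refine ⟨P.mul_mem ha hb, fun y hy => ?_, ?_⟩
          · rw [mul_assoc, hbc y hy, ← mul_assoc, hac y hy, mul_assoc]
          · rw [(show Commute a b from hac b hb).mul_pow, hap, hbp, one_mul]
        one_mem' := ⟨P.one_mem, fun y _ => by rw [one_mul, mul_one], one_pow p⟩
        inv_mem' := by
          rintro a ⟨ha, hac, hap⟩
          refine ⟨P.inv_mem ha, fun y hy => ?_, by rw [inv_pow, hap, inv_one]⟩
          have h1 := hac y hy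
          calc a⁻¹ * y = a⁻¹ * (y * a) * a⁻¹ := by group
            _ = a⁻¹ * (a * y) * a⁻¹ := by rw [h1]
            _ = y * a⁻¹ := by group }
    have hΩn : Ω.Normal := by
      refine ⟨fun x hx g => ?_⟩
      obtain ⟨hxP, hxc, hxp⟩ := hx
      refine ⟨hPn.conj_mem x hxP g, fun y hy => ?_, by rw [conj_pow, hxp]; group⟩
      have h0 : g⁻¹ * y * g ∈ P := by simpa using hPn.conj_mem y hy g⁻¹
      have h1 := hxc (g⁻¹ * y * g) h0
      calc g * x * g⁻¹ * y = g * (x * (g⁻¹ * y * g)) * g⁻¹ := by group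
        _ = g * ((g⁻¹ * y * g) * x) * g⁻¹ := by rw [h1]
        _ = y * (g * x * g⁻¹) := by group
    have hΩP : Ω ≤ P := fun x hx => hx.1
    have hΩbot : Ω ≠ ⊥ := by
      obtain ⟨z, hzP, hz1, hzc⟩ :=
        Helper53.exists_central_of_normalized hP le_rfl le_normalizer hPbot
      obtain ⟨j, hj⟩ := (Nat.dvd_prime_pow hp.out).mp
        (show orderOf z ∣ p ^ (Nat.card P).factorization p by
          obtain ⟨e, he⟩ := IsPGroup.iff_card.mp hP
          have h1 : orderOf (⟨z, hzP⟩ : P) ∣ Nat.card P := orderOf_dvd_natCard _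
          rw [Subgroup.orderOf_mk] at h1
          rw [he, Nat.Prime.factorization_pow hp.out, Finsupp.single_eq_same]
          rwa [he] at h1)
      have hpz : p ∣ orderOf z := by
        rw [hj.2]
        apply dvd_pow_self
        intro h0
        rw [h0, pow_zero] at hj
        exact hz1 (orderOf_eq_one_iff.mp hj.2)
      have ho : orderOf (z ^ (orderOf z / p)) = p :=
        orderOf_pow_orderOf_div (orderOf_pos z).ne' hpz
      intro hbot
      have hmem : z ^ (orderOf z / p) ∈ Ω := by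
        refine ⟨P.pow_mem hzP _, fun y hy => ?_, ?_⟩
        · exact ((show Commute z y from (hzc y hy).symm).pow_left _).eq
        · have h5 := pow_orderOf_eq_one (z ^ (orderOf z / p))
          rwa [ho] at h5
      rw [hbot, Subgroup.mem_bot] at hmem
      rw [hmem, orderOf_one] at ho
      exact hp.out.one_lt.ne ho
    -- a minimal normal subgroup `N` of `G` inside `Ω`
    have hfin : {N : Subgroup G | N.Normal ∧ N ≠ ⊥ ∧ N ≤ Ω}.Finite := Set.toFinite _
    obtain ⟨N, ⟨hNn, hNbot, hNΩ⟩, hNmin⟩ := Set.exists_min_image _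
      (fun N : Subgroup G => Nat.card N) hfin ⟨Ω, hΩn, hΩbot, le_rfl⟩
    have hNeq : ∀ N' : Subgroup G, N'.Normal → N' ≠ ⊥ → N' ≤ N → N' = N := fun N' h1 h2 h3 =>
      eq_of_le_of_card_ge h3 (hNmin N' ⟨h1, h2, h3.trans hNΩ⟩)
    have hNP : N ≤ P := hNΩ.trans hΩP
    have hNc : ∀ x ∈ N, ∀ y ∈ N, x * y = y * x := fun x hx y hy => (hNΩ hx).2.1 y (hNP hy)
    have hNp : ∀ x ∈ N, x ^ p = 1 := fun x hx => (hNΩ hx).2.2
    -- `M` centralizes `N`
    have hMN : ∀ m ∈ M, ∀ v ∈ N, m * v = v * m := by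
      let I : Subgroup (MulAut N) := M.map (MulAut.conjNormal : G →* MulAut N)
      have hI : IsPGroup p I := by
        rintro ⟨i, hi⟩
        obtain ⟨m, hm, rfl⟩ := hi
        obtain ⟨j, hj⟩ := hM m hm
        refine ⟨j, Subtype.ext ?_⟩
        show (MulAut.conjNormal m : MulAut N) ^ (p ^ j) = 1
        rw [← map_pow]
        ext v
        rw [MulAut.conjNormal_apply, hj v (hNP v.2)]
        simp
      have hpN : p ∣ Nat.card N := by
        obtain ⟨j, hj⟩ := IsPGroup.iff_card.mp (hP.to_le hNP)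
        rcases Nat.eq_zero_or_pos j with h0 | h0
        · rw [h0, pow_zero] at hj
          exact absurd (Subgroup.card_eq_one.mp hj) hNbot
        · rw [hj]; exact dvd_pow_self p h0.ne'
      have h1 : (1 : N) ∈ MulAction.fixedPoints I N := by
        intro i
        show (i : MulAut N) 1 = 1
        exact map_one _
      obtain ⟨b, hb, hb1⟩ := hI.exists_fixed_point_of_prime_dvd_card_of_fixed_point N hpN h1
      have hN₀n : (N ⊓ centralizer (M : Set G)).Normal := inferInstance
      have hN₀bot : N ⊓ centralizer (M : Set G) ≠ ⊥ := by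
        intro h
        have hbm : (b : G) ∈ N ⊓ centralizer (M : Set G) := by
          refine ⟨b.2, mem_centralizer_iff.mpr ?_⟩
          intro m hm
          have h2 := hb ⟨MulAut.conjNormal m, Subgroup.mem_map_of_mem _ hm⟩
          have h3 : m * (b : G) * m⁻¹ = b := congrArg Subtype.val h2
          calc m * (b : G) = m * b * m⁻¹ * m := by group
            _ = b * m := by rw [h3]
        rw [h, Subgroup.mem_bot] at hbm
        exact hb1 (Subtype.ext hbm.symm)
      have h3 := hNeq _ hN₀n hN₀bot inf_le_left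
      intro m hm v hv
      have hv' : v ∈ N ⊓ centralizer (M : Set G) := by rw [h3]; exact hv
      exact mem_centralizer_iff.mp hv'.2 m hm
    -- every element acts on `N` as a power map
    have hscal : ∀ g : G, ∃ c : ℕ, ∀ v ∈ N, g * v * g⁻¹ = v ^ c := by
      intro g
      obtain ⟨w, hwN, hw1, c, hc⟩ := Helper70.exists_eigen_conj p N hNc hNp hNbot g
        (fun v hv => hMN _ (hpow g) v hv)
      refine ⟨c, ?_⟩
      let W : Subgroup G :=
        { carrier := {v | v ∈ N ∧ g * v * g⁻¹ = v ^ c}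
          mul_mem' := by
            rintro u v ⟨hu, huc⟩ ⟨hv, hvc⟩
            refine ⟨N.mul_mem hu hv, ?_⟩
            rw [(show Commute u v from hNc u hu v hv).mul_pow, ← huc, ← hvc]; group
          one_mem' := ⟨N.one_mem, by simp⟩
          inv_mem' := by
            rintro u ⟨hu, huc⟩
            refine ⟨N.inv_mem hu, ?_⟩
            rw [inv_pow, ← huc]; group }
      have hWn : W.Normal := by
        refine ⟨fun v hv h => ?_⟩
        obtain ⟨hvN, hvc⟩ := hv
        refine ⟨hNn.conj_mem v hvN h, ?_⟩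
        have hcm : ⁅g⁻¹, h⁻¹⁆ * v = v * ⁅g⁻¹, h⁻¹⁆ := hMN _ (hcomm _ _) v hvN
        have h1 : g * (h * v * h⁻¹) * g⁻¹ =
            h * (g * (⁅g⁻¹, h⁻¹⁆ * v * ⁅g⁻¹, h⁻¹⁆⁻¹) * g⁻¹) * h⁻¹ := by
          rw [commutatorElement_def]; group
        show g * (h * v * h⁻¹) * g⁻¹ = (h * v * h⁻¹) ^ c
        rw [h1, hcm, mul_inv_cancel_right, hvc, conj_pow]
      have hWbot : W ≠ ⊥ := by
        intro h
        have hwW : w ∈ W := ⟨hwN, hc⟩
        rw [h, Subgroup.mem_bot] at hwW
        exact hw1 hwW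
      have hWN : W = N := hNeq W hWn hWbot (fun v hv => hv.1)
      intro v hv
      have hvW : v ∈ W := hWN ▸ hv
      exact hvW.2
    -- a normal cyclic subgroup `L ≤ P`
    obtain ⟨w₀, hw₀N, hw₀1⟩ : ∃ w ∈ N, w ≠ 1 := by
      by_contra hcon
      push Not at hcon
      exact hNbot ((Subgroup.eq_bot_iff_forall N).mpr hcon)
    have hLn : (zpowers w₀).Normal := Helper9.zpowers_normal_of_conj_mem w₀ (fun g => by
      obtain ⟨c, hc⟩ := hscal g
      rw [hc w₀ hw₀N]
      exact Subgroup.pow_mem _ (mem_zpowers w₀) c)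
    have hLP : zpowers w₀ ≤ P := by rw [zpowers_le]; exact hNP hw₀N
    have hLcard : 1 < Nat.card (zpowers w₀) := by
      rw [Nat.card_zpowers]
      have h0 : 0 < orderOf w₀ := orderOf_pos w₀
      have h1 : orderOf w₀ ≠ 1 := fun h => hw₀1 (orderOf_eq_one_iff.mp h)
      omega
    -- pass to the quotient
    have hfs : Function.Surjective (QuotientGroup.mk' (zpowers w₀)) :=
      QuotientGroup.mk'_surjective _
    have hP'n : (P.map (QuotientGroup.mk' (zpowers w₀))).Normal := Subgroup.Normal.map hPn _ hfs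
    have hM'n : (M.map (QuotientGroup.mk' (zpowers w₀))).Normal := Subgroup.Normal.map hMn _ hfs
    have hcard' : Nat.card (P.map (QuotientGroup.mk' (zpowers w₀))) ≤ n := by
      have h1 := card_map_mul_card_inf_ker (QuotientGroup.mk' (zpowers w₀)) P
      rw [QuotientGroup.ker_mk', inf_eq_right.mpr hLP] at h1
      have h2 : 0 < Nat.card (P.map (QuotientGroup.mk' (zpowers w₀))) := Nat.card_pos
      nlinarith
    have hss' : Cfsg.IsSupersolvable ((G ⧸ zpowers w₀) ⧸ P.map (QuotientGroup.mk' (zpowers w₀))) :=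
      Helper9.ss_of_mulEquiv (QuotientGroup.quotientQuotientEquivQuotient (zpowers w₀) P hLP).symm hss
    have hGL : Cfsg.IsSupersolvable (G ⧸ zpowers w₀) := by
      refine ih (G ⧸ zpowers w₀) (P.map (QuotientGroup.mk' (zpowers w₀)))
        (M.map (QuotientGroup.mk' (zpowers w₀))) hcard' (hP.map _) ?_ ?_ ?_ hss'
      · intro g' h'
        obtain ⟨g, rfl⟩ := hfs g'
        obtain ⟨h, rfl⟩ := hfs h'
        rw [← map_commutatorElement]
        exact Subgroup.mem_map_of_mem _ (hcomm g h)
      · intro g'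
        obtain ⟨g, rfl⟩ := hfs g'
        rw [← map_pow]
        exact Subgroup.mem_map_of_mem _ (hpow g)
      · rintro m' ⟨m, hm, rfl⟩
        obtain ⟨j, hj⟩ := hM m hm
        refine ⟨j, ?_⟩
        rintro x' ⟨x, hx, rfl⟩
        rw [← map_pow, ← map_mul, ← map_mul, hj x hx]
    exact Helper9.ss_of_cyclic_of_quotient (zpowers w₀) hGL

/-- Let `P ⊴ G` be a `p`-group with `G / P` supersolvable. If `P` is cyclic, or all subgroups of `P` of
some order `p^k` with `1 ≤ k` and `p^k < |P|` (and also those of order `4` if `p^k = 2`) are normal in `G`,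
then `G` is supersolvable. -/
theorem ss_of_normal_pSubgroup {G : Type u} [Group G] [Finite G] (p : ℕ) [hp : Fact p.Prime]
    (P : Subgroup G) [P.Normal] (hP : IsPGroup p P) (hss : Cfsg.IsSupersolvable (G ⧸ P))
    (h : IsCyclic P ∨ ∃ k : ℕ, 1 ≤ k ∧ p ^ k < Nat.card P ∧ ∀ F : Subgroup G, F ≤ P →
      (Nat.card F = p ^ k ∨ (p ^ k = 2 ∧ Nat.card F = 4)) → F.Normal) :
    Cfsg.IsSupersolvable G := by
  rcases h with hcyc | ⟨k, hk1, hkP, hnorm⟩
  · exact Helper9.ss_of_cyclic_of_quotient P hss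
  · refine ss_of_pGroup_action_aux p (Nat.card P) G P (TSub p G) le_rfl hP (commutator_mem_TSub p)
      (pow_pred_mem_TSub p) ?_ hss
    intro t ht
    refine ⟨(orderOf t).factorization p, ?_⟩
    have haT : t ^ (p ^ (orderOf t).factorization p) ∈ TSub p G := Subgroup.pow_mem _ ht _
    have hacop : (orderOf (t ^ (p ^ (orderOf t).factorization p))).Coprime p := by
      have h0 : orderOf t ≠ 0 := (orderOf_pos t).ne'
      rw [orderOf_pow_of_dvd (pow_pos hp.out.pos _).ne' (Nat.ordProj_dvd _ _)]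
      exact (Nat.coprime_ordCompl hp.out h0).symm
    have hcen : P ≤ centralizer (zpowers (t ^ (p ^ (orderOf t).factorization p)) : Set G) := by
      by_cases hp2 : p = 2
      · subst hp2
        obtain ⟨n, hn⟩ := IsPGroup.iff_card.mp hP
        have hkn : k < n := by
          rw [hn] at hkP
          exact (Nat.pow_lt_pow_iff_right (by norm_num)).mp hkP
        obtain ⟨D, hDcard, -, hDP⟩ : ∃ D : Subgroup G, Nat.card D = 2 ^ k ∧
            (⊥ : Subgroup G) ≤ D ∧ D ≤ P :=
          Cfsg.Agent.S3803.exists_between 2 P ⊥ bot_le (n := 0) (by simp) (Nat.zero_le k)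
            (by rw [hn]; exact pow_dvd_pow 2 hkn.le)
        refine centralizes_of_normalizes_card P D _ hP hacop (by simp)
          (by rw [normalizer_eq_top]; exact mem_top _) hDP
          (by rw [hDcard]; exact Nat.one_lt_two_pow (by omega)) (by rw [hDcard]; exact hkP) ?_
        intro E hE hc
        have hEn : E.Normal := hnorm E hE (by rw [hDcard] at hc; exact hc)
        rw [normalizer_eq_top]; exact mem_top _
      · exact le_centralizer_of_mem_TSub_odd hp2 P hP k hk1 hkP
          (fun F hF hc => hnorm F hF (Or.inl hc)) haT hacop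
    intro x hx
    exact mem_centralizer_iff.mp (hcen hx) _ (mem_zpowers _)

end Cfsg.Agent.Helper50
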