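import Mathlib
import Cfsg.Prelude.Def_LieRecognition
import Cfsg.Agent.Helper50.SqIso

/-!
# The Suzuki 2-group of type A as a central extension with squaring map `a ↦ a * φ a`
-/

set_option autoImplicit false

namespace Cfsg.Agent.Helper50

section TypeA

variable {F : Type*} [Field F] (φ : F →+* F)

/-- The matrix with rows `(1,0,0)`, `(a,1,0)`, `(y, φ a, 1)`. -/
def suzMat (a y : F) : Matrix (Fin 3) (Fin 3) F := !![1, 0, 0; a, 1, 0; y, φ a, 1]

theorem suzMat_mul (a y a' y' : F) :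
    suzMat φ a y * suzMat φ a' y' = suzMat φ (a + a') (y + y' + φ a * a') := by
  unfold suzMat
  rw [Matrix.mul_fin_three]
  simp only [map_add]
  congr 1
  ring_nf

theorem suzMat_det (a y : F) : (suzMat φ a y).det = 1 := by
  unfold suzMat
  rw [Matrix.det_fin_three]
  simp

theorem suzMat_zero : suzMat φ 0 0 = 1 := by
  unfold suzMat
  rw [Matrix.one_fin_three, map_zero]

/-- The element `u(a, y)` of `GL₃(F)`. -/
noncomputable def suzU (a y : F) : GL (Fin 3) F :=
  Matrix.GeneralLinearGroup.mkOfDetNeZero (suzMat φ a y) (by rw [suzMat_det]; exact one_ne_zero)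

theorem suzU_val (a y : F) : ((suzU φ a y : GL (Fin 3) F) : Matrix (Fin 3) (Fin 3) F) = suzMat φ a y :=
  rfl

theorem suzU_mul (a y a' y' : F) :
    suzU φ a y * suzU φ a' y' = suzU φ (a + a') (y + y' + φ a * a') := by
  apply Units.ext
  rw [Units.val_mul, suzU_val, suzU_val, suzU_val, suzMat_mul]

theorem suzU_zero : suzU φ 0 0 = 1 := by
  apply Units.ext
  rw [suzU_val, suzMat_zero]
  rfl

theorem suzU_inv (a y : F) : (suzU φ a y)⁻¹ = suzU φ (-a) (-y + φ a * a) := by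
  rw [inv_eq_iff_mul_eq_one, suzU_mul]
  have h1 : a + -a = 0 := by ring
  have h2 : y + (-y + φ a * a) + φ a * -a = 0 := by ring
  rw [h1, h2, suzU_zero]

theorem suzU_inj {a y a' y' : F} (h : suzU φ a y = suzU φ a' y') : a = a' ∧ y = y' := by
  have h1 : suzMat φ a y = suzMat φ a' y' := by
    rw [← suzU_val, ← suzU_val, h]
  constructor
  · have := congrFun (congrFun h1 1) 0
    simpa [suzMat] using this
  · have := congrFun (congrFun h1 2) 0
    simpa [suzMat] using this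

theorem mem_suzukiTypeA_iff (g : GL (Fin 3) F) :
    g ∈ Cfsg.suzukiTypeA F φ ↔ ∃ a y : F, g = suzU φ a y := by
  constructor
  · intro hg
    unfold Cfsg.suzukiTypeA at hg
    induction hg using Subgroup.closure_induction with
    | mem x hx =>
      obtain ⟨a, y, hxy⟩ := hx
      exact ⟨a, y, Units.ext hxy⟩
    | one => exact ⟨0, 0, (suzU_zero φ).symm⟩
    | mul x y _ _ hx hy =>
      obtain ⟨a, b, rfl⟩ := hx
      obtain ⟨a', b', rfl⟩ := hy
      exact ⟨_, _, suzU_mul φ a b a' b'⟩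
    | inv x _ hx =>
      obtain ⟨a, b, rfl⟩ := hx
      exact ⟨_, _, suzU_inv φ a b⟩
  · rintro ⟨a, y, rfl⟩
    exact Subgroup.subset_closure ⟨a, y, rfl⟩

theorem suzU_mem (a y : F) : suzU φ a y ∈ Cfsg.suzukiTypeA F φ :=
  (mem_suzukiTypeA_iff φ _).2 ⟨a, y, rfl⟩

/-- The type A group as a central extension of `F` by `F` with squaring map `a ↦ a * φ a`. -/
noncomputable def suzTypeA_sqExt [CharP F 2] :
    SqExt (↥(Cfsg.suzukiTypeA F φ)) F F (fun a => a * φ a) where
  α := fun g => (g : GL (Fin 3) F).val 1 0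
  ζ := fun y => ⟨suzU φ 0 y, suzU_mem φ 0 y⟩
  α_mul := by
    rintro ⟨x, hx⟩ ⟨y, hy⟩
    obtain ⟨a, b, rfl⟩ := (mem_suzukiTypeA_iff φ x).1 hx
    obtain ⟨a', b', rfl⟩ := (mem_suzukiTypeA_iff φ y).1 hy
    change (suzU φ a b * suzU φ a' b').val 1 0 = (suzU φ a b).val 1 0 + (suzU φ a' b').val 1 0
    rw [suzU_mul]
    simp [suzU_val, suzMat]
  α_surj := by
    intro a
    refine ⟨⟨suzU φ a 0, suzU_mem φ a 0⟩, ?_⟩
    change (suzU φ a 0).val 1 0 = a
    simp [suzU_val, suzMat]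
  ζ_add := by
    intro a b
    apply Subtype.ext
    change suzU φ 0 (a + b) = suzU φ 0 a * suzU φ 0 b
    rw [suzU_mul, map_zero, zero_mul, add_zero, add_zero]
  ζ_inj := by
    intro a b h
    have h1 : suzU φ 0 a = suzU φ 0 b := congrArg Subtype.val h
    exact (suzU_inj φ h1).2
  ζ_central := by
    rintro a ⟨x, hx⟩
    obtain ⟨c, d, rfl⟩ := (mem_suzukiTypeA_iff φ x).1 hx
    apply Subtype.ext
    change suzU φ 0 a * suzU φ c d = suzU φ c d * suzU φ 0 a
    rw [suzU_mul, suzU_mul, map_zero, zero_mul, mul_zero, add_zero, add_zero, zero_add, add_zero,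
      add_comm a d]
  α_ζ := by
    intro a
    change (suzU φ 0 a).val 1 0 = 0
    simp [suzU_val, suzMat]
  ker := by
    rintro ⟨x, hx⟩ h
    obtain ⟨c, d, rfl⟩ := (mem_suzukiTypeA_iff φ x).1 hx
    have hc : c = 0 := by
      have h' : (suzU φ c d).val 1 0 = 0 := h
      simpa [suzU_val, suzMat] using h'
    subst hc
    exact ⟨d, rfl⟩
  sq := by
    rintro ⟨x, hx⟩
    obtain ⟨c, d, rfl⟩ := (mem_suzukiTypeA_iff φ x).1 hx
    apply Subtype.ext
    change suzU φ c d * suzU φ c d = suzU φ 0 ((suzU φ c d).val 1 0 * φ ((suzU φ c d).val 1 0))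
    rw [suzU_mul]
    have h1 : (suzU φ c d).val 1 0 = c := by simp [suzU_val, suzMat]
    rw [h1, CharTwo.add_self_eq_zero, CharTwo.add_self_eq_zero, zero_add, mul_comm]

/-- A finite group which is a central extension of `F` by `F` with squaring map `a ↦ a * φ a`
is isomorphic to the Suzuki 2-group of type A. -/
theorem nonempty_mulEquiv_suzukiTypeA [CharP F 2] [Finite F] {P : Type*} [Group P] [Finite P]
    (E : SqExt P F F (fun a => a * φ a)) : Nonempty (P ≃* Cfsg.suzukiTypeA F φ) := by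
  have : Finite (GL (Fin 3) F) := by
    classical
    have : Fintype F := Fintype.ofFinite F
    exact Finite.of_injective (fun g : GL (Fin 3) F => (g : Matrix (Fin 3) (Fin 3) F))
      Units.val_injective
  exact SqExt.nonempty_mulEquiv E (suzTypeA_sqExt φ)

end TypeA

/-- If `2 ^ l + 1` is prime to `2 ^ n - 1` then `n / gcd n l` is odd. -/
theorem odd_div_gcd_of_coprime (n l : ℕ) (hn : 0 < n) (hl : 0 < l)
    (h : Nat.Coprime (2 ^ l + 1) (2 ^ n - 1)) : Odd (n / Nat.gcd n l) := by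
  have hg0 : 0 < Nat.gcd n l := Nat.gcd_pos_of_pos_left l hn
  obtain ⟨g, a, b, hg, hab, rfl, rfl⟩ := Nat.exists_coprime' hg0
  have hgg : Nat.gcd (a * g) (b * g) = g := by
    rw [Nat.gcd_mul_right, hab.gcd_eq_one, one_mul]
  rw [hgg, Nat.mul_div_cancel _ hg]
  rw [← Nat.not_even_iff_odd]
  rintro ⟨c, hc⟩
  have hb : Odd b := by
    rw [← Nat.not_even_iff_odd]
    rintro ⟨e, he⟩
    have h2 : 2 ∣ Nat.gcd a b := Nat.dvd_gcd ⟨c, by omega⟩ ⟨e, by omega⟩
    rw [hab] at h2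
    omega
  have h1 : 2 ^ g + 1 ∣ 2 ^ (b * g) + 1 := by
    have := hb.nat_add_dvd_pow_add_pow (2 ^ g) 1
    rwa [one_pow, ← pow_mul, mul_comm g b] at this
  have h2 : 2 ^ g + 1 ∣ 2 ^ (a * g) - 1 := by
    have h3 : 2 ^ (2 * g) - 1 ∣ 2 ^ (a * g) - 1 :=
      Nat.pow_sub_one_dvd_pow_sub_one 2 ⟨c, by rw [hc]; ring⟩
    have h4 : 2 ^ g + 1 ∣ 2 ^ (2 * g) - 1 := by
      have h5 : 2 ^ (2 * g) - 1 = (2 ^ g + 1) * (2 ^ g - 1) := by
        have h6 : 1 ≤ 2 ^ g := Nat.one_le_two_pow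
        have h7 : 2 ^ (2 * g) = 2 ^ g * 2 ^ g := by rw [two_mul, pow_add]
        rw [h7]
        zify [h6, Nat.one_le_two_pow.trans (Nat.le_mul_self (2 ^ g))]
        ring
      exact ⟨_, h5⟩
    exact h4.trans h3
  have h3 : 2 ^ g + 1 ∣ 1 := by
    have := Nat.dvd_gcd h1 h2
    rwa [h.gcd_eq_one] at this
  have h4 : 2 ^ g + 1 = 1 := Nat.dvd_one.1 h3
  have h5 : 0 < 2 ^ g := by positivity
  omega

end Cfsg.Agent.Helper50
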