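import Mathlib
import Cfsg.Prelude.Def_LieRecognition
import Cfsg.Agent.Helper50.Suzuki
import Cfsg.Agent.Helper50.SuzField
import Cfsg.Agent.Helper50.SqIso
import Cfsg.Agent.Helper50.SuzTypeA

/-!
# Suzuki 2-groups of order `|Z|²` are of type A (Higman)
-/

set_option autoImplicit false

namespace Cfsg.Agent.Helper50

section count

variable {P : Type*} [Group P]

/-- The automorphism induced on the centre. -/
def centerAut (ξ : MulAut P) : MulAut (Subgroup.center P) where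
  toFun z := ⟨ξ z, mulAut_mem_center ξ z.2⟩
  invFun z := ⟨ξ⁻¹ z, mulAut_mem_center ξ⁻¹ z.2⟩
  left_inv z := Subtype.ext (by simp)
  right_inv z := Subtype.ext (by simp)
  map_mul' a b := Subtype.ext (by simp)

theorem centerAut_pow (ξ : MulAut P) (j : ℕ) (z : Subgroup.center P) :
    (((centerAut ξ) ^ j) z : P) = (ξ ^ j) (z : P) := by
  induction j generalizing z with
  | zero => simp
  | succ j ih =>
    rw [pow_succ, pow_succ, MulAut.mul_apply, MulAut.mul_apply, ih]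
    rfl

theorem center_map_mulAut (ξ : MulAut P) :
    (Subgroup.center P).map (ξ : P →* P) = Subgroup.center P := by
  ext y
  constructor
  · rintro ⟨x, hx, rfl⟩
    exact mulAut_mem_center ξ hx
  · intro hy
    refine ⟨ξ⁻¹ y, mulAut_mem_center ξ⁻¹ hy, ?_⟩
    simp

/-- The counting step: if `|P| = |Z|²`, the cosets of `Z` other than `Z` are represented by the
images of a single element `x0` under powers of `ξ`, and squaring separates these cosets. -/
theorem suzA_count [Finite P] (hP : IsPGroup 2 P) (ξ : MulAut P) (htr : SuzTrans P ξ)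
    (hZ : ∀ z : P, z ∈ Subgroup.center P ↔ z * z = 1)
    (hcard : Nat.card P = Nat.card (Subgroup.center P) ^ 2)
    (hinv : ∃ z : P, z ≠ 1 ∧ z * z = 1) :
    ∃ x0 : P, x0 ∉ Subgroup.center P ∧ x0 * x0 ∈ Subgroup.center P ∧
      (∀ x : P, x ∉ Subgroup.center P →
        ∃ (j : ℕ) (c : P), c ∈ Subgroup.center P ∧ x = (ξ ^ j) x0 * c) ∧
      (∀ i j : ℕ, (ξ ^ i) (x0 * x0) = (ξ ^ j) (x0 * x0) →
        ((ξ ^ i) x0)⁻¹ * (ξ ^ j) x0 ∈ Subgroup.center P) := by
  classical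
  have : Fact (Nat.Prime 2) := ⟨Nat.prime_two⟩
  set Z : Subgroup P := Subgroup.center P with hZdef
  have hZpos : 0 < Nat.card Z := Nat.card_pos
  have hq : Nat.card (P ⧸ Z) = Nat.card Z := by
    have h1 := Subgroup.card_eq_card_quotient_mul_card_subgroup Z
    rw [hcard, pow_two] at h1
    exact (Nat.eq_of_mul_eq_mul_right hZpos h1).symm
  have hZ2 : 1 < Nat.card Z := by
    obtain ⟨z, hz1, hz2⟩ := hinv
    have hzZ : z ∈ Z := (hZ z).2 hz2
    rw [Finite.one_lt_card_iff_nontrivial]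
    exact ⟨⟨⟨z, hzZ⟩, 1, fun h => hz1 (congrArg Subtype.val h)⟩⟩
  have hnt : Nontrivial (P ⧸ Z) := by
    rw [← Finite.one_lt_card_iff_nontrivial, hq]
    exact hZ2
  obtain ⟨v, hv⟩ := exists_ne (1 : P ⧸ Z)
  obtain ⟨m, hm1, hm2⟩ := exists_pow_invol (hP.to_quotient Z) hv
  obtain ⟨x0, hx0⟩ := QuotientGroup.mk_surjective (v ^ m)
  have hx0Z : x0 ∉ Z := by
    intro h
    apply hm1
    rw [← hx0]
    exact (QuotientGroup.eq_one_iff x0).2 h
  have hx0sq : x0 * x0 ∈ Z := by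
    rw [← QuotientGroup.eq_one_iff, QuotientGroup.mk_mul, hx0]
    exact hm2
  set z0 : P := x0 * x0 with hz0def
  have hz01 : z0 ≠ 1 := fun h => hx0Z ((hZ x0).2 h)
  have hz02 : z0 * z0 = 1 := (hZ z0).1 hx0sq
  have K1 : ∀ j : ℕ, ((ξ ^ j) x0) * ((ξ ^ j) x0) = (ξ ^ j) z0 := fun j => (map_mul _ _ _).symm
  have K2 : ∀ j : ℕ, (ξ ^ j) z0 ≠ 1 := by
    intro j h
    apply hz01
    have h2 : (ξ ^ j) z0 = (ξ ^ j) 1 := by rw [h, map_one]
    exact (ξ ^ j).injective h2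
  have K2' : ∀ j : ℕ, (ξ ^ j) x0 ∉ Z := by
    intro j h
    apply K2 j
    rw [← K1]
    exact (hZ _).1 h
  have K3 : ∀ i j : ℕ, ((ξ ^ i) x0)⁻¹ * (ξ ^ j) x0 ∈ Z → (ξ ^ i) z0 = (ξ ^ j) z0 := by
    intro i j hc
    set c := ((ξ ^ i) x0)⁻¹ * (ξ ^ j) x0 with hcdef
    have h1 : (ξ ^ j) x0 = (ξ ^ i) x0 * c := by rw [hcdef]; group
    have hcc : ∀ g : P, g * c = c * g := Subgroup.mem_center_iff.1 hc
    have hc2 : c * c = 1 := (hZ c).1 hc
    rw [← K1 j, ← K1 i, h1]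
    calc (ξ ^ i) x0 * (ξ ^ i) x0
        = (ξ ^ i) x0 * (ξ ^ i) x0 * (c * c) := by rw [hc2, mul_one]
      _ = (ξ ^ i) x0 * ((ξ ^ i) x0 * c) * c := by group
      _ = (ξ ^ i) x0 * (c * (ξ ^ i) x0) * c := by rw [hcc ((ξ ^ i) x0)]
      _ = (ξ ^ i) x0 * c * ((ξ ^ i) x0 * c) := by group
  have hjf : ∀ z : Z, (z : P) ≠ 1 → ∃ j : ℕ, (ξ ^ j) z0 = (z : P) := fun z hz =>
    htr z0 z hz01 hz02 hz ((hZ _).1 z.2)
  let G : Z → P ⧸ Z := fun z =>
    if h : (z : P) = 1 then 1 else QuotientGroup.mk ((ξ ^ (Classical.choose (hjf z h))) x0)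
  have hG1 : ∀ z : Z, (z : P) = 1 → G z = 1 := fun z h => dif_pos h
  have hG2 : ∀ z : Z, (z : P) ≠ 1 → ∃ j : ℕ, (ξ ^ j) z0 = (z : P) ∧
      G z = QuotientGroup.mk ((ξ ^ j) x0) := fun z h =>
    ⟨Classical.choose (hjf z h), Classical.choose_spec (hjf z h), dif_neg h⟩
  have hmk1 : ∀ j : ℕ, (QuotientGroup.mk ((ξ ^ j) x0) : P ⧸ Z) ≠ 1 := by
    intro j h
    exact K2' j ((QuotientGroup.eq_one_iff _).1 h)
  have hGinj : Function.Injective G := by
    intro z z' hzz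
    by_cases h : (z : P) = 1
    · by_cases h' : (z' : P) = 1
      · exact Subtype.ext (h.trans h'.symm)
      · exfalso
        obtain ⟨j, -, hj⟩ := hG2 z' h'
        rw [hG1 z h, hj] at hzz
        exact hmk1 j hzz.symm
    · by_cases h' : (z' : P) = 1
      · exfalso
        obtain ⟨j, -, hj⟩ := hG2 z h
        rw [hG1 z' h', hj] at hzz
        exact hmk1 j hzz
      · obtain ⟨j, hj1, hj⟩ := hG2 z h
        obtain ⟨j', hj'1, hj'⟩ := hG2 z' h'
        rw [hj, hj'] at hzz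
        have h3 := K3 j j' (QuotientGroup.eq.1 hzz)
        exact Subtype.ext (by rw [← hj1, ← hj'1, h3])
  have hGbij : Function.Bijective G := hGinj.bijective_of_nat_card_le hq.le
  have hrep : ∀ x : P, x ∉ Z → ∃ j : ℕ, (QuotientGroup.mk x : P ⧸ Z) =
      QuotientGroup.mk ((ξ ^ j) x0) ∧ G ⟨(ξ ^ j) z0, (hZ _).2 (by
        rw [← map_mul, hz02, map_one])⟩ = QuotientGroup.mk x := by
    intro x hx
    obtain ⟨z, hz⟩ := hGbij.2 (QuotientGroup.mk x)
    have hz1 : (z : P) ≠ 1 := by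
      intro h
      rw [hG1 z h] at hz
      exact hx ((QuotientGroup.eq_one_iff x).1 hz.symm)
    obtain ⟨j, hj1, hj⟩ := hG2 z hz1
    refine ⟨j, by rw [← hz, hj], ?_⟩
    rw [← hz]
    congr 1
    exact Subtype.ext hj1
  refine ⟨x0, hx0Z, hx0sq, ?_, ?_⟩
  · intro x hx
    obtain ⟨j, hj, -⟩ := hrep x hx
    refine ⟨j, ((ξ ^ j) x0)⁻¹ * x, QuotientGroup.eq.1 hj.symm, by group⟩
  · intro i j hij
    obtain ⟨i', hi'1, hi'2⟩ := hrep ((ξ ^ i) x0) (K2' i)
    obtain ⟨j', hj'1, hj'2⟩ := hrep ((ξ ^ j) x0) (K2' j)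
    have e1 : (ξ ^ i) z0 = (ξ ^ i') z0 := K3 i i' (QuotientGroup.eq.1 hi'1)
    have e2 : (ξ ^ j) z0 = (ξ ^ j') z0 := K3 j j' (QuotientGroup.eq.1 hj'1)
    have e3 : (ξ ^ i') z0 = (ξ ^ j') z0 := by rw [← e1, ← e2]; exact hij
    apply QuotientGroup.eq.1
    rw [← hi'2, ← hj'2]
    congr 1
    exact Subtype.ext e3

end count

/-- Field coordinates on a Suzuki 2-group of order `|Z|²`: `α` identifies `P / Z` with the additive
group of `F` and `ζ` identifies `F` with `Z`, the automorphism `ξ` acting as multiplication by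
`μ` and `lam` respectively. -/
structure SuzCoord (P : Type*) [Group P] (F : Type*) [Field F] (ξ : MulAut P) (x0 : P) where
  /-- coordinate on the quotient -/
  α : P → F
  /-- parametrisation of the centre -/
  ζ : F → P
  /-- multiplier on the quotient -/
  μ : F
  /-- multiplier on the centre -/
  lam : F
  α_mul : ∀ x y, α (x * y) = α x + α y
  α_surj : Function.Surjective α
  α_ker : ∀ x, α x = 0 ↔ x ∈ Subgroup.center P
  α_ξ : ∀ x, α (ξ x) = μ * α x
  α_x0 : α x0 = 1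
  ζ_add : ∀ a b, ζ (a + b) = ζ a * ζ b
  ζ_inj : Function.Injective ζ
  ζ_mem : ∀ a, ζ a ∈ Subgroup.center P
  ζ_surj : ∀ z ∈ Subgroup.center P, ∃ a, ζ a = z
  ζ_ξ : ∀ a, ξ (ζ a) = ζ (lam * a)
  ζ_one : ζ 1 = x0 * x0
  μ_gen : ∀ c : F, c ≠ 0 → ∃ j : ℕ, c = μ ^ j
  μ_ne : μ ≠ 0
  lam_ne : lam ≠ 0

section coord

variable {P : Type*} [Group P]

/-- Squares are central once every noncentral element is a central multiple of some `ξ ^ j x0`. -/
theorem suzA_sq_mem (ξ : MulAut P)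
    (hZ : ∀ z : P, z ∈ Subgroup.center P ↔ z * z = 1)
    (x0 : P) (hx0sq : x0 * x0 ∈ Subgroup.center P)
    (hrep : ∀ x : P, x ∉ Subgroup.center P →
      ∃ (j : ℕ) (c : P), c ∈ Subgroup.center P ∧ x = (ξ ^ j) x0 * c) (x : P) :
    (x ∉ Subgroup.center P →
      ∃ (j : ℕ) (c : P), c ∈ Subgroup.center P ∧ x = (ξ ^ j) x0 * c ∧
        x * x = (ξ ^ j) (x0 * x0)) ∧ x * x ∈ Subgroup.center P := by
  have h1 : x ∉ Subgroup.center P →
      ∃ (j : ℕ) (c : P), c ∈ Subgroup.center P ∧ x = (ξ ^ j) x0 * c ∧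
        x * x = (ξ ^ j) (x0 * x0) := by
    intro hx
    obtain ⟨j, c, hc, hxc⟩ := hrep x hx
    refine ⟨j, c, hc, hxc, ?_⟩
    have hcc : ∀ g : P, g * c = c * g := Subgroup.mem_center_iff.1 hc
    have hc2 : c * c = 1 := (hZ c).1 hc
    rw [hxc, map_mul]
    calc (ξ ^ j) x0 * c * ((ξ ^ j) x0 * c)
        = (ξ ^ j) x0 * (c * (ξ ^ j) x0) * c := by group
      _ = (ξ ^ j) x0 * ((ξ ^ j) x0 * c) * c := by rw [hcc ((ξ ^ j) x0)]
      _ = (ξ ^ j) x0 * (ξ ^ j) x0 * (c * c) := by group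
      _ = (ξ ^ j) x0 * (ξ ^ j) x0 := by rw [hc2, mul_one]
  refine ⟨h1, ?_⟩
  by_cases hx : x ∈ Subgroup.center P
  · rw [(hZ x).1 hx]
    exact Subgroup.one_mem _
  · obtain ⟨j, c, -, -, hxx⟩ := h1 hx
    rw [hxx]
    exact mulAut_mem_center _ hx0sq

theorem exists_suzCoord [Finite P] (hP : IsPGroup 2 P) (ξ : MulAut P) (htr : SuzTrans P ξ)
    (hZ : ∀ z : P, z ∈ Subgroup.center P ↔ z * z = 1)
    (hcard : Nat.card P = Nat.card (Subgroup.center P) ^ 2)
    (x0 : P) (hx0 : x0 ∉ Subgroup.center P) (hx0sq : x0 * x0 ∈ Subgroup.center P)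
    (hrep : ∀ x : P, x ∉ Subgroup.center P →
      ∃ (j : ℕ) (c : P), c ∈ Subgroup.center P ∧ x = (ξ ^ j) x0 * c) :
    ∃ n : ℕ, n ≠ 0 ∧ Nat.card (Subgroup.center P) = 2 ^ n ∧
      Nonempty (SuzCoord P (GaloisField 2 n) ξ x0) := by
  classical
  have : Fact (Nat.Prime 2) := ⟨Nat.prime_two⟩
  set Z : Subgroup P := Subgroup.center P with hZdef
  obtain ⟨n, hn⟩ := IsPGroup.iff_card.1 (hP.to_subgroup Z)
  have hz01 : x0 * x0 ≠ 1 := fun h => hx0 ((hZ x0).2 h)
  have hn0 : n ≠ 0 := by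
    rintro rfl
    rw [pow_zero, Nat.card_eq_one_iff_unique] at hn
    have h1 : (⟨x0 * x0, hx0sq⟩ : Z) = 1 := hn.1.elim _ _
    exact hz01 (congrArg Subtype.val h1)
  have hZpos : 0 < Nat.card Z := Nat.card_pos
  have hqV : Nat.card (P ⧸ Z) = 2 ^ n := by
    have h1 := Subgroup.card_eq_card_quotient_mul_card_subgroup Z
    rw [hcard, pow_two] at h1
    rw [← hn]
    exact (Nat.eq_of_mul_eq_mul_right hZpos h1).symm
  have hsq : ∀ x : P, x * x ∈ Z := fun x => (suzA_sq_mem ξ hZ x0 hx0sq hrep x).2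
  have hexpV : ∀ v : P ⧸ Z, v * v = 1 := by
    intro v
    induction v using QuotientGroup.induction_on with
    | H x =>
      rw [← QuotientGroup.mk_mul]
      exact (QuotientGroup.eq_one_iff _).2 (hsq x)
  let ξV : MulAut (P ⧸ Z) := QuotientGroup.congr Z Z ξ (center_map_mulAut ξ)
  have heV1 : (QuotientGroup.mk x0 : P ⧸ Z) ≠ 1 := fun h => hx0 ((QuotientGroup.eq_one_iff x0).1 h)
  have htrV : ∀ b : P ⧸ Z, b ≠ 1 → ∃ j : ℕ, (ξV ^ j) (QuotientGroup.mk x0) = b := by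
    intro b
    induction b using QuotientGroup.induction_on with
    | H x =>
      intro hb
      have hx : x ∉ Z := fun h => hb ((QuotientGroup.eq_one_iff x).2 h)
      obtain ⟨j, c, hc, hxc⟩ := hrep x hx
      refine ⟨j, ?_⟩
      rw [suz_quot_pow Z ξ (center_map_mulAut ξ) j x0]
      apply QuotientGroup.eq.2
      have : ((ξ ^ j) x0)⁻¹ * x = c := by rw [hxc]; group
      rw [this]
      exact hc
  obtain ⟨ιV, μ, hbijV, haddV, heV, hμV⟩ :=
    exists_field_coord hexpV ξV n hqV (QuotientGroup.mk x0) heV1 htrV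
  obtain ⟨hV1, -, hVgen, hμ0⟩ := coord_facts ξV (QuotientGroup.mk x0) htrV ιV μ hbijV haddV heV hμV
  have hexpZ : ∀ z : Z, z * z = 1 := fun z => Subtype.ext ((hZ z).1 z.2)
  let eZ : Z := ⟨x0 * x0, hx0sq⟩
  have heZ1 : eZ ≠ 1 := fun h => hz01 (congrArg Subtype.val h)
  have htrZ : ∀ b : Z, b ≠ 1 → ∃ j : ℕ, ((centerAut ξ) ^ j) eZ = b := by
    intro b hb
    have hb1 : (b : P) ≠ 1 := fun h => hb (Subtype.ext h)
    obtain ⟨j, hj⟩ := htr (x0 * x0) b hz01 ((hZ _).1 hx0sq) hb1 ((hZ _).1 b.2)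
    exact ⟨j, Subtype.ext ((centerAut_pow ξ j eZ).trans hj)⟩
  obtain ⟨ιZ, lam, hbijZ, haddZ, heZ, hlamZ⟩ :=
    exists_field_coord hexpZ (centerAut ξ) n hn eZ heZ1 htrZ
  obtain ⟨hZ1, -, -, hlam0⟩ := coord_facts (centerAut ξ) eZ htrZ ιZ lam hbijZ haddZ heZ hlamZ
  let e : Z ≃ GaloisField 2 n := Equiv.ofBijective ιZ hbijZ
  have he : ∀ z : Z, e z = ιZ z := fun z => rfl
  refine ⟨n, hn0, hn, ⟨{
    α := fun x => ιV (QuotientGroup.mk x)
    ζ := fun a => ((e.symm a : Z) : P)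
    μ := μ
    lam := lam
    α_mul := fun x y => haddV (QuotientGroup.mk x) (QuotientGroup.mk y)
    α_surj := ?_
    α_ker := ?_
    α_ξ := ?_
    α_x0 := heV
    ζ_add := ?_
    ζ_inj := ?_
    ζ_mem := fun a => (e.symm a).2
    ζ_surj := ?_
    ζ_ξ := ?_
    ζ_one := ?_
    μ_gen := hVgen
    μ_ne := hμ0
    lam_ne := hlam0 }⟩⟩
  · intro y
    obtain ⟨v, hv⟩ := hbijV.2 y
    obtain ⟨x, rfl⟩ := QuotientGroup.mk_surjective v
    exact ⟨x, hv⟩
  · intro x
    constructor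
    · intro h
      rw [← hV1] at h
      exact (QuotientGroup.eq_one_iff x).1 (hbijV.1 h)
    · intro h
      have h1 : (QuotientGroup.mk x : P ⧸ Z) = 1 := (QuotientGroup.eq_one_iff x).2 h
      change ιV (QuotientGroup.mk x) = 0
      rw [h1, hV1]
  · intro x
    exact hμV (QuotientGroup.mk x)
  · intro a b
    have h1 : e.symm (a + b) = e.symm a * e.symm b := by
      apply e.injective
      rw [Equiv.apply_symm_apply, he, haddZ, ← he, ← he, Equiv.apply_symm_apply,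
        Equiv.apply_symm_apply]
    change ((e.symm (a + b) : Z) : P) = ((e.symm a : Z) : P) * ((e.symm b : Z) : P)
    rw [h1]
    rfl
  · intro a b h
    exact e.symm.injective (Subtype.ext h)
  · intro z hz
    exact ⟨e ⟨z, hz⟩, by rw [Equiv.symm_apply_apply]⟩
  · intro a
    have h1 : e.symm (lam * a) = (centerAut ξ) (e.symm a) := by
      apply e.injective
      rw [Equiv.apply_symm_apply, he, hlamZ, ← he, Equiv.apply_symm_apply]
    change ξ ((e.symm a : Z) : P) = ((e.symm (lam * a) : Z) : P)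
    rw [h1]
    rfl
  · have h1 : e.symm 1 = eZ := by
      apply e.injective
      rw [Equiv.apply_symm_apply, he, heZ]
    change ((e.symm 1 : Z) : P) = x0 * x0
    rw [h1]

end coord

namespace SuzCoord

variable {P : Type*} [Group P] {F : Type*} [Field F] {ξ : MulAut P} {x0 : P}

theorem α_pow (C : SuzCoord P F ξ x0) (j : ℕ) (x : P) :
    C.α ((ξ ^ j) x) = C.μ ^ j * C.α x := by
  induction j generalizing x with
  | zero => simp
  | succ j ih => rw [pow_succ, MulAut.mul_apply, ih, C.α_ξ, pow_succ, mul_assoc]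

theorem ζ_pow (C : SuzCoord P F ξ x0) (j : ℕ) (a : F) :
    (ξ ^ j) (C.ζ a) = C.ζ (C.lam ^ j * a) := by
  induction j generalizing a with
  | zero => simp
  | succ j ih => rw [pow_succ, MulAut.mul_apply, C.ζ_ξ, ih, pow_succ, mul_assoc]

theorem ζ_zero (C : SuzCoord P F ξ x0) : C.ζ 0 = 1 := by
  have h := C.ζ_add 0 0
  rw [add_zero] at h
  have h2 : C.ζ 0 * 1 = C.ζ 0 * C.ζ 0 := by rw [mul_one]; exact h
  exact (mul_left_cancel h2).symm

end SuzCoord

section main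

variable {P : Type*} [Group P] {F : Type*} [Field F] [Fintype F] [CharP F 2]

/-- The main computation: the squaring map in coordinates is `a ↦ a ^ k`, its polarisation is
biadditive, so `k = 2 ^ s + 2 ^ (s + t)`; after a Frobenius twist the squaring map becomes
`a ↦ a * a ^ (2 ^ t)`. -/
theorem suzA_sqExt (hna : ∃ x y : P, x * y ≠ y * x) (ξ : MulAut P)
    (hZ : ∀ z : P, z ∈ Subgroup.center P ↔ z * z = 1)
    (x0 : P) (hx0sq : x0 * x0 ∈ Subgroup.center P)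
    (hrep : ∀ x : P, x ∉ Subgroup.center P →
      ∃ (j : ℕ) (c : P), c ∈ Subgroup.center P ∧ x = (ξ ^ j) x0 * c)
    (hinj : ∀ i j : ℕ, (ξ ^ i) (x0 * x0) = (ξ ^ j) (x0 * x0) →
      ((ξ ^ i) x0)⁻¹ * (ξ ^ j) x0 ∈ Subgroup.center P)
    (n : ℕ) (hn0 : n ≠ 0) (hF : Fintype.card F = 2 ^ n)
    (C : SuzCoord P F ξ x0) :
    ∃ t : ℕ, 0 < t ∧ t < n ∧ Nat.Coprime (2 ^ t + 1) (2 ^ n - 1) ∧
      Nonempty (SqExt P F F (fun a => a * a ^ (2 ^ t))) := by
  classical
  have : Fact (Nat.Prime 2) := ⟨Nat.prime_two⟩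
  have hq2 : 2 ≤ Fintype.card F := by
    rw [hF]
    exact Nat.one_lt_two_pow hn0
  obtain ⟨k0, hk0⟩ := C.μ_gen C.lam C.lam_ne
  have hμq : C.μ ^ (Fintype.card F - 1) = 1 := FiniteField.pow_card_sub_one_eq_one C.μ C.μ_ne
  obtain ⟨k, hk1, hkq, hlam⟩ : ∃ k : ℕ, 0 < k ∧ k < Fintype.card F ∧ C.lam = C.μ ^ k := by
    by_cases h : k0 % (Fintype.card F - 1) = 0
    · refine ⟨Fintype.card F - 1, by omega, by omega, ?_⟩
      rw [hk0, hμq, ← Nat.div_add_mod k0 (Fintype.card F - 1), h, add_zero, pow_mul, hμq, one_pow]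
    · refine ⟨k0 % (Fintype.card F - 1), Nat.pos_of_ne_zero h, ?_, ?_⟩
      · have := Nat.mod_lt k0 (show 0 < Fintype.card F - 1 by omega)
        omega
      · rw [hk0]
        conv_lhs => rw [← Nat.div_add_mod k0 (Fintype.card F - 1)]
        rw [pow_add, pow_mul, hμq, one_pow, one_mul]
  -- the squaring map in coordinates
  have hsqk : ∀ x : P, x * x = C.ζ (C.α x ^ k) := by
    intro x
    by_cases hx : x ∈ Subgroup.center P
    · rw [(hZ x).1 hx, (C.α_ker x).2 hx, zero_pow hk1.ne', C.ζ_zero]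
    · obtain ⟨j, c, hc, hxc, hxx⟩ := (suzA_sq_mem ξ hZ x0 hx0sq hrep x).1 hx
      have h1 : C.α x = C.μ ^ j := by
        rw [hxc, C.α_mul, C.α_pow, C.α_x0, mul_one, (C.α_ker c).2 hc, add_zero]
      rw [hxx, ← C.ζ_one, C.ζ_pow, mul_one, h1, hlam, ← pow_mul, ← pow_mul, mul_comm]
  have hsqZ : ∀ x : P, x * x ∈ Subgroup.center P := fun x => by
    rw [hsqk]
    exact C.ζ_mem _
  -- commutators in coordinates
  have hcomm : ∀ u v : P, u * v * u⁻¹ * v⁻¹ =
      C.ζ ((C.α u + C.α v) ^ k + C.α u ^ k + C.α v ^ k) := by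
    intro u v
    rw [C.ζ_add, C.ζ_add, ← C.α_mul, ← hsqk, ← hsqk, ← hsqk]
    have hu : ∀ g : P, g * (u * u) = (u * u) * g := Subgroup.mem_center_iff.1 (hsqZ u)
    have hu2 : (u * u) * (u * u) = 1 := (hZ _).1 (hsqZ u)
    have hv2 : (v * v) * (v * v) = 1 := (hZ _).1 (hsqZ v)
    have e1 : u⁻¹ = u * (u * u) := inv_eq_of_mul_eq_one_right (by rw [← mul_assoc]; exact hu2)
    have e2 : v⁻¹ = v * (v * v) := inv_eq_of_mul_eq_one_right (by rw [← mul_assoc]; exact hv2)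
    rw [e1, e2]
    calc u * v * (u * (u * u)) * (v * (v * v))
        = u * v * u * ((u * u) * v) * (v * v) := by group
      _ = u * v * u * (v * (u * u)) * (v * v) := by rw [hu v]
      _ = u * v * (u * v) * (u * u) * (v * v) := by group
  -- the polarisation of `a ^ k` is additive
  have hadd : ∀ a b : F, (a + b + 1) ^ k + (a + b) ^ k + 1 =
      ((a + 1) ^ k + a ^ k + 1) + ((b + 1) ^ k + b ^ k + 1) := by
    intro a b
    obtain ⟨x, rfl⟩ := C.α_surj a
    obtain ⟨y, rfl⟩ := C.α_surj b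
    apply C.ζ_inj
    have h1 := hcomm (x * y) x0
    have h2 := hcomm x x0
    have h3 := hcomm y x0
    rw [C.α_x0, one_pow] at h1 h2 h3
    rw [C.α_mul] at h1
    rw [← h1, C.ζ_add ((C.α x + 1) ^ k + C.α x ^ k + 1) ((C.α y + 1) ^ k + C.α y ^ k + 1),
      ← h2, ← h3]
    have hc : ∀ g : P, g * (y * x0 * y⁻¹ * x0⁻¹) = (y * x0 * y⁻¹ * x0⁻¹) * g :=
      Subgroup.mem_center_iff.1 (by rw [h3]; exact C.ζ_mem _)
    calc x * y * x0 * (x * y)⁻¹ * x0⁻¹
        = x * (y * x0 * y⁻¹ * x0⁻¹) * x0 * x⁻¹ * x0⁻¹ := by group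
      _ = (y * x0 * y⁻¹ * x0⁻¹) * x * x0 * x⁻¹ * x0⁻¹ := by rw [hc x]
      _ = (y * x0 * y⁻¹ * x0⁻¹) * (x * x0 * x⁻¹ * x0⁻¹) := by group
      _ = (x * x0 * x⁻¹ * x0⁻¹) * (y * x0 * y⁻¹ * x0⁻¹) := (hc _).symm
  obtain ⟨s, t, hk | ⟨ht0, hk⟩⟩ := pow_weight_le_two k hk1.ne' hkq hadd
  · -- `k = 2 ^ s`: the group would be abelian
    exfalso
    obtain ⟨u, v, huv⟩ := hna
    apply huv
    have h1 := hcomm u v
    rw [hk, add_pow_char_pow] at h1
    have h2 : C.α u ^ 2 ^ s + C.α v ^ 2 ^ s + C.α u ^ 2 ^ s + C.α v ^ 2 ^ s = 0 := by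
      have h3 : C.α u ^ 2 ^ s + C.α v ^ 2 ^ s + C.α u ^ 2 ^ s + C.α v ^ 2 ^ s =
          (C.α u ^ 2 ^ s + C.α v ^ 2 ^ s) + (C.α u ^ 2 ^ s + C.α v ^ 2 ^ s) := by ring
      rw [h3, CharTwo.add_self_eq_zero]
    rw [h2, C.ζ_zero] at h1
    calc u * v = (u * v * u⁻¹ * v⁻¹) * (v * u) := by group
      _ = v * u := by rw [h1, one_mul]
  -- `k = 2 ^ s + 2 ^ (s + t)`
  have hinjk : ∀ a b : F, a ^ k = b ^ k → a = b := by
    intro a b hab
    obtain ⟨x, rfl⟩ := C.α_surj a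
    obtain ⟨y, rfl⟩ := C.α_surj b
    have hxy : x * x = y * y := by rw [hsqk x, hsqk y, hab]
    by_cases hx : x ∈ Subgroup.center P
    · have hy : y ∈ Subgroup.center P := (hZ y).2 (by rw [← hxy]; exact (hZ x).1 hx)
      rw [(C.α_ker x).2 hx, (C.α_ker y).2 hy]
    · have hy : y ∉ Subgroup.center P := by
        intro hy
        exact hx ((hZ x).2 (by rw [hxy]; exact (hZ y).1 hy))
      obtain ⟨i, c, hc, hxc, hxx⟩ := (suzA_sq_mem ξ hZ x0 hx0sq hrep x).1 hx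
      obtain ⟨j, c', hc', hyc, hyy⟩ := (suzA_sq_mem ξ hZ x0 hx0sq hrep y).1 hy
      have hw := hinj i j (by rw [← hxx, ← hyy]; exact hxy)
      have e1 : C.α x = C.α ((ξ ^ i) x0) := by
        rw [hxc, C.α_mul, (C.α_ker c).2 hc, add_zero]
      have e2 : C.α y = C.α ((ξ ^ j) x0) := by
        rw [hyc, C.α_mul, (C.α_ker c').2 hc', add_zero]
      have e3 : (ξ ^ j) x0 = (ξ ^ i) x0 * (((ξ ^ i) x0)⁻¹ * (ξ ^ j) x0) := by group
      rw [e1, e2, e3, C.α_mul, (C.α_ker _).2 hw, add_zero]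
  have hcop : Nat.Coprime k (Fintype.card F - 1) := by
    by_contra hc
    obtain ⟨r, hr, hrd⟩ := Nat.exists_prime_and_dvd hc
    have hrk : r ∣ k := hrd.trans (Nat.gcd_dvd_left _ _)
    have hrq : r ∣ Fintype.card F - 1 := hrd.trans (Nat.gcd_dvd_right _ _)
    have : Fact r.Prime := ⟨hr⟩
    have hcardU : Nat.card Fˣ = Fintype.card F - 1 := by
      rw [Nat.card_units, Nat.card_eq_fintype_card]
    obtain ⟨ω, hω⟩ := exists_prime_orderOf_dvd_card' (G := Fˣ) r (by rw [hcardU]; exact hrq)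
    have h1 : (ω : F) ^ k = 1 ^ k := by
      obtain ⟨e, rfl⟩ := hrk
      rw [one_pow, ← Units.val_pow_eq_pow_val, pow_mul, ← hω, pow_orderOf_eq_one, one_pow,
        Units.val_one]
    have h2 := hinjk _ _ h1
    have h3 : ω = 1 := Units.ext h2
    rw [h3, orderOf_one] at hω
    exact hr.one_lt.ne hω
  have hst : s + t < n := by
    have h1 : 2 ^ (s + t) < 2 ^ n := by
      rw [← hF]
      have : 0 < 2 ^ s := by positivity
      omega
    exact (Nat.pow_lt_pow_iff_right (by norm_num)).1 h1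
  have hdvd : 2 ^ t + 1 ∣ k := ⟨2 ^ s, by rw [hk, pow_add]; ring⟩
  refine ⟨t, ht0, by omega, ?_, ⟨{
    α := fun x => C.α x ^ 2 ^ s
    ζ := C.ζ
    α_mul := ?_
    α_surj := ?_
    ζ_add := C.ζ_add
    ζ_inj := C.ζ_inj
    ζ_central := fun a x => (Subgroup.mem_center_iff.1 (C.ζ_mem a) x).symm
    α_ζ := ?_
    ker := ?_
    sq := ?_ }⟩⟩
  · rw [← hF]
    exact Nat.Coprime.coprime_dvd_left hdvd hcop
  · intro x y
    rw [C.α_mul, add_pow_char_pow]
  · intro y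
    obtain ⟨a, ha⟩ := (iterateFrobeniusEquiv F 2 s).surjective y
    obtain ⟨x, rfl⟩ := C.α_surj a
    exact ⟨x, ha⟩
  · intro a
    change C.α (C.ζ a) ^ 2 ^ s = 0
    rw [(C.α_ker _).2 (C.ζ_mem a), zero_pow (by positivity)]
  · intro x hx
    have h1 : C.α x = 0 := pow_eq_zero_iff (by positivity) |>.1 hx
    exact C.ζ_surj x ((C.α_ker x).1 h1)
  · intro x
    rw [hsqk x, hk, pow_add (C.α x), pow_add 2 s t, pow_mul]

end main

section final

/-- **Higman**: a Suzuki 2-group whose order is the square of the order of its centre is of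
type A. -/
theorem suzuki_typeA_main {P : Type*} [Group P] (hP : Cfsg.IsSuzukiTwoGroup P)
    (hcard : Nat.card P = Nat.card (Subgroup.center P) ^ 2) :
    ∃ (F : Type) (_ : Field F) (_ : Fintype F) (φ : F ≃+* F),
      Fintype.card F = Nat.card (Subgroup.center P) ∧
      φ ≠ RingEquiv.refl F ∧ Odd (orderOf φ) ∧
      Nonempty (P ≃* Cfsg.suzukiTypeA F (φ : F →+* F)) := by
  classical
  obtain ⟨hfin, hP2, hna, htwo, K, hcyc, hreg⟩ := hP
  have := hfin
  have : Fact (Nat.Prime 2) := ⟨Nat.prime_two⟩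
  obtain ⟨ξ, htr⟩ := suzTrans_of_cyclic K hcyc
    (fun x y hx1 hx2 hy1 hy2 => (hreg x y hx1 hx2 hy1 hy2).exists)
  have hZ := suz_center hP2 hna htwo ξ htr
  have hinv : ∃ z : P, z ≠ 1 ∧ z * z = 1 := by
    obtain ⟨x, y, _, hx1, hx2, _⟩ := htwo
    exact ⟨x, hx1, hx2⟩
  obtain ⟨x0, hx0, hx0sq, hrep, hinj⟩ := suzA_count hP2 ξ htr hZ hcard hinv
  obtain ⟨n, hn0, hn, ⟨C⟩⟩ := exists_suzCoord hP2 ξ htr hZ hcard x0 hx0 hx0sq hrep
  let _ : Fintype (GaloisField 2 n) := Fintype.ofFinite _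
  have hF : Fintype.card (GaloisField 2 n) = 2 ^ n := by
    rw [← Nat.card_eq_fintype_card]
    exact GaloisField.card 2 n hn0
  obtain ⟨t, ht0, htn, hcop, ⟨E⟩⟩ := suzA_sqExt hna ξ hZ x0 hx0sq hrep hinj n hn0 hF C
  have hn1 : 0 < n := Nat.pos_of_ne_zero hn0
  refine ⟨GaloisField 2 n, inferInstance, inferInstance, iterateFrobeniusEquiv (GaloisField 2 n) 2 t,
    by rw [hF, hn], ?_, ?_, ?_⟩
  · intro h
    have h1 : ∀ a : GaloisField 2 n, a ^ 2 ^ t = a := fun a => by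
      have h2 := congrArg (fun f : GaloisField 2 n ≃+* GaloisField 2 n => f a) h
      exact h2
    have hlt : 2 ^ t < Fintype.card (GaloisField 2 n) := by
      rw [hF]
      exact Nat.pow_lt_pow_right (by norm_num) htn
    have h2 : 1 < 2 ^ t := Nat.one_lt_two_pow ht0.ne'
    have hne := FiniteField.X_pow_card_sub_X_ne_zero (GaloisField 2 n) h2
    have hdeg := FiniteField.X_pow_card_sub_X_natDegree_eq (GaloisField 2 n) h2
    have h3 := Polynomial.card_le_degree_of_subset_roots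
      (p := (Polynomial.X ^ 2 ^ t - Polynomial.X : Polynomial (GaloisField 2 n)))
      (Z := Finset.univ) (by
        intro a _
        rw [Polynomial.mem_roots hne]
        simp [h1 a])
    rw [hdeg, Finset.card_univ] at h3
    omega
  · have hodd := odd_div_gcd_of_coprime n t hn1 ht0 hcop
    have hpow : ∀ (m : ℕ) (a : GaloisField 2 n),
        ((iterateFrobeniusEquiv (GaloisField 2 n) 2 t) ^ m) a = a ^ 2 ^ (t * m) := by
      intro m
      induction m with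
      | zero => intro a; simp
      | succ m ih =>
        intro a
        rw [pow_succ, RingAut.mul_apply, ih, iterateFrobeniusEquiv_def, ← pow_mul, ← pow_add,
          Nat.mul_succ, add_comm]
    have hfix : ∀ (e : ℕ) (a : GaloisField 2 n), a ^ 2 ^ (n * e) = a := by
      intro e a
      rw [pow_mul, ← hF]
      exact FiniteField.pow_card_pow e a
    have hone : (iterateFrobeniusEquiv (GaloisField 2 n) 2 t) ^ (n / Nat.gcd n t) = 1 := by
      ext a
      rw [hpow]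
      have h1 : t * (n / Nat.gcd n t) = n * (t / Nat.gcd n t) := by
        rw [← Nat.mul_div_assoc t (Nat.gcd_dvd_left n t),
          ← Nat.mul_div_assoc n (Nat.gcd_dvd_right n t), mul_comm]
      rw [h1, hfix]
      rfl
    exact Odd.of_dvd_nat hodd (orderOf_dvd_of_pow_eq_one hone)
  · exact nonempty_mulEquiv_suzukiTypeA
      ((iterateFrobeniusEquiv (GaloisField 2 n) 2 t : GaloisField 2 n ≃+* GaloisField 2 n) :
        GaloisField 2 n →+* GaloisField 2 n) E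

end final

end Cfsg.Agent.Helper50
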