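import Mathlib

set_option autoImplicit false
set_option linter.style.haveILetI false
set_option linter.unnecessarySimpa false

/-!
Transfer into an abelian quotient of a subgroup `M` which is "Frobenius-like" modulo the kernel:
if `m ∈ M ∩ M^x` with `x ∉ M` forces `ϕ m = 1`, then the transfer restricted to `M` is `ϕ`.
(The abelian case of Wielandt's generalisation of Frobenius' theorem.)
-/

namespace Cfsg.Agent.Helper50

open MulAction

theorem transfer_eq_of_frobenius_like {G : Type*} [Group G] {A : Type*} [CommGroup A]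
    (M : Subgroup G) [M.FiniteIndex] (ϕ : M →* A)
    (hfrob : ∀ x : G, x ∉ M → ∀ m : M, x⁻¹ * (m : G) * x ∈ M → ϕ m = 1) (g : M) :
    MonoidHom.transfer ϕ (g : G) = ϕ g := by
  classical
  letI := M.fintypeQuotientOfFiniteIndex
  letI : Fintype (Quotient (orbitRel (Subgroup.zpowers (g : G)) (G ⧸ M))) := Fintype.ofFinite _
  rw [MonoidHom.transfer_eq_prod_quotient_orbitRel_zpowers_quot]
  set q₀ : Quotient (orbitRel (Subgroup.zpowers (g : G)) (G ⧸ M)) :=
    Quotient.mk _ (((1 : G) : G ⧸ M)) with hq₀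
  have hzM : ∀ z : Subgroup.zpowers (g : G), (z : G) ∈ M := fun z =>
    (Subgroup.zpowers_le.mpr g.2) z.2
  rw [Fintype.prod_eq_single q₀]
  · have hout : q₀.out = (((1 : G) : G ⧸ M)) := by
      have h1 : (orbitRel (Subgroup.zpowers (g : G)) (G ⧸ M)) q₀.out (((1 : G) : G ⧸ M)) :=
        Quotient.mk_out (s := orbitRel (Subgroup.zpowers (g : G)) (G ⧸ M)) _
      rw [orbitRel_apply, mem_orbit_iff] at h1
      obtain ⟨z, hz⟩ := h1
      rw [← hz]
      show ((z : G) • (((1 : G) : G ⧸ M))) = _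
      rw [MulAction.Quotient.smul_mk, QuotientGroup.eq]
      simpa using M.inv_mem (hzM z)
    have hk : q₀.out.out ∈ M := by
      have h1 : ((q₀.out.out : G) : G ⧸ M) = (((1 : G) : G ⧸ M)) := by
        rw [QuotientGroup.out_eq', hout]
      rw [QuotientGroup.eq] at h1
      simpa using M.inv_mem h1
    have hper : Function.minimalPeriod ((g : G) • ·) q₀.out = 1 := by
      rw [Function.minimalPeriod_eq_one_iff_isFixedPt]
      show (g : G) • q₀.out = q₀.out
      rw [hout, MulAction.Quotient.smul_mk, QuotientGroup.eq]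
      simpa using M.inv_mem g.2
    have e : (⟨q₀.out.out⁻¹ * (g : G) ^ Function.minimalPeriod ((g : G) • ·) q₀.out * q₀.out.out,
        QuotientGroup.out_conj_pow_minimalPeriod_mem M (g : G) q₀.out⟩ : M)
          = (⟨q₀.out.out, hk⟩ : M)⁻¹ * g * ⟨q₀.out.out, hk⟩ := by
      apply Subtype.ext
      simp [hper]
    rw [e, map_mul, map_mul, map_inv, mul_comm, mul_inv_cancel_left]
  · intro q hq
    have hk : q.out.out ∉ M := by
      intro hk
      apply hq
      have h1 : q.out = (((1 : G) : G ⧸ M)) := by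
        rw [← QuotientGroup.out_eq' q.out, QuotientGroup.eq]
        simpa using M.inv_mem hk
      rw [hq₀, ← h1]
      exact (Quotient.out_eq q).symm
    apply hfrob (q.out.out⁻¹) (fun h => hk (by simpa using M.inv_mem h))
    show (q.out.out⁻¹)⁻¹ * (q.out.out⁻¹ * (g : G) ^ Function.minimalPeriod ((g : G) • ·) q.out
      * q.out.out) * q.out.out⁻¹ ∈ M
    have : (q.out.out⁻¹)⁻¹ * (q.out.out⁻¹ * (g : G) ^ Function.minimalPeriod ((g : G) • ·) q.out
      * q.out.out) * q.out.out⁻¹ = (g : G) ^ Function.minimalPeriod ((g : G) • ·) q.out := by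
      group
    rw [this]
    exact M.pow_mem g.2 _

/-- `H ⊴ M` with `M = H⟨m₀⟩` and `M ∩ M^x ≤ H` for all `x ∉ M`: there is a normal subgroup `N`
of `G` with `N ∩ M = H` (the kernel of the transfer into `M/H`). -/
theorem exists_normal_inf_eq_of_frobenius_like {G : Type*} [Group G] [Finite G]
    (H M : Subgroup G) (hHM : H ≤ M) (hMN : M ≤ Subgroup.normalizer (H : Set G)) (m₀ : G)
    (hm₀ : m₀ ∈ M) (hgen : M ≤ H ⊔ Subgroup.zpowers m₀)
    (hfrob : ∀ x : G, x ∉ M → ∀ m ∈ M, x⁻¹ * m * x ∈ M → m ∈ H) :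
    ∃ N : Subgroup G, N.Normal ∧ N ⊓ M = H := by
  haveI hn : (H.subgroupOf M).Normal :=
    (Subgroup.normal_subgroupOf_iff_le_normalizer hHM).mpr hMN
  haveI hcyc : IsCyclic (↥M ⧸ H.subgroupOf M) := by
    rw [isCyclic_iff_exists_zpowers_eq_top]
    refine ⟨QuotientGroup.mk (⟨m₀, hm₀⟩ : ↥M), ?_⟩
    rw [eq_top_iff]
    intro q _
    induction q using QuotientGroup.induction_on with
    | H y =>
      set S : Subgroup G := ((Subgroup.zpowers (QuotientGroup.mk (s := H.subgroupOf M)
        (⟨m₀, hm₀⟩ : ↥M))).comap (QuotientGroup.mk' (H.subgroupOf M))).map M.subtype with hS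
      have hHS : H ≤ S := by
        intro h hh
        refine ⟨⟨h, hHM hh⟩, ?_, rfl⟩
        rw [SetLike.mem_coe, Subgroup.mem_comap]
        have : (QuotientGroup.mk' (H.subgroupOf M)) ⟨h, hHM hh⟩ = 1 :=
          (QuotientGroup.eq_one_iff _).mpr (Subgroup.mem_subgroupOf.mpr hh)
        rw [this]
        exact Subgroup.one_mem _
      have hmS : m₀ ∈ S := by
        refine ⟨⟨m₀, hm₀⟩, ?_, rfl⟩
        rw [SetLike.mem_coe, Subgroup.mem_comap]
        exact Subgroup.mem_zpowers _
      have hMS : M ≤ S := le_trans hgen (sup_le hHS (Subgroup.zpowers_le.mpr hmS))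
      obtain ⟨y', hy', hyy⟩ := hMS y.2
      have : y' = y := Subtype.ext hyy
      rw [this, SetLike.mem_coe, Subgroup.mem_comap] at hy'
      exact hy'
  letI : CommGroup (↥M ⧸ H.subgroupOf M) := IsCyclic.commGroup
  have key := transfer_eq_of_frobenius_like M (QuotientGroup.mk' (H.subgroupOf M))
    (fun x hx m hm => (QuotientGroup.eq_one_iff _).mpr
      (Subgroup.mem_subgroupOf.mpr (hfrob x hx m m.2 hm)))
  refine ⟨(MonoidHom.transfer (QuotientGroup.mk' (H.subgroupOf M))).ker, inferInstance, ?_⟩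
  ext g
  constructor
  · intro hg
    obtain ⟨hg1, hg2⟩ := Subgroup.mem_inf.mp hg
    have h1 := key ⟨g, hg2⟩
    rw [MonoidHom.mem_ker] at hg1
    have h2 : (1 : ↥M ⧸ H.subgroupOf M) = (QuotientGroup.mk' (H.subgroupOf M)) ⟨g, hg2⟩ := by
      rw [← h1]; exact hg1.symm
    exact Subgroup.mem_subgroupOf.mp ((QuotientGroup.eq_one_iff _).mp h2.symm)
  · intro hg
    refine Subgroup.mem_inf.mpr ⟨?_, hHM hg⟩
    rw [MonoidHom.mem_ker]
    have h1 := key ⟨g, hHM hg⟩
    have h2 : (QuotientGroup.mk' (H.subgroupOf M)) ⟨g, hHM hg⟩ = 1 :=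
      (QuotientGroup.eq_one_iff _).mpr (Subgroup.mem_subgroupOf.mpr hg)
    rw [← h2]
    exact h1

end Cfsg.Agent.Helper50
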